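import Cfsg.Agent.Lib.Steinberg.AutExist
import Cfsg.Agent.Lib.Steinberg.AutTab3
import Cfsg.Agent.Lib.Steinberg.AutD4

/-!
Automorphisms of Chevalley groups: the decomposition theorem.
-/

set_option autoImplicit false
set_option linter.unusedSectionVars false
set_option linter.unusedVariables false

namespace Cfsg.Agent.Lib.Steinberg.AutMain

open scoped MatrixGroups Matrix
open Cfsg _root_.Cfsg.Lie ChevalleyDatum
open Cfsg.Agent.Lib.Chev
open Tables Tables2 Tables3 Raise Basic AxBasic Torus Products Products2 Mono1 Mono2 Mono3 SL2 SL2Chev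
open _root_.Cfsg.Agent.Lib.Steinberg.AutNorm _root_.Cfsg.Agent.Lib.Steinberg.AutRoot
open _root_.Cfsg.Agent.Lib.Steinberg.AutField _root_.Cfsg.Agent.Lib.Steinberg.AutShape _root_.Cfsg.Agent.Lib.Steinberg.AutAdj
open _root_.Cfsg.Agent.Lib.Steinberg.AutTilde _root_.Cfsg.Agent.Lib.Steinberg.AutExist
open _root_.Cfsg.Agent.Lib.Steinberg.AutTab2 _root_.Cfsg.Agent.Lib.Steinberg.AutTab3
open Cfsg.Agent.Lib.Lie.Facts (IsData)

universe u

variable {D : ChevalleyDatum} {F : Type u} [Field F]

/-- The action of a graph automorphism on the generators. -/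
def GraphSpec (ax : Ax D F) (ρ : ℕ → ℕ) (g : ↥(D.group F) ≃* ↥(D.group F)) : Prop :=
  ∀ j, j < D.rank → ∀ t,
    g (xg ax (D.simple j) t) = xg ax (D.simple (ρ j)) (t ^ D.graphExp (ringChar F) j (ρ j)) ∧
    g (xg ax (D.neg (D.simple j)) t) = xg ax (D.neg (D.simple (ρ j))) (t ^ D.graphExp (ringChar F) j (ρ j))

/-- The exceptional graph automorphisms exist over `F`. -/
def Exc (D : ChevalleyDatum) (F : Type u) [Field F] : Prop :=
  ∀ (ax : Ax D F) (L : List ℕ) (e : ℕ), (D, L, e) ∈ [(chevG2, [1, 0], 3), (chevB2, [1, 0], 2), (chevF4, [3, 2, 1, 0], 2)] →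
    ringChar F = e → ∃ g, GraphSpec ax (fun j => L.getD j 0) g

section

variable (ax : Ax D F)

lemma graphSpec_refl {ρ : ℕ → ℕ} (hρ : ∀ j, j < D.rank → ρ j = j) : GraphSpec ax ρ (MulEquiv.refl _) := by
  intro j hj t
  rw [hρ j hj]
  simp [graphExp]

lemma graphSpec_congr {ρ ρ' : ℕ → ℕ} (e : ∀ j, j < D.rank → ρ j = ρ' j) {g : ↥(D.group F) ≃* ↥(D.group F)}
    (hg : GraphSpec ax ρ' g) : GraphSpec ax ρ g := by
  intro j hj t
  rw [e j hj]
  exact hg j hj t

/-- Graph automorphisms of the simply laced types from the statements in the matrix form. -/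
lemma graphSpec_of_matrix (hl : ∀ i, i < D.rank → D.isLong (D.simple i) = false) {L : List ℕ} (hL : ∀ i, i < D.rank → L.getD i 0 < D.rank)
    (hα : ∃ α : ↥(D.group F) ≃* ↥(D.group F), ∀ (g : ↥(D.group F)) (i : ℕ) (t : F), i < D.rank →
      (((g : GL D.Idx F) : Matrix D.Idx D.Idx F) = D.x F (D.simple i) t →
        ((α g : GL D.Idx F) : Matrix D.Idx D.Idx F) = D.x F (D.simple (L.getD i 0)) t) ∧
      (((g : GL D.Idx F) : Matrix D.Idx D.Idx F) = D.x F (D.neg (D.simple i)) t →
        ((α g : GL D.Idx F) : Matrix D.Idx D.Idx F) = D.x F (D.neg (D.simple (L.getD i 0))) t)) :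
    ∃ g, GraphSpec ax (fun j => L.getD j 0) g := by
  obtain ⟨α, hα⟩ := hα
  refine ⟨α, fun j hj t => ?_⟩
  have e : D.graphExp (ringChar F) j (L.getD j 0) = 1 := by
    rw [graphExp, hl _ (hL j hj)]
    simp
  simp only [e, pow_one]
  constructor
  · apply Subtype.ext
    apply Units.ext
    exact (hα _ j t hj).1 rfl
  · apply Subtype.ext
    apply Units.ext
    exact (hα _ j t hj).2 rfl

end

section main

variable (ax : Ax D F) {σ : ↥(D.group F) ≃* ↥(D.group F)} {ρ : ℕ → ℕ} {c : ℕ → Fˣ} {τ : ℕ → F ≃+* F}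

/-- The existence of the graph automorphism of an automorphism preserving `U` and `V`. -/
theorem exists_graph (hD : IsData D) (hS : Shape ax σ ρ c τ) (hex : Exc D F) : ∃ g, GraphSpec ax ρ g := by
  have h := tab_of_mem hD
  have h2 := tab2_of_mem hD
  have hD' := hD
  have hinj : ∀ i j : ℕ, i < D.rank → j < D.rank → i ≠ j → ρ i ≠ ρ j :=
    fun i j hi hj hij e => hij (rho_inj h h2 ax hS hi hj e)
  have hbd : ∀ i j : ℕ, i < D.rank → j < D.rank → i ≠ j → D.bonds i j ≠ 0 → D.bonds (ρ i) (ρ j) ≠ 0 :=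
    fun i j hi hj hij hb e => hb ((bonds_iff h h2 ax hD hS hi hj hij).mp e)
  simp only [IsData, List.mem_cons, List.not_mem_nil, or_false] at hD'
  rcases hD' with rfl | rfl | rfl | rfl | rfl | rfl | rfl
  · -- G₂
    have h00 : ρ 0 < 2 := hS.lt 0 (by decide)
    have h01 : ρ 1 < 2 := hS.lt 1 (by decide)
    have hne : ρ 0 ≠ ρ 1 := hinj 0 1 (by decide) (by decide) (by decide)
    obtain ⟨hc1, hc2⟩ := cartan_G2
    have hcases : (ρ 0 = 0 ∧ ρ 1 = 1) ∨ (ρ 0 = 1 ∧ ρ 1 = 0) := by omega
    rcases hcases with ⟨e0, e1⟩ | ⟨e0, e1⟩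
    · refine ⟨_, graphSpec_refl ax (fun j hj => ?_)⟩
      have hj' : j < 2 := hj
      interval_cases j <;> assumption
    · have e3 := tau_pow_of h h2 ax hD hS (i := 0) (j := 1) (by decide) (by decide) 3 (by decide) (by simpa using hc1)
        (by rw [e0, e1]; exact hc2)
      rcases char_of_cube e3 with hc | ⟨hc, hb⟩
      · obtain ⟨g, hg⟩ := hex ax [1, 0] 3 (by simp) hc
        refine ⟨g, graphSpec_congr ax (fun j hj => ?_) hg⟩
        have hj' : j < 2 := hj
        interval_cases j <;> simpa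
      · exact (no_swap_g2 ax h hS e0 e1 hc hb).elim
  · -- B₂
    have h00 : ρ 0 < 2 := hS.lt 0 (by decide)
    have h01 : ρ 1 < 2 := hS.lt 1 (by decide)
    have hne : ρ 0 ≠ ρ 1 := hinj 0 1 (by decide) (by decide) (by decide)
    obtain ⟨hc1, hc2⟩ := cartan_B2
    have hcases : (ρ 0 = 0 ∧ ρ 1 = 1) ∨ (ρ 0 = 1 ∧ ρ 1 = 0) := by omega
    rcases hcases with ⟨e0, e1⟩ | ⟨e0, e1⟩
    · refine ⟨_, graphSpec_refl ax (fun j hj => ?_)⟩
      have hj' : j < 2 := hj
      interval_cases j <;> assumption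
    · have e3 := tau_pow_of h h2 ax hD hS (i := 0) (j := 1) (by decide) (by decide) 2 (by decide) (by simpa using hc1)
        (by rw [e0, e1]; exact hc2)
      obtain ⟨g, hg⟩ := hex ax [1, 0] 2 (by simp) (char_of_sq e3)
      refine ⟨g, graphSpec_congr ax (fun j hj => ?_) hg⟩
      have hj' : j < 2 := hj
      interval_cases j <;> simpa
  · -- D₄
    have hlt : ∀ i : ℕ, i < 4 → ρ i < 4 := fun i hi => hS.lt i hi
    have hp := perm_D4 ⟨ρ 0, hlt 0 (by decide)⟩ ⟨ρ 1, hlt 1 (by decide)⟩
      (fun e => hinj 0 1 (by decide) (by decide) (by decide) (Fin.mk.inj e))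
      (hbd 0 1 (by decide) (by decide) (by decide) (by decide +kernel))
      ⟨ρ 2, hlt 2 (by decide)⟩
      (fun e => hinj 0 2 (by decide) (by decide) (by decide) (Fin.mk.inj e))
      (fun e => hinj 1 2 (by decide) (by decide) (by decide) (Fin.mk.inj e))
      (hbd 1 2 (by decide) (by decide) (by decide) (by decide +kernel))
      ⟨ρ 3, hlt 3 (by decide)⟩
      (fun e => hinj 0 3 (by decide) (by decide) (by decide) (Fin.mk.inj e))
      (fun e => hinj 1 3 (by decide) (by decide) (by decide) (Fin.mk.inj e))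
      (fun e => hinj 2 3 (by decide) (by decide) (by decide) (Fin.mk.inj e))
      (hbd 1 3 (by decide) (by decide) (by decide) (by decide +kernel))
    have hsl : ∀ i, i < chevD4.rank → chevD4.isLong (chevD4.simple i) = false := by
      intro i hi
      have := allBelow_spec slOK_D4 i hi
      simp only [Bool.and_eq_true, Bool.not_eq_true'] at this
      exact this.1
    have key : ∀ L ∈ [[2, 1, 3, 0], [3, 1, 0, 2], [0, 1, 3, 2], [2, 1, 0, 3], [3, 1, 2, 0]],
        ∃ g, GraphSpec ax (fun j => (L : List ℕ).getD j 0) g := by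
      intro L hL
      refine graphSpec_of_matrix ax hsl ?_ (AutD4.exists_D4 L hL)
      intro i hi
      have hi' : i < 4 := hi
      simp only [List.mem_cons, List.not_mem_nil, or_false] at hL
      rcases hL with rfl | rfl | rfl | rfl | rfl <;> interval_cases i <;> decide
    rcases hp with ⟨e0, e1, e2, e3⟩ | ⟨e0, e1, e2, e3⟩ | ⟨e0, e1, e2, e3⟩ | ⟨e0, e1, e2, e3⟩ | ⟨e0, e1, e2, e3⟩ | ⟨e0, e1, e2, e3⟩
    all_goals
      have e0' := congrArg Fin.val e0
      have e1' := congrArg Fin.val e1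
      have e2' := congrArg Fin.val e2
      have e3' := congrArg Fin.val e3
      simp only at e0' e1' e2' e3'
    · refine ⟨_, graphSpec_refl ax (fun j hj => ?_)⟩
      have hj' : j < 4 := hj
      interval_cases j <;> assumption
    · obtain ⟨g, hg⟩ := key _ (by simp : [2, 1, 3, 0] ∈ _)
      refine ⟨g, graphSpec_congr ax (fun j hj => ?_) hg⟩
      have hj' : j < 4 := hj
      interval_cases j <;> simp [e0', e1', e2', e3']
    · obtain ⟨g, hg⟩ := key _ (by simp : [3, 1, 0, 2] ∈ _)
      refine ⟨g, graphSpec_congr ax (fun j hj => ?_) hg⟩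
      have hj' : j < 4 := hj
      interval_cases j <;> simp [e0', e1', e2', e3']
    · obtain ⟨g, hg⟩ := key _ (by simp : [0, 1, 3, 2] ∈ _)
      refine ⟨g, graphSpec_congr ax (fun j hj => ?_) hg⟩
      have hj' : j < 4 := hj
      interval_cases j <;> simp [e0', e1', e2', e3']
    · obtain ⟨g, hg⟩ := key _ (by simp : [2, 1, 0, 3] ∈ _)
      refine ⟨g, graphSpec_congr ax (fun j hj => ?_) hg⟩
      have hj' : j < 4 := hj
      interval_cases j <;> simp [e0', e1', e2', e3']
    · obtain ⟨g, hg⟩ := key _ (by simp : [3, 1, 2, 0] ∈ _)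
      refine ⟨g, graphSpec_congr ax (fun j hj => ?_) hg⟩
      have hj' : j < 4 := hj
      interval_cases j <;> simp [e0', e1', e2', e3']
  · -- F₄
    have hlt : ∀ i : ℕ, i < 4 → ρ i < 4 := fun i hi => hS.lt i hi
    have hp := perm_F4 ⟨ρ 0, hlt 0 (by decide)⟩ ⟨ρ 1, hlt 1 (by decide)⟩ ⟨ρ 2, hlt 2 (by decide)⟩ ⟨ρ 3, hlt 3 (by decide)⟩
      (fun e => hinj 0 1 (by decide) (by decide) (by decide) (Fin.mk.inj e))
      (fun e => hinj 0 2 (by decide) (by decide) (by decide) (Fin.mk.inj e))
      (fun e => hinj 0 3 (by decide) (by decide) (by decide) (Fin.mk.inj e))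
      (fun e => hinj 1 2 (by decide) (by decide) (by decide) (Fin.mk.inj e))
      (fun e => hinj 1 3 (by decide) (by decide) (by decide) (Fin.mk.inj e))
      (fun e => hinj 2 3 (by decide) (by decide) (by decide) (Fin.mk.inj e))
      (hbd 0 1 (by decide) (by decide) (by decide) (by decide +kernel))
      (hbd 1 2 (by decide) (by decide) (by decide) (by decide +kernel))
      (hbd 2 3 (by decide) (by decide) (by decide) (by decide +kernel))
    obtain ⟨hc01, hc10, hc12, hc21, hc23, hc32⟩ := cartan_F4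
    rcases hp with ⟨e0, e1, e2, e3⟩ | ⟨e0, e1, e2, e3⟩
    · have e0' : ρ 0 = 0 := congrArg Fin.val e0
      have e1' : ρ 1 = 1 := congrArg Fin.val e1
      have e2' : ρ 2 = 2 := congrArg Fin.val e2
      have e3' : ρ 3 = 3 := congrArg Fin.val e3
      refine ⟨_, graphSpec_refl ax (fun j hj => ?_)⟩
      have hj' : j < 4 := hj
      interval_cases j <;> assumption
    · have e0' : ρ 0 = 3 := congrArg Fin.val e0
      have e1' : ρ 1 = 2 := congrArg Fin.val e1
      have e2' : ρ 2 = 1 := congrArg Fin.val e2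
      have e3' : ρ 3 = 0 := congrArg Fin.val e3
      have t3 := tau_pow_of h h2 ax hD hS (i := 1) (j := 2) (by decide) (by decide) 2 (by decide) (by simpa using hc12)
        (by rw [e1', e2']; exact hc21)
      obtain ⟨g, hg⟩ := hex ax [3, 2, 1, 0] 2 (by simp) (char_of_sq t3)
      refine ⟨g, graphSpec_congr ax (fun j hj => ?_) hg⟩
      have hj' : j < 4 := hj
      interval_cases j <;> simp [e0', e1', e2', e3']
  · -- E₆
    have hlt : ∀ i : ℕ, i < 6 → ρ i < 6 := fun i hi => hS.lt i hi
    have hp := perm_E6 ⟨ρ 0, hlt 0 (by decide)⟩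
      ⟨ρ 2, hlt 2 (by decide)⟩
      (fun e => hinj 0 2 (by decide) (by decide) (by decide) (Fin.mk.inj e))
      (hbd 0 2 (by decide) (by decide) (by decide) (by decide +kernel))
      ⟨ρ 3, hlt 3 (by decide)⟩
      (fun e => hinj 0 3 (by decide) (by decide) (by decide) (Fin.mk.inj e))
      (fun e => hinj 2 3 (by decide) (by decide) (by decide) (Fin.mk.inj e))
      (hbd 2 3 (by decide) (by decide) (by decide) (by decide +kernel))
      ⟨ρ 1, hlt 1 (by decide)⟩
      (fun e => hinj 0 1 (by decide) (by decide) (by decide) (Fin.mk.inj e))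
      (fun e => hinj 2 1 (by decide) (by decide) (by decide) (Fin.mk.inj e))
      (fun e => hinj 3 1 (by decide) (by decide) (by decide) (Fin.mk.inj e))
      (hbd 3 1 (by decide) (by decide) (by decide) (by decide +kernel))
      ⟨ρ 4, hlt 4 (by decide)⟩
      (fun e => hinj 0 4 (by decide) (by decide) (by decide) (Fin.mk.inj e))
      (fun e => hinj 2 4 (by decide) (by decide) (by decide) (Fin.mk.inj e))
      (fun e => hinj 3 4 (by decide) (by decide) (by decide) (Fin.mk.inj e))
      (fun e => hinj 1 4 (by decide) (by decide) (by decide) (Fin.mk.inj e))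
      (hbd 3 4 (by decide) (by decide) (by decide) (by decide +kernel))
      ⟨ρ 5, hlt 5 (by decide)⟩
      (fun e => hinj 0 5 (by decide) (by decide) (by decide) (Fin.mk.inj e))
      (fun e => hinj 2 5 (by decide) (by decide) (by decide) (Fin.mk.inj e))
      (fun e => hinj 3 5 (by decide) (by decide) (by decide) (Fin.mk.inj e))
      (fun e => hinj 1 5 (by decide) (by decide) (by decide) (Fin.mk.inj e))
      (fun e => hinj 4 5 (by decide) (by decide) (by decide) (Fin.mk.inj e))
      (hbd 4 5 (by decide) (by decide) (by decide) (by decide +kernel))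
    have hsl : ∀ i, i < chevE6.rank → chevE6.isLong (chevE6.simple i) = false := by
      intro i hi
      have := allBelow_spec slOK_E6 i hi
      simp only [Bool.and_eq_true, Bool.not_eq_true'] at this
      exact this.1
    rcases hp with ⟨e0, e1, e2, e3, e4, e5⟩ | ⟨e0, e1, e2, e3, e4, e5⟩
    · have e0' := congrArg Fin.val e0
      have e1' := congrArg Fin.val e1
      have e2' := congrArg Fin.val e2
      have e3' := congrArg Fin.val e3
      have e4' := congrArg Fin.val e4
      have e5' := congrArg Fin.val e5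
      simp only at e0' e1' e2' e3' e4' e5'
      refine ⟨_, graphSpec_refl ax (fun j hj => ?_)⟩
      have hj' : j < 6 := hj
      interval_cases j <;> assumption
    · have e0' := congrArg Fin.val e0
      have e1' := congrArg Fin.val e1
      have e2' := congrArg Fin.val e2
      have e3' := congrArg Fin.val e3
      have e4' := congrArg Fin.val e4
      have e5' := congrArg Fin.val e5
      simp only at e0' e1' e2' e3' e4' e5'
      obtain ⟨g, hg⟩ := graphSpec_of_matrix (L := [5, 1, 4, 3, 2, 0]) ax hsl (by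
        intro i hi
        have hi' : i < 6 := hi
        interval_cases i <;> decide) (Cfsg.Agent.S1081.result (F := F) (chevE6, [5, 1, 4, 3, 2, 0]) (by simp))
      refine ⟨g, graphSpec_congr ax (fun j hj => ?_) hg⟩
      have hj' : j < 6 := hj
      interval_cases j <;> simp [e0', e1', e2', e3', e4', e5']
  · -- E₇
    have hlt : ∀ i : ℕ, i < 7 → ρ i < 7 := fun i hi => hS.lt i hi
    have hp := perm_E7 ⟨ρ 0, hlt 0 (by decide)⟩
      ⟨ρ 2, hlt 2 (by decide)⟩
      (fun e => hinj 0 2 (by decide) (by decide) (by decide) (Fin.mk.inj e))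
      (hbd 0 2 (by decide) (by decide) (by decide) (by decide +kernel))
      ⟨ρ 3, hlt 3 (by decide)⟩
      (fun e => hinj 0 3 (by decide) (by decide) (by decide) (Fin.mk.inj e))
      (fun e => hinj 2 3 (by decide) (by decide) (by decide) (Fin.mk.inj e))
      (hbd 2 3 (by decide) (by decide) (by decide) (by decide +kernel))
      ⟨ρ 1, hlt 1 (by decide)⟩
      (fun e => hinj 0 1 (by decide) (by decide) (by decide) (Fin.mk.inj e))
      (fun e => hinj 2 1 (by decide) (by decide) (by decide) (Fin.mk.inj e))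
      (fun e => hinj 3 1 (by decide) (by decide) (by decide) (Fin.mk.inj e))
      (hbd 3 1 (by decide) (by decide) (by decide) (by decide +kernel))
      ⟨ρ 4, hlt 4 (by decide)⟩
      (fun e => hinj 0 4 (by decide) (by decide) (by decide) (Fin.mk.inj e))
      (fun e => hinj 2 4 (by decide) (by decide) (by decide) (Fin.mk.inj e))
      (fun e => hinj 3 4 (by decide) (by decide) (by decide) (Fin.mk.inj e))
      (fun e => hinj 1 4 (by decide) (by decide) (by decide) (Fin.mk.inj e))
      (hbd 3 4 (by decide) (by decide) (by decide) (by decide +kernel))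
      ⟨ρ 5, hlt 5 (by decide)⟩
      (fun e => hinj 0 5 (by decide) (by decide) (by decide) (Fin.mk.inj e))
      (fun e => hinj 2 5 (by decide) (by decide) (by decide) (Fin.mk.inj e))
      (fun e => hinj 3 5 (by decide) (by decide) (by decide) (Fin.mk.inj e))
      (fun e => hinj 1 5 (by decide) (by decide) (by decide) (Fin.mk.inj e))
      (fun e => hinj 4 5 (by decide) (by decide) (by decide) (Fin.mk.inj e))
      (hbd 4 5 (by decide) (by decide) (by decide) (by decide +kernel))
      ⟨ρ 6, hlt 6 (by decide)⟩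
      (fun e => hinj 0 6 (by decide) (by decide) (by decide) (Fin.mk.inj e))
      (fun e => hinj 2 6 (by decide) (by decide) (by decide) (Fin.mk.inj e))
      (fun e => hinj 3 6 (by decide) (by decide) (by decide) (Fin.mk.inj e))
      (fun e => hinj 1 6 (by decide) (by decide) (by decide) (Fin.mk.inj e))
      (fun e => hinj 4 6 (by decide) (by decide) (by decide) (Fin.mk.inj e))
      (fun e => hinj 5 6 (by decide) (by decide) (by decide) (Fin.mk.inj e))
      (hbd 5 6 (by decide) (by decide) (by decide) (by decide +kernel))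
    obtain ⟨e0, e1, e2, e3, e4, e5, e6⟩ := hp
    have e0' := congrArg Fin.val e0
    have e1' := congrArg Fin.val e1
    have e2' := congrArg Fin.val e2
    have e3' := congrArg Fin.val e3
    have e4' := congrArg Fin.val e4
    have e5' := congrArg Fin.val e5
    have e6' := congrArg Fin.val e6
    simp only at e0' e1' e2' e3' e4' e5' e6'
    refine ⟨_, graphSpec_refl ax (fun j hj => ?_)⟩
    have hj' : j < 7 := hj
    interval_cases j <;> assumption
  · -- E₈
    have hlt : ∀ i : ℕ, i < 8 → ρ i < 8 := fun i hi => hS.lt i hi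
    have hp := perm_E8 ⟨ρ 0, hlt 0 (by decide)⟩
      ⟨ρ 2, hlt 2 (by decide)⟩
      (fun e => hinj 0 2 (by decide) (by decide) (by decide) (Fin.mk.inj e))
      (hbd 0 2 (by decide) (by decide) (by decide) (by decide +kernel))
      ⟨ρ 3, hlt 3 (by decide)⟩
      (fun e => hinj 0 3 (by decide) (by decide) (by decide) (Fin.mk.inj e))
      (fun e => hinj 2 3 (by decide) (by decide) (by decide) (Fin.mk.inj e))
      (hbd 2 3 (by decide) (by decide) (by decide) (by decide +kernel))
      ⟨ρ 1, hlt 1 (by decide)⟩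
      (fun e => hinj 0 1 (by decide) (by decide) (by decide) (Fin.mk.inj e))
      (fun e => hinj 2 1 (by decide) (by decide) (by decide) (Fin.mk.inj e))
      (fun e => hinj 3 1 (by decide) (by decide) (by decide) (Fin.mk.inj e))
      (hbd 3 1 (by decide) (by decide) (by decide) (by decide +kernel))
      ⟨ρ 4, hlt 4 (by decide)⟩
      (fun e => hinj 0 4 (by decide) (by decide) (by decide) (Fin.mk.inj e))
      (fun e => hinj 2 4 (by decide) (by decide) (by decide) (Fin.mk.inj e))
      (fun e => hinj 3 4 (by decide) (by decide) (by decide) (Fin.mk.inj e))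
      (fun e => hinj 1 4 (by decide) (by decide) (by decide) (Fin.mk.inj e))
      (hbd 3 4 (by decide) (by decide) (by decide) (by decide +kernel))
      ⟨ρ 5, hlt 5 (by decide)⟩
      (fun e => hinj 0 5 (by decide) (by decide) (by decide) (Fin.mk.inj e))
      (fun e => hinj 2 5 (by decide) (by decide) (by decide) (Fin.mk.inj e))
      (fun e => hinj 3 5 (by decide) (by decide) (by decide) (Fin.mk.inj e))
      (fun e => hinj 1 5 (by decide) (by decide) (by decide) (Fin.mk.inj e))
      (fun e => hinj 4 5 (by decide) (by decide) (by decide) (Fin.mk.inj e))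
      (hbd 4 5 (by decide) (by decide) (by decide) (by decide +kernel))
      ⟨ρ 6, hlt 6 (by decide)⟩
      (fun e => hinj 0 6 (by decide) (by decide) (by decide) (Fin.mk.inj e))
      (fun e => hinj 2 6 (by decide) (by decide) (by decide) (Fin.mk.inj e))
      (fun e => hinj 3 6 (by decide) (by decide) (by decide) (Fin.mk.inj e))
      (fun e => hinj 1 6 (by decide) (by decide) (by decide) (Fin.mk.inj e))
      (fun e => hinj 4 6 (by decide) (by decide) (by decide) (Fin.mk.inj e))
      (fun e => hinj 5 6 (by decide) (by decide) (by decide) (Fin.mk.inj e))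
      (hbd 5 6 (by decide) (by decide) (by decide) (by decide +kernel))
      ⟨ρ 7, hlt 7 (by decide)⟩
      (fun e => hinj 0 7 (by decide) (by decide) (by decide) (Fin.mk.inj e))
      (fun e => hinj 2 7 (by decide) (by decide) (by decide) (Fin.mk.inj e))
      (fun e => hinj 3 7 (by decide) (by decide) (by decide) (Fin.mk.inj e))
      (fun e => hinj 1 7 (by decide) (by decide) (by decide) (Fin.mk.inj e))
      (fun e => hinj 4 7 (by decide) (by decide) (by decide) (Fin.mk.inj e))
      (fun e => hinj 5 7 (by decide) (by decide) (by decide) (Fin.mk.inj e))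
      (fun e => hinj 6 7 (by decide) (by decide) (by decide) (Fin.mk.inj e))
      (hbd 6 7 (by decide) (by decide) (by decide) (by decide +kernel))
    obtain ⟨e0, e1, e2, e3, e4, e5, e6, e7⟩ := hp
    have e0' := congrArg Fin.val e0
    have e1' := congrArg Fin.val e1
    have e2' := congrArg Fin.val e2
    have e3' := congrArg Fin.val e3
    have e4' := congrArg Fin.val e4
    have e5' := congrArg Fin.val e5
    have e6' := congrArg Fin.val e6
    have e7' := congrArg Fin.val e7
    simp only at e0' e1' e2' e3' e4' e5' e6' e7'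
    refine ⟨_, graphSpec_refl ax (fun j hj => ?_)⟩
    have hj' : j < 8 := hj
    interval_cases j <;> assumption

/-- The permutation of the nodes is a symmetry of the diagram. -/
theorem diagram_sym (hD : IsData D) (hS : Shape ax σ ρ c τ) {π : Equiv.Perm (Fin D.rank)}
    (hπ : ∀ i : Fin D.rank, ((π i : Fin D.rank) : ℕ) = ρ i) : D.IsDiagramSymmetry π := by
  have h := tab_of_mem hD
  have h2 := tab2_of_mem hD
  intro i j hij
  rw [hπ, hπ]
  have hij' : (i : ℕ) ≠ j := fun e => hij (Fin.ext e)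
  have hb := bonds_iff h h2 ax hD hS i.2 j.2 hij'
  have hne : ρ i ≠ ρ j := fun e => hij' (rho_inj h h2 ax hS i.2 j.2 e)
  have hi' := hS.lt i i.2
  have hj' := hS.lt j j.2
  have hD' := hD
  have hsl : ∀ (hs : slOK D = true), D.bonds (ρ i) (ρ j) = D.bonds i j := by
    intro hs
    have key : ∀ a b, a < D.rank → b < D.rank → a ≠ b → D.bonds a b = 0 ∨ D.bonds a b = 1 := by
      intro a b ha hb' hab
      have h1 := allBelow_spec (Bool.and_eq_true _ _ ▸ allBelow_spec hs a ha).2 b hb'
      have h3 := allBelow_spec (Bool.and_eq_true _ _ ▸ allBelow_spec hs b hb').2 a ha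
      simp only [Bool.or_eq_true, beq_iff_eq, hab, hab.symm, false_or] at h1 h3
      rcases h1 with h1 | h1 <;> rcases h3 with h3 | h3 <;> simp [bonds, h1, h3]
    rcases key _ _ hi' hj' hne with e1 | e1 <;> rcases key _ _ i.2 j.2 hij' with e2 | e2
    · rw [e1, e2]
    · exact absurd (hb.mp e1) (by rw [e2]; decide)
    · exact absurd (hb.mpr e2) (by rw [e1]; decide)
    · rw [e1, e2]
  simp only [IsData, List.mem_cons, List.not_mem_nil, or_false] at hD'
  rcases hD' with rfl | rfl | rfl | rfl | rfl | rfl | rfl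
  · -- G₂
    obtain ⟨i, hi⟩ := i
    obtain ⟨j, hj⟩ := j
    have hi2 : i < 2 := hi
    have hj2 : j < 2 := hj
    have hi3 : ρ i < 2 := hi'
    have hj3 : ρ j < 2 := hj'
    simp only at hne hij' ⊢
    have e1 : chevG2.bonds (ρ i) (ρ j) = 3 := by
      have : (ρ i = 0 ∧ ρ j = 1) ∨ (ρ i = 1 ∧ ρ j = 0) := by omega
      rcases this with ⟨a, b⟩ | ⟨a, b⟩ <;> rw [a, b] <;> decide +kernel
    have e2 : chevG2.bonds i j = 3 := by
      have : (i = 0 ∧ j = 1) ∨ (i = 1 ∧ j = 0) := by omega
      rcases this with ⟨a, b⟩ | ⟨a, b⟩ <;> rw [a, b] <;> decide +kernel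
    rw [e1, e2]
  · -- B₂
    obtain ⟨i, hi⟩ := i
    obtain ⟨j, hj⟩ := j
    have hi2 : i < 2 := hi
    have hj2 : j < 2 := hj
    have hi3 : ρ i < 2 := hi'
    have hj3 : ρ j < 2 := hj'
    simp only at hne hij' ⊢
    have e1 : chevB2.bonds (ρ i) (ρ j) = 2 := by
      have : (ρ i = 0 ∧ ρ j = 1) ∨ (ρ i = 1 ∧ ρ j = 0) := by omega
      rcases this with ⟨a, b⟩ | ⟨a, b⟩ <;> rw [a, b] <;> decide +kernel
    have e2 : chevB2.bonds i j = 2 := by
      have : (i = 0 ∧ j = 1) ∨ (i = 1 ∧ j = 0) := by omega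
      rcases this with ⟨a, b⟩ | ⟨a, b⟩ <;> rw [a, b] <;> decide +kernel
    rw [e1, e2]
  · exact hsl slOK_D4
  · -- F₄
    have hlt : ∀ i : ℕ, i < 4 → ρ i < 4 := fun i hi => hS.lt i hi
    have hinj : ∀ i j : ℕ, i < 4 → j < 4 → i ≠ j → ρ i ≠ ρ j :=
      fun i j hi hj hij e => hij (rho_inj h h2 ax hS hi hj e)
    have hbd : ∀ i j : ℕ, i < 4 → j < 4 → i ≠ j → chevF4.bonds i j ≠ 0 → chevF4.bonds (ρ i) (ρ j) ≠ 0 :=
      fun i j hi hj hij hb e => hb ((bonds_iff h h2 ax hD hS hi hj hij).mp e)
    have hp := perm_F4 ⟨ρ 0, hlt 0 (by decide)⟩ ⟨ρ 1, hlt 1 (by decide)⟩ ⟨ρ 2, hlt 2 (by decide)⟩ ⟨ρ 3, hlt 3 (by decide)⟩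
      (fun e => hinj 0 1 (by decide) (by decide) (by decide) (Fin.mk.inj e))
      (fun e => hinj 0 2 (by decide) (by decide) (by decide) (Fin.mk.inj e))
      (fun e => hinj 0 3 (by decide) (by decide) (by decide) (Fin.mk.inj e))
      (fun e => hinj 1 2 (by decide) (by decide) (by decide) (Fin.mk.inj e))
      (fun e => hinj 1 3 (by decide) (by decide) (by decide) (Fin.mk.inj e))
      (fun e => hinj 2 3 (by decide) (by decide) (by decide) (Fin.mk.inj e))
      (hbd 0 1 (by decide) (by decide) (by decide) (by decide +kernel))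
      (hbd 1 2 (by decide) (by decide) (by decide) (by decide +kernel))
      (hbd 2 3 (by decide) (by decide) (by decide) (by decide +kernel))
    obtain ⟨i, hi⟩ := i
    obtain ⟨j, hj⟩ := j
    have hi2 : i < 4 := hi
    have hj2 : j < 4 := hj
    simp only at hij' ⊢
    rcases hp with ⟨e0, e1, e2, e3⟩ | ⟨e0, e1, e2, e3⟩
    · have e0' : ρ 0 = 0 := congrArg Fin.val e0
      have e1' : ρ 1 = 1 := congrArg Fin.val e1
      have e2' : ρ 2 = 2 := congrArg Fin.val e2
      have e3' : ρ 3 = 3 := congrArg Fin.val e3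
      interval_cases i <;> interval_cases j <;> simp only [e0', e1', e2', e3'] <;> first | rfl | decide +kernel
    · have e0' : ρ 0 = 3 := congrArg Fin.val e0
      have e1' : ρ 1 = 2 := congrArg Fin.val e1
      have e2' : ρ 2 = 1 := congrArg Fin.val e2
      have e3' : ρ 3 = 0 := congrArg Fin.val e3
      interval_cases i <;> interval_cases j <;> simp only [e0', e1', e2', e3'] <;> first | rfl | decide +kernel | exact absurd rfl hij'
  · exact hsl slOK_E6
  · exact hsl slOK_E7
  · exact hsl slOK_E8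

/-- The decomposition of an automorphism preserving `U` and `V`. -/
theorem shape_decomp (hD : IsData D) (hS : Shape ax σ ρ c τ) {τ' : F ≃+* F}
    (hτ' : ∀ j, j < D.rank → ∀ t, τ j t = (τ' t) ^ D.graphExp (ringChar F) j (ρ j))
    {g : ↥(D.group F) ≃* ↥(D.group F)} (hg : GraphSpec ax ρ g)
    {χ : ℕ → Fˣ} (hχ : D.IsRootCharacter χ) (hc : ∀ j, j < D.rank → χ (D.simple (ρ j)) = c j) :
    σ = (fieldAut (tab_of_mem hD) ax τ').trans (g.trans (diagAut hD ax hχ)) := by
  have h := tab_of_mem hD
  have h2 := tab2_of_mem hD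
  apply aut_ext h h2 ax
  · intro j hj t
    simp only [MulEquiv.trans_apply]
    rw [fieldAut_xg, (hg j hj _).1, diagAut_xg hD ax hχ (h.simple_lt _ (hS.lt j hj)), hc j hj, hS.pos j hj, hτ' j hj t]
  · intro j hj t
    simp only [MulEquiv.trans_apply]
    rw [fieldAut_xg, (hg j hj _).2, diagAut_xg hD ax hχ (h.neg_lt _ (h.simple_lt _ (hS.lt j hj))),
      hχ.1 _ (h.simple_lt _ (hS.lt j hj)), hc j hj, hS.neg j hj, hτ' j hj t]
    simp

/-- A graph automorphism in the sense of the definition. -/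
lemma isGraphAut_of_spec (hD : IsData D) {π : Equiv.Perm (Fin D.rank)} (hπ : D.IsDiagramSymmetry π)
    {g : ↥(D.group F) ≃* ↥(D.group F)} (hg : GraphSpec ax (fun j => if h : j < D.rank then π ⟨j, h⟩ else j) g) :
    D.IsGraphAut g := by
  refine ⟨π, hπ, fun u i t => ⟨fun hu => ?_, fun hu => ?_⟩⟩
  · have e : u = xg ax (D.simple i) t := Subtype.ext (Units.ext hu)
    rw [e, (hg i i.2 t).1]
    simp
  · have e : u = xg ax (D.neg (D.simple i)) t := Subtype.ext (Units.ext hu)
    rw [e, (hg i i.2 t).2]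
    simp

end main

/-- The data of an automorphism preserving `U` and `V`. -/
theorem exists_decomp [Finite F] (ax : Ax D F) (hD : IsData D) (hex : Exc D F) {σ : ↥(D.group F) ≃* ↥(D.group F)}
    (hU : ∀ u, u ∈ Ug D F ↔ σ u ∈ Ug D F) (hV : ∀ v, v ∈ Vg D F ↔ σ v ∈ Vg D F) :
    ∃ (π : Equiv.Perm (Fin D.rank)) (τ' : F ≃+* F) (g : ↥(D.group F) ≃* ↥(D.group F)) (χ : ℕ → Fˣ) (hχ : D.IsRootCharacter χ),
      D.IsDiagramSymmetry π ∧ GraphSpec ax (fun j => if h : j < D.rank then π ⟨j, h⟩ else j) g ∧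
      σ = (fieldAut (tab_of_mem hD) ax τ').trans (g.trans (diagAut hD ax hχ)) := by
  classical
  have h := tab_of_mem hD
  have h2 := tab2_of_mem hD
  have h3 := tab3_of_mem hD
  obtain ⟨ρ, c, τ, hS⟩ := exists_shape h h2 h3 ax hD hU hV
  obtain ⟨τ', hτ'⟩ := exists_tilde ax hD hS
  obtain ⟨g, hg⟩ := exists_graph ax hD hS hex
  obtain ⟨π, hπ⟩ := exists_perm h h2 ax hS
  let c'' : ℕ → Fˣ := fun i => if hi : i < D.rank then c (π.symm ⟨i, hi⟩) else 1
  have hχ := isRootCharacter_psiN hD c''
  refine ⟨π, τ', g, psiN D c'', hχ, diagram_sym ax hD hS hπ, ?_, shape_decomp ax hD hS hτ' hg hχ ?_⟩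
  · refine graphSpec_congr ax (fun j hj => ?_) hg
    simp only [hj, dif_pos]
    exact hπ ⟨j, hj⟩
  · intro j hj
    rw [psiN_simple hD c'' (hS.lt j hj)]
    have e5 : π.symm ⟨ρ j, hS.lt j hj⟩ = ⟨j, hj⟩ := by
      rw [Equiv.symm_apply_eq]
      exact Fin.ext (hπ ⟨j, hj⟩).symm
    simp only [c'', hS.lt j hj, dif_pos, e5]

/-- The automorphism theorem of Steinberg, given the exceptional graph automorphisms. -/
theorem decomposition [Finite F] (hD : IsData D) (hex : Exc D F) (θ : ↥(D.group F) ≃* ↥(D.group F)) :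
    ∃ (x : ↥(D.group F)) (d g f : ↥(D.group F) ≃* ↥(D.group F)),
      D.IsDiagonalAut d ∧ D.IsGraphAut g ∧ D.IsFieldAut f ∧ ∀ y : ↥(D.group F), θ y = x * d (g (f y)) * x⁻¹ := by
  have ax := Cfsg.Agent.Lib.Lie.AxOf.ax_of_mem (F := F) hD
  have h := tab_of_mem hD
  obtain ⟨x, σ, hx, hU, hV⟩ := exists_normalized hD θ
  obtain ⟨π, τ', g, χ, hχ, hπ, hg, e⟩ := exists_decomp ax hD hex hU hV
  refine ⟨x, diagAut hD ax hχ, g, fieldAut h ax τ', isDiagonalAut_diagAut hD ax hχ, isGraphAut_of_spec ax hD hπ hg,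
    isFieldAut_fieldAut h ax τ', fun y => ?_⟩
  rw [hx y, e]
  rfl

end Cfsg.Agent.Lib.Steinberg.AutMain
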