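import Cfsg.Agent.Lib.Steinberg.AutMain

/-!
Automorphisms of Chevalley groups: an element conjugating the fundamental root elements into `U` normalizes `U`, so an
automorphism of the shape found above preserves `U` and `V`.
-/

set_option autoImplicit false
set_option linter.unusedSectionVars false
set_option linter.unusedVariables false

namespace Cfsg.Agent.Lib.Steinberg.AutPres

open scoped MatrixGroups Matrix
open Cfsg _root_.Cfsg.Lie ChevalleyDatum
open Cfsg.Agent.Lib.Chev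
open Tables Tables2 Tables3 Raise Basic AxBasic Torus Products Products2 Mono1 Mono2 Mono3 Order1 Parab Bn Unipotent
open _root_.Cfsg.Agent.Lib.Steinberg.AutNorm _root_.Cfsg.Agent.Lib.Steinberg.AutRoot
open _root_.Cfsg.Agent.Lib.Steinberg.AutShape _root_.Cfsg.Agent.Lib.Steinberg.AutAdj
open _root_.Cfsg.Agent.Lib.Steinberg.AutExist _root_.Cfsg.Agent.Lib.Steinberg.AutMain
open Cfsg.Agent.Lib.Lie.Facts (IsData)

universe u

variable {D : ChevalleyDatum} {F : Type u} [Field F]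

section gl

variable (h : Tab D) (h2 : Tab2 D) (ax : Ax D F)

include h ax in
lemma U_le_upSub (k : ℕ) : D.posUnipotent F ≤ upSub (F := F) (grade D (fJ {k})) := by
  rw [posUnipotent_eq ax]
  apply rootClosure_le
  intro r t hr
  apply x_mem_upSub h ax hr.1
  rw [lin]
  apply Finset.sum_nonneg
  intro i hi
  exact mul_nonneg (fJ_nonneg _ _) ((isPosRoot_iff h hr.1).mp hr i (Finset.mem_range.mp hi))

include h h2 ax in
/-- If `n v n⁻¹ ∈ B` for `v ∈ U` which has a nontrivial coordinate at `p_k`, then `w p_k > 0`. -/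
lemma pos_of_conj [Finite F] {l : List ℕ} (hl : ∀ i ∈ l, i < D.rank) {k : ℕ} (hk : k < D.rank) {u : GL D.Idx F}
    (hu : u ∈ D.posUnipotent F)
    (hm : nw D ax l * (u * xG ax (D.simple k) 1 * u⁻¹) * (nw D ax l)⁻¹ ∈ D.borelSubgroup F) :
    D.IsPosRoot (wWord D l (D.simple k)) := by
  by_contra hneg
  have hpk := h.simple_lt k hk
  set v := u * xG ax (D.simple k) 1 * u⁻¹ with hv
  have hvU : v ∈ D.posUnipotent F := by
    refine Subgroup.mul_mem _ (Subgroup.mul_mem _ hu ?_) (Subgroup.inv_mem _ hu)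
    rw [posUnipotent_eq ax]
    exact xG_mem_rootClosure ax (simple_isPos h hk) _
  obtain ⟨a, ha, b, hb, e⟩ := U_factor h h2 ax hl hvU
  have h5 := conj_Up h h2 ax hl hb
  have h4 := conj_Um h h2 ax hl ha
  have h6 : nw D ax l * a * (nw D ax l)⁻¹ = (nw D ax l * v * (nw D ax l)⁻¹) * (nw D ax l * b * (nw D ax l)⁻¹)⁻¹ := by
    rw [e]
    group
  have h7 : nw D ax l * a * (nw D ax l)⁻¹ ∈ D.borelSubgroup F := by
    rw [h6]
    exact Subgroup.mul_mem _ hm (Subgroup.inv_mem _ ((le_sup_left : D.posUnipotent F ≤ _) h5))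
  have h8 := eq_one_of_conj_mem h h2 ax h4 h7
  rw [h8, one_mul] at e
  rw [← e] at hb
  -- `v` raises the grading
  have hvr : v ∈ raisingSubgroup (F := F) (grade D (fJ {k})) 1 le_rfl := by
    rw [← closure_eq_rootClosure ax] at hb
    refine Unipotent.closure_le_raising h le_rfl _ ?_ hb
    rintro r ⟨hr, hne⟩
    refine ⟨hr.1, lin_fJ_pos h hr ?_⟩
    intro hin
    apply hneg
    have hr0 := hr.1
    have hc := (inRootSub_iff h hr0).mp hin
    have h7 := h2.support r hr0 k hk (fun m hm hmk => hc m hm hmk)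
    have h8 := (isPosRoot_iff h hr0).mp hr k hk
    have h9 : coef D r k = 1 := by
      rcases h7 with h7 | h7
      · exact h7
      · omega
    have h10 : ∀ m, m < D.rank → coef D r m = coef D (D.simple k) m := by
      intro m hm
      rw [h.coef_simple k hk m hm]
      split_ifs with hmj
      · rw [hmj, h9]
      · exact hc m hm hmj
    rw [← eq_of_coef_eq h hr0 hpk h10]
    exact hne
  have hup := U_le_upSub h ax k hu
  have ex : xG ax (D.simple k) 1 = u⁻¹ * v * u := by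
    rw [hv]
    group
  have hxr : Raises (grade D (fJ {k})) 1 (((xG ax (D.simple k) 1 : GL D.Idx F) : Matrix D.Idx D.Idx F) - 1) := by
    have e2 : ((xG ax (D.simple k) 1 : GL D.Idx F) : Matrix D.Idx D.Idx F) - 1 =
        ((u⁻¹ : GL D.Idx F) : Matrix D.Idx D.Idx F) * (((v : GL D.Idx F) : Matrix D.Idx D.Idx F) - 1) * ((u : GL D.Idx F) : Matrix D.Idx D.Idx F) := by
      rw [ex]
      simp only [Units.val_mul, mul_sub, sub_mul, mul_one, Units.inv_mul]
    rw [e2]
    have := (hup.2.mul (mem_raisingSubgroup.mp hvr)).mul hup.1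
    simpa using this
  have hxup : xG ax (D.simple k) 1 ∈ upSub (F := F) (grade D (fun k' => - fJ {k} k')) := by
    apply x_mem_upSub h ax hpk
    rw [lin_neg_fJ, lin_fJ_zero h]
    · simp
    · rw [inRootSub_iff h hpk]
      intro m hm hmk
      rw [h.coef_simple k hk m hm]
      exact if_neg hmk
  have hx1 : xG ax (D.simple k) 1 = 1 := by
    apply one_of_raises_raises hxup.1
    intro row col hne
    have := hxr row col hne
    simp only [grade_neg_fJ, neg_neg]
    exact this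
  have e5 : xg ax (D.simple k) 1 = xg ax (D.simple k) 0 := Subtype.ext (by
    rw [xg_coe, xg_coe, hx1, xG_zero])
  exact one_ne_zero (xg_inj h h2 ax hpk e5)

include h ax in
/-- `H` normalizes `U`. -/
lemma H_conj_U {a u : GL D.Idx F} (ha : a ∈ D.diagonalSubgroup F) (hu : u ∈ D.posUnipotent F) :
    a * u * a⁻¹ ∈ D.posUnipotent F := by
  obtain ⟨y, rfl⟩ := exists_tor_of_mem ax h ha
  rw [posUnipotent_eq ax] at hu ⊢
  refine conj_mem_of_gen ax ?_ hu
  intro r t hr
  rw [tor_conj_xG ax h y hr.1 t]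
  exact xG_mem_rootClosure ax hr _

end gl

/-- An element conjugating the fundamental root elements into `U` normalizes `U`. -/
theorem normalizes_of_simple [Finite F] (hD : IsData D) (ax : Ax D F) {x : GL D.Idx F} (hx : x ∈ D.group F)
    (hs : ∀ k, k < D.rank → x * xG ax (D.simple k) 1 * x⁻¹ ∈ D.posUnipotent F) {u : GL D.Idx F} (hu : u ∈ D.posUnipotent F) :
    x * u * x⁻¹ ∈ D.posUnipotent F := by
  have h := tab_of_mem hD
  have h2 := tab2_of_mem hD
  obtain ⟨u1, hu1, n, hn, u2, hu2, rfl⟩ := bruhat_GL hD ax hx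
  rw [monomial_eq_monoS h h2 ax] at hn
  obtain ⟨a, ha, l, hl, rfl⟩ := monoS_form h h2 ax hn
  set m := nw D ax l with hm
  have hB1 : u1 ∈ D.borelSubgroup F := (le_sup_left : D.posUnipotent F ≤ _) hu1
  have hBa : a ∈ D.borelSubgroup F := (le_sup_right : D.diagonalSubgroup F ≤ _) ha
  have hpos : ∀ k, k < D.rank → D.IsPosRoot (wWord D l (D.simple k)) := by
    intro k hk
    apply pos_of_conj h h2 ax hl hk hu2
    have e1 := hs k hk
    have e2 : nw D ax l * (u2 * xG ax (D.simple k) 1 * u2⁻¹) * (nw D ax l)⁻¹ =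
        (u1 * a)⁻¹ * (u1 * (a * m) * u2 * xG ax (D.simple k) 1 * (u1 * (a * m) * u2)⁻¹) * (u1 * a) := by
      rw [← hm]
      group
    rw [e2]
    exact Subgroup.mul_mem _ (Subgroup.mul_mem _ (Subgroup.inv_mem _ (Subgroup.mul_mem _ hB1 hBa))
      ((le_sup_left : D.posUnipotent F ≤ _) e1)) (Subgroup.mul_mem _ hB1 hBa)
  have hall : ∀ r, D.IsPosRoot r → D.IsPosRoot (wWord D l r) := by
    intro r hr
    have hlt := wWord_lt h hl hr.1
    rw [isPosRoot_iff h hlt]
    intro j hj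
    rw [coef_wWord h hl hr.1 hj]
    apply Finset.sum_nonneg
    intro k hk
    have hk' := Finset.mem_range.mp hk
    exact mul_nonneg ((isPosRoot_iff h hr.1).mp hr k hk')
      ((isPosRoot_iff h (hpos k hk').1).mp (hpos k hk') j hj)
  have hmU : ∀ v, v ∈ D.posUnipotent F → m * v * m⁻¹ ∈ D.posUnipotent F := by
    intro v hv
    apply conj_Up h h2 ax hl
    rw [posUnipotent_eq ax] at hv
    exact rootClosure_mono ax (fun r hr => ⟨hr, hall r hr⟩) hv
  have e3 : u1 * (a * m) * u2 * u * (u1 * (a * m) * u2)⁻¹ =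
      u1 * (a * (m * (u2 * u * u2⁻¹) * m⁻¹) * a⁻¹) * u1⁻¹ := by group
  rw [e3]
  refine Subgroup.mul_mem _ (Subgroup.mul_mem _ hu1 (H_conj_U h ax ha (hmU _ ?_))) (Subgroup.inv_mem _ hu1)
  exact Subgroup.mul_mem _ (Subgroup.mul_mem _ hu2 hu) (Subgroup.inv_mem _ hu2)

/-- In the group, both directions. -/
theorem normalizes_iff [Finite F] (hD : IsData D) (ax : Ax D F) {x : ↥(D.group F)}
    (hs : ∀ k, k < D.rank → x * xg ax (D.simple k) 1 * x⁻¹ ∈ Ug D F) (w : ↥(D.group F)) :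
    w ∈ Ug D F ↔ x * w * x⁻¹ ∈ Ug D F := by
  classical
  have hfin : Finite ↥(D.group F) := inferInstance
  have hs' : ∀ k, k < D.rank → (x : GL D.Idx F) * xG ax (D.simple k) 1 * (x : GL D.Idx F)⁻¹ ∈ D.posUnipotent F := hs
  have hf : ∀ u : ↥(Ug D F), x * u.1 * x⁻¹ ∈ Ug D F := fun u => normalizes_of_simple hD ax x.2 hs' u.2
  let f : ↥(Ug D F) → ↥(Ug D F) := fun u => ⟨x * u.1 * x⁻¹, hf u⟩
  have hinj : Function.Injective f := by
    intro a b e
    have e1 : x * a.1 * x⁻¹ = x * b.1 * x⁻¹ := congrArg Subtype.val e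
    exact Subtype.ext (by simpa using e1)
  have hsurj := (Finite.injective_iff_surjective.mp hinj)
  constructor
  · intro hw
    exact hf ⟨w, hw⟩
  · intro hw
    obtain ⟨a, ha⟩ := hsurj ⟨_, hw⟩
    have e1 : x * a.1 * x⁻¹ = x * w * x⁻¹ := congrArg Subtype.val ha
    have e2 : a.1 = w := by simpa using e1
    rw [← e2]
    exact a.2

/-- The analogue for `V`. -/
theorem normalizes_V_iff [Finite F] (hD : IsData D) (ax : Ax D F) {x : ↥(D.group F)}
    (hs : ∀ k, k < D.rank → ∀ t, x * xg ax (D.neg (D.simple k)) t * x⁻¹ ∈ Vg D F) (w : ↥(D.group F)) :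
    w ∈ Vg D F ↔ x * w * x⁻¹ ∈ Vg D F := by
  have h := tab_of_mem hD
  have h2 := tab2_of_mem hD
  have h3 := tab3_of_mem hD
  set m := n0 h h2 ax h3 with hm
  have hy : ∀ k, k < D.rank → (m⁻¹ * x * m) * xg ax (D.simple k) 1 * (m⁻¹ * x * m)⁻¹ ∈ Ug D F := by
    intro k hk
    obtain ⟨a, ha, ea⟩ := (AutTab.w0_simple hD).1 k hk
    obtain ⟨t, ht⟩ := (conj_simple_iff h h2 h3 ax hk ha ea (m * xg ax (D.simple k) 1 * m⁻¹)).mpr
      ⟨1, by rw [← hm]; group⟩
    have e1 : (m⁻¹ * x * m) * xg ax (D.simple k) 1 * (m⁻¹ * x * m)⁻¹ =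
        m⁻¹ * (x * (m * xg ax (D.simple k) 1 * m⁻¹) * x⁻¹) * m := by group
    rw [e1, ht, ← mem_Vg_iff h h2 ax h3]
    exact hs a ha t
  have key := normalizes_iff hD ax hy (m⁻¹ * w * m)
  rw [mem_Vg_iff h h2 ax h3 w, mem_Vg_iff h h2 ax h3 (x * w * x⁻¹), ← hm, key]
  have e2 : m⁻¹ * x * m * (m⁻¹ * w * m) * (m⁻¹ * x * m)⁻¹ = m⁻¹ * (x * w * x⁻¹) * m := by group
  rw [e2]

/-- An automorphism of the given shape preserves `U` and `V`. -/
theorem shape_preserves [Finite F] (hD : IsData D) (ax : Ax D F) {σ : ↥(D.group F) ≃* ↥(D.group F)}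
    {ρ : ℕ → ℕ} {c : ℕ → Fˣ} {τ : ℕ → F ≃+* F} (hS : Shape ax σ ρ c τ) :
    (∀ u, u ∈ Ug D F ↔ σ u ∈ Ug D F) ∧ (∀ v, v ∈ Vg D F ↔ σ v ∈ Vg D F) := by
  have h := tab_of_mem hD
  have h2 := tab2_of_mem hD
  have h3 := tab3_of_mem hD
  obtain ⟨x, σ', hx, hU, hV⟩ := exists_normalized hD σ
  obtain ⟨ρ', c', τ', hS'⟩ := exists_shape h h2 h3 ax hD hU hV
  obtain ⟨π, hπ⟩ := exists_perm h h2 ax hS'
  have hUs : ∀ j, j < D.rank → ∀ t, xg ax (D.simple j) t ∈ Ug D F := by
    intro j hj t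
    rw [Subgroup.mem_subgroupOf, xg_coe, posUnipotent_eq ax]
    exact xG_mem_rootClosure ax (simple_isPos h hj) _
  have hVs : ∀ j, j < D.rank → ∀ t, xg ax (D.neg (D.simple j)) t ∈ Vg D F := by
    intro j hj t
    rw [Subgroup.mem_subgroupOf, xg_coe, negUnipotent_eq ax]
    apply xG_mem_rootClosure ax
    exact (isPosRoot_neg h (h.neg_lt _ (h.simple_lt j hj))).mp (by
      rw [h.neg_neg _ (h.simple_lt j hj)]
      exact simple_isPos h hj)
  have hpre : ∀ k, k < D.rank → ∃ j, j < D.rank ∧ ρ' j = k := by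
    intro k hk
    refine ⟨π.symm ⟨k, hk⟩, (π.symm ⟨k, hk⟩).2, ?_⟩
    rw [← hπ]
    simp
  have h1 : ∀ k, k < D.rank → x * xg ax (D.simple k) 1 * x⁻¹ ∈ Ug D F := by
    intro k hk
    obtain ⟨j, hj, rfl⟩ := hpre k hk
    have e1 := hS'.pos j hj ((τ' j).symm ((c' j : F)⁻¹))
    simp only [RingEquiv.apply_symm_apply] at e1
    rw [mul_inv_cancel₀ (c' j).ne_zero] at e1
    rw [← e1, ← hx, hS.pos j hj]
    exact hUs _ (hS.lt j hj) _
  have h4 : ∀ k, k < D.rank → ∀ t, x * xg ax (D.neg (D.simple k)) t * x⁻¹ ∈ Vg D F := by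
    intro k hk t
    obtain ⟨j, hj, rfl⟩ := hpre k hk
    have e1 := hS'.neg j hj ((τ' j).symm ((c' j : F) * t))
    simp only [RingEquiv.apply_symm_apply] at e1
    rw [← mul_assoc, inv_mul_cancel₀ (c' j).ne_zero, one_mul] at e1
    rw [← e1, ← hx, hS.neg j hj]
    exact hVs _ (hS.lt j hj) _
  constructor
  · intro u
    rw [hU, normalizes_iff hD ax h1 (σ' u), ← hx]
  · intro v
    rw [hV, normalizes_V_iff hD ax h4 (σ' v), ← hx]

end Cfsg.Agent.Lib.Steinberg.AutPres
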