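import Cfsg.Agent.Lib.Steinberg.UFactor
import Cfsg.Agent.Lib.KS71.ChevFix

/-!
Subgroups between the Chevalley group over a subfield and the group of points over the subfield:
centralizer and normalizer, over an arbitrary field.
-/

set_option autoImplicit false
set_option linter.unusedSectionVars false
set_option linter.unusedVariables false

namespace Cfsg.Agent.Lib.Steinberg.FrobFix

open scoped MatrixGroups Matrix
open Cfsg _root_.Cfsg.Lie ChevalleyDatum
open Cfsg.Agent.Lib.Chev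
open Tables Tables2 Tables3 Raise Basic AxBasic Torus Products Products2 Mono1 Mono2 Mono3 Order1 Parab Bn Unipotent
open _root_.Cfsg.Agent.Lib.Steinberg.AutNorm _root_.Cfsg.Agent.Lib.Steinberg.AutRoot
open _root_.Cfsg.Agent.Lib.Steinberg.AutPres _root_.Cfsg.Agent.Lib.Steinberg.UFactor
open Cfsg.Agent.Lib.KS71.ChevFix
open Cfsg.Agent.Lib.Lie.Facts (IsData)

universe u

variable {D : ChevalleyDatum} {F : Type u} [Field F]

section gl

variable (h : Tab D) (h2 : Tab2 D) (ax : Ax D F)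

include h h2 ax in
/-- If `n v n⁻¹ ∈ B` for `v ∈ U` which has a nontrivial coordinate at `p_k`, then `w p_k > 0`. -/
lemma pos_of_conj_gen {l : List ℕ} (hl : ∀ i ∈ l, i < D.rank) {k : ℕ} (hk : k < D.rank) {u : GL D.Idx F}
    (hu : u ∈ D.posUnipotent F)
    (hm : nw D ax l * (u * xG ax (D.simple k) 1 * u⁻¹) * (nw D ax l)⁻¹ ∈ D.borelSubgroup F) :
    D.IsPosRoot (wWord D l (D.simple k)) := by
  by_contra hneg
  have hpk := h.simple_lt k hk
  set v := u * xG ax (D.simple k) 1 * u⁻¹ with hv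
  have hvU : v ∈ D.posUnipotent F := by
    refine Subgroup.mul_mem _ (Subgroup.mul_mem _ hu ?_) (Subgroup.inv_mem _ hu)
    rw [posUnipotent_eq ax]
    exact xG_mem_rootClosure ax (simple_isPos h hk) _
  obtain ⟨a, ha, b, hb, e⟩ := U_factor_gen h ax hl hvU
  have h5 := conj_Up h h2 ax hl hb
  have h4 := conj_Um h h2 ax hl ha
  have h6 : nw D ax l * a * (nw D ax l)⁻¹ = (nw D ax l * v * (nw D ax l)⁻¹) * (nw D ax l * b * (nw D ax l)⁻¹)⁻¹ := by
    rw [e]
    group
  have h7 : nw D ax l * a * (nw D ax l)⁻¹ ∈ D.borelSubgroup F := by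
    rw [h6]
    exact Subgroup.mul_mem _ hm (Subgroup.inv_mem _ ((le_sup_left : D.posUnipotent F ≤ _) h5))
  have h8 := eq_one_of_conj_mem h h2 ax h4 h7
  rw [h8, one_mul] at e
  rw [← e] at hb
  -- `v` raises the grading
  have hvr : v ∈ raisingSubgroup (F := F) (grade D (fJ {k})) 1 le_rfl := by
    rw [← closure_eq_rootClosure ax] at hb
    refine Unipotent.closure_le_raising h le_rfl _ ?_ hb
    rintro r ⟨hr, hne⟩
    refine ⟨hr.1, lin_fJ_pos h hr ?_⟩
    intro hin
    apply hneg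
    have hr0 := hr.1
    have hc := (inRootSub_iff h hr0).mp hin
    have h7 := h2.support r hr0 k hk (fun m hm hmk => hc m hm hmk)
    have h8 := (isPosRoot_iff h hr0).mp hr k hk
    have h9 : coef D r k = 1 := by
      rcases h7 with h7 | h7
      · exact h7
      · omega
    have h10 : ∀ m, m < D.rank → coef D r m = coef D (D.simple k) m := by
      intro m hm
      rw [h.coef_simple k hk m hm]
      split_ifs with hmj
      · rw [hmj, h9]
      · exact hc m hm hmj
    rw [← eq_of_coef_eq h hr0 hpk h10]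
    exact hne
  have hup := U_le_upSub h ax k hu
  have ex : xG ax (D.simple k) 1 = u⁻¹ * v * u := by
    rw [hv]
    group
  have hxr : Raises (grade D (fJ {k})) 1 (((xG ax (D.simple k) 1 : GL D.Idx F) : Matrix D.Idx D.Idx F) - 1) := by
    have e2 : ((xG ax (D.simple k) 1 : GL D.Idx F) : Matrix D.Idx D.Idx F) - 1 =
        ((u⁻¹ : GL D.Idx F) : Matrix D.Idx D.Idx F) * (((v : GL D.Idx F) : Matrix D.Idx D.Idx F) - 1) * ((u : GL D.Idx F) : Matrix D.Idx D.Idx F) := by
      rw [ex]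
      simp only [Units.val_mul, mul_sub, sub_mul, mul_one, Units.inv_mul]
    rw [e2]
    have := (hup.2.mul (mem_raisingSubgroup.mp hvr)).mul hup.1
    simpa using this
  have hxup : xG ax (D.simple k) 1 ∈ upSub (F := F) (grade D (fun k' => - fJ {k} k')) := by
    apply x_mem_upSub h ax hpk
    rw [lin_neg_fJ, lin_fJ_zero h]
    · simp
    · rw [inRootSub_iff h hpk]
      intro m hm hmk
      rw [h.coef_simple k hk m hm]
      exact if_neg hmk
  have hx1 : xG ax (D.simple k) 1 = 1 := by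
    apply one_of_raises_raises hxup.1
    intro row col hne
    have := hxr row col hne
    simp only [grade_neg_fJ, neg_neg]
    exact this
  have e5 : xg ax (D.simple k) 1 = xg ax (D.simple k) 0 := Subtype.ext (by
    rw [xg_coe, xg_coe, hx1, xG_zero])
  exact one_ne_zero (xg_inj h h2 ax hpk e5)

end gl

/-- An element of the group conjugating the fundamental root elements into `U` lies in `B`, over an arbitrary field. -/
theorem mem_borel_of_simple (hD : IsData D) (ax : Ax D F) {x : GL D.Idx F} (hx : x ∈ D.group F)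
    (hs : ∀ k, k < D.rank → x * xG ax (D.simple k) 1 * x⁻¹ ∈ D.posUnipotent F) : x ∈ D.borelSubgroup F := by
  have h := tab_of_mem hD
  have h2 := tab2_of_mem hD
  obtain ⟨u1, hu1, n, hn, u2, hu2, rfl⟩ := bruhat_GL hD ax hx
  rw [monomial_eq_monoS h h2 ax] at hn
  obtain ⟨a, ha, l, hl, rfl⟩ := monoS_form h h2 ax hn
  set m := nw D ax l with hm
  have hB1 : u1 ∈ D.borelSubgroup F := (le_sup_left : D.posUnipotent F ≤ _) hu1
  have hBa : a ∈ D.borelSubgroup F := (le_sup_right : D.diagonalSubgroup F ≤ _) ha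
  have hpos : ∀ k, k < D.rank → D.IsPosRoot (wWord D l (D.simple k)) := by
    intro k hk
    apply pos_of_conj_gen h h2 ax hl hk hu2
    have e1 := hs k hk
    have e2 : nw D ax l * (u2 * xG ax (D.simple k) 1 * u2⁻¹) * (nw D ax l)⁻¹ =
        (u1 * a)⁻¹ * (u1 * (a * m) * u2 * xG ax (D.simple k) 1 * (u1 * (a * m) * u2)⁻¹) * (u1 * a) := by
      rw [← hm]
      group
    rw [e2]
    exact Subgroup.mul_mem _ (Subgroup.mul_mem _ (Subgroup.inv_mem _ (Subgroup.mul_mem _ hB1 hBa))
      ((le_sup_left : D.posUnipotent F ≤ _) e1)) (Subgroup.mul_mem _ hB1 hBa)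
  have hall : ∀ r, D.IsPosRoot r → D.IsPosRoot (wWord D l r) := by
    intro r hr
    have hlt := wWord_lt h hl hr.1
    rw [isPosRoot_iff h hlt]
    intro j hj
    rw [coef_wWord h hl hr.1 hj]
    apply Finset.sum_nonneg
    intro k hk
    have hk' := Finset.mem_range.mp hk
    exact mul_nonneg ((isPosRoot_iff h hr.1).mp hr k hk')
      ((isPosRoot_iff h (hpos k hk').1).mp (hpos k hk') j hj)
  have hmH : m ∈ D.diagonalSubgroup F := by
    obtain ⟨c, hc⟩ := exists_isNor_nw h h2 ax (F := F) hl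
    refine mem_H_of_pos h h2 ax (nw_mem_monomial_aux h h2 ax hl) hc ?_
    intro s hs
    rw [show ((wPw h l s : Fin D.nroots) : ℕ) = wWord D l s from wPw_val h hl s]
    exact hall s hs
  have hBm : m ∈ D.borelSubgroup F := (le_sup_right : D.diagonalSubgroup F ≤ _) hmH
  exact Subgroup.mul_mem _ (Subgroup.mul_mem _ hB1 (Subgroup.mul_mem _ hBa hBm))
    ((le_sup_left : D.posUnipotent F ≤ _) hu2)

/-- The elements `x_r(±1)`. -/
def L1 (ax : Ax D F) : Subgroup (GL D.Idx F) := Subgroup.closure {g | ∃ r, r < D.nroots ∧ g = xG ax r 1}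

lemma xG_one_mem (ax : Ax D F) {r : ℕ} (hr : r < D.nroots) : xG ax r 1 ∈ L1 ax := Subgroup.subset_closure ⟨r, hr, rfl⟩

lemma xG_neg_one_mem (ax : Ax D F) {r : ℕ} (hr : r < D.nroots) : xG ax r (-1) ∈ L1 ax := by
  rw [← xG_inv]
  exact Subgroup.inv_mem _ (xG_one_mem ax hr)

lemma sG_mem (h : Tab D) (ax : Ax D F) {i : ℕ} (hi : i < D.rank) : sG ax i ∈ L1 ax := by
  have hr := h.simple_lt i hi
  have e : sG ax i = xG ax (D.simple i) 1 * xG ax (D.neg (D.simple i)) (-1) * xG ax (D.simple i) 1 := by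
    rw [sG, nG]
    simp
  rw [e]
  exact Subgroup.mul_mem _ (Subgroup.mul_mem _ (xG_one_mem ax hr) (xG_neg_one_mem ax (h.neg_lt _ hr))) (xG_one_mem ax hr)

lemma nw_mem (h : Tab D) (ax : Ax D F) {l : List ℕ} (hl : ∀ i ∈ l, i < D.rank) : nw D ax l ∈ L1 ax := by
  induction l with
  | nil => simp [Subgroup.one_mem]
  | cons i l ih =>
    rw [nw_cons]
    exact Subgroup.mul_mem _ (sG_mem h ax (hl i (by simp))) (ih (fun j hj => hl j (by simp [hj])))

/-- An element of the group commuting with all `x_r(1)` is trivial. -/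
theorem eq_one_of_comm (hD : IsData D) (ax : Ax D F) {g : GL D.Idx F} (hg : g ∈ D.group F)
    (hc : ∀ x ∈ L1 ax, g * x = x * g) : g = 1 := by
  have h := tab_of_mem hD
  have h2 := tab2_of_mem hD
  have h3 := tab3_of_mem hD
  have hU1 : ∀ k, k < D.rank → xG ax (D.simple k) 1 ∈ D.posUnipotent F := by
    intro k hk
    rw [posUnipotent_eq ax]
    exact xG_mem_rootClosure ax (simple_isPos h hk) _
  have hB : g ∈ D.borelSubgroup F := by
    apply mem_borel_of_simple hD ax hg
    intro k hk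
    rw [hc _ (xG_one_mem ax (h.simple_lt k hk)), mul_inv_cancel_right]
    exact hU1 k hk
  set m := nw D ax (w0Of D.nroots) with hm
  have hmL : m ∈ L1 ax := nw_mem h ax h3.w0_lt
  have hmG : m ∈ D.group F := monomial_le_group h ax (nw_mem_monomial_aux h h2 ax h3.w0_lt)
  have hB2 : m⁻¹ * g * m ∈ D.borelSubgroup F := by
    apply mem_borel_of_simple hD ax (Subgroup.mul_mem _ (Subgroup.mul_mem _ (Subgroup.inv_mem _ hmG) hg) hmG)
    intro k hk
    have hc2 : (m⁻¹ * g * m) * xG ax (D.simple k) 1 = xG ax (D.simple k) 1 * (m⁻¹ * g * m) := by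
      have e1 := hc (m * xG ax (D.simple k) 1 * m⁻¹) (Subgroup.mul_mem _ (Subgroup.mul_mem _ hmL
        (xG_one_mem ax (h.simple_lt k hk))) (Subgroup.inv_mem _ hmL))
      calc (m⁻¹ * g * m) * xG ax (D.simple k) 1 = m⁻¹ * (g * (m * xG ax (D.simple k) 1 * m⁻¹)) * m := by group
        _ = m⁻¹ * ((m * xG ax (D.simple k) 1 * m⁻¹) * g) * m := by rw [e1]
        _ = _ := by group
    rw [hc2, mul_inv_cancel_right]
    exact hU1 k hk
  have hV : g ∈ D.negUnipotent F ⊔ D.diagonalSubgroup F := by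
    have hle : D.borelSubgroup F ≤ (D.negUnipotent F ⊔ D.diagonalSubgroup F).comap
        (MulAut.conj m).toMonoidHom := by
      apply sup_le
      · intro u hu
        rw [Subgroup.mem_comap]
        apply (le_sup_left : D.negUnipotent F ≤ _)
        rw [← w0_conj h h2 ax h3]
        exact ⟨u, hu, rfl⟩
      · intro a ha
        rw [Subgroup.mem_comap]
        apply (le_sup_right : D.diagonalSubgroup F ≤ _)
        obtain ⟨c, hc⟩ := exists_isNor_nw h h2 ax (F := F) h3.w0_lt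
        exact hc.conj_mem_H h ax ha
    have := hle hB2
    rw [Subgroup.mem_comap] at this
    have e3 : (MulAut.conj m).toMonoidHom (m⁻¹ * g * m) = g := by
      simp only [MulEquiv.coe_toMonoidHom, MulAut.conj_apply]
      group
    rwa [e3] at this
  have hH : g ∈ D.diagonalSubgroup F := by
    rw [← borel_inf_VH ax h]
    exact ⟨hB, hV⟩
  obtain ⟨y, rfl⟩ := exists_tor_of_mem ax h hH
  have hchi : ∀ s, s < D.nroots → chi D y s = 1 := by
    intro s hs
    have e1 := tor_conj_xG ax h y hs 1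
    have e2 := hc _ (xG_one_mem ax hs)
    rw [e2, mul_inv_cancel_right] at e1
    have e3 := (xG_eq_iff ax h h2 hs hs (one_ne_zero) e1).2
    rw [mul_one] at e3
    exact Units.ext e3.symm
  have e1 : tor D y = tor D (fun _ => (1 : Fˣ)) := by
    apply Diag.tor_eq_of_chi
    intro s hs
    rw [hchi s hs]
    simp [chi]
  rw [e1]
  apply Units.ext
  ext i j
  by_cases hij : i = j
  · subst hij
    rcases i with i | s
    · simp [tor, diagG, torD]
    · simp [tor, diagG, torD, chi]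
  · simp [tor, diagG, hij, Matrix.one_apply_ne hij]

section frob

variable (hD : IsData D) (ax : Ax D F) (φ : F →+* F)

/-- The group generated by the root elements with fixed parameter. -/
def LL (ax : Ax D F) (φ : F →+* F) : Subgroup (GL D.Idx F) :=
  Subgroup.closure {g | ∃ r t, r < D.nroots ∧ φ t = t ∧ g = xG ax r t}

lemma xG_mem_LL {r : ℕ} (hr : r < D.nroots) {t : F} (ht : φ t = t) : xG ax r t ∈ LL ax φ :=
  Subgroup.subset_closure ⟨r, t, hr, ht, rfl⟩

lemma L1_le_LL : L1 ax ≤ LL ax φ := by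
  rw [L1, Subgroup.closure_le]
  rintro _ ⟨r, hr, rfl⟩
  exact xG_mem_LL ax φ hr (map_one φ)

lemma nw_mem_LL (h : Tab D) {l : List ℕ} (hl : ∀ i ∈ l, i < D.rank) : nw D ax l ∈ LL ax φ :=
  L1_le_LL ax φ (nw_mem h ax hl)

lemma fixed_of_LL {g : GL D.Idx F} (hg : g ∈ LL ax φ) : mapX D φ g = g := by
  have hle : LL ax φ ≤ (mapX D φ).eqLocus (MonoidHom.id _) := by
    rw [LL, Subgroup.closure_le]
    rintro _ ⟨r, t, hr, ht, rfl⟩
    show mapX D φ (xG ax r t) = xG ax r t
    rw [mapX_xG ax ax, ht]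
  exact hle hg

/-- A fixed element of `U` lies in `L`. -/
theorem U_fixed_gen (h : Tab D) (h2 : Tab2 D) {u : GL D.Idx F} (hu : u ∈ D.posUnipotent F)
    (huf : mapX D φ u = u) : u ∈ LL ax φ := by
  rw [← rootClosure_posRoots ax] at hu
  obtain ⟨t, rfl⟩ := exists_wordL ax h (goodList_posRoots h) hu
  rw [mapX_wordL ax ax] at huf
  have h3 := wordL_inj ax h h2 (goodList_posRoots h) huf
  have key : ∀ L : List ℕ, (∀ r ∈ L, r ∈ D.posRoots) → wordL ax L t ∈ LL ax φ := by
    intro L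
    induction L with
    | nil =>
      intro _
      rw [wordL_nil]
      exact Subgroup.one_mem _
    | cons a L ih =>
      intro hL
      rw [wordL_cons]
      have ha := hL a (by simp)
      exact Subgroup.mul_mem _ (xG_mem_LL ax φ (mem_posRoots.mp ha).1 (h3 a ha))
        (ih (fun r hr => hL r (by simp [hr])))
  exact key _ (fun r hr => hr)

include hD in
/-- Fixed elements are a product of an element of `L` and a fixed element of `H`. -/
theorem exists_fixed_form {g : GL D.Idx F} (hg : g ∈ D.group F) (hfix : mapX D φ g = g) :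
    ∃ l ∈ LL ax φ, ∃ e ∈ D.diagonalSubgroup F, mapX D φ e = e ∧ g = l * e := by
  have h := tab_of_mem hD
  have h2 := tab2_of_mem hD
  obtain ⟨m, hm, hgm⟩ := bruhat_exists h h2 ax hg
  obtain ⟨b₁, hb₁, b₂, hb₂, rfl⟩ := mem_cell.mp hgm
  have hm' : m⁻¹ ∈ monoS D ax := by
    rw [← monomial_eq_monoS h h2 ax]
    exact Subgroup.inv_mem _ hm
  obtain ⟨c, hc, l, hl, hmc⟩ := monoS_form h h2 ax hm'
  have hm2 : m = (nw D ax l)⁻¹ * c⁻¹ := by
    have : m = (m⁻¹)⁻¹ := (inv_inv m).symm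
    rw [this, hmc, _root_.mul_inv_rev]
  set n := nw D ax l with hn
  have hnm : n ∈ D.monomialSubgroup F := nw_mem_monomial_aux h h2 ax hl
  obtain ⟨π, c0, Hn⟩ := exists_isNor h h2 ax hnm
  obtain ⟨u, hu, a, ha, rfl⟩ := (mem_borel_iff ax h).mp hb₁
  obtain ⟨u₁, hu₁, u₂, hu₂, rfl⟩ := U_factor_gen h ax hl hu
  have h5 : n * (u₂ * a) * n⁻¹ ∈ D.borelSubgroup F := by
    have e : n * (u₂ * a) * n⁻¹ = (n * u₂ * n⁻¹) * (n * a * n⁻¹) := by group
    rw [e]
    refine Subgroup.mul_mem _ ((le_sup_left : D.posUnipotent F ≤ _) (conj_Up h h2 ax hl hu₂)) ?_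
    exact (le_sup_right : D.diagonalSubgroup F ≤ _) (Hn.conj_mem_H h ax ha)
  have hcB : c⁻¹ ∈ D.borelSubgroup F :=
    (le_sup_right : D.diagonalSubgroup F ≤ _) (Subgroup.inv_mem _ hc)
  set b := n * (u₂ * a) * n⁻¹ * (c⁻¹ * b₂) with hbdef
  have hbB : b ∈ D.borelSubgroup F := Subgroup.mul_mem _ h5 (Subgroup.mul_mem _ hcB hb₂)
  have eg : u₁ * u₂ * a * m * b₂ = u₁ * n⁻¹ * b := by
    rw [hm2, hbdef]
    group
  rw [eg] at hfix ⊢
  have hnσ : mapX D φ n = n := mapX_nw ax ax _ l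
  have e1 : mapX D φ u₁ * n⁻¹ * mapX D φ b = u₁ * n⁻¹ * b := by
    conv_rhs => rw [← hfix]
    simp only [map_mul, map_inv, hnσ]
  obtain ⟨e2, e3⟩ := normal_form_unique h h2 ax hl (mapX_rootClosure ax ax _ hu₁) hu₁
    (mapX_B ax ax _ hbB) hbB e1
  have haS : u₁ ∈ LL ax φ := U_fixed_gen ax φ h h2 (Um_le_U h h2 ax l hu₁) e2
  have hnS : n ∈ LL ax φ := nw_mem_LL ax φ h hl
  obtain ⟨v, hv, e', he', hb⟩ := (mem_borel_iff ax h).mp hbB
  rw [hb, map_mul] at e3
  have e4 : v⁻¹ * mapX D φ v = e' * (mapX D φ e')⁻¹ := by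
    calc v⁻¹ * mapX D φ v
        = v⁻¹ * (mapX D φ v * mapX D φ e') * (mapX D φ e')⁻¹ := by group
      _ = v⁻¹ * (v * e') * (mapX D φ e')⁻¹ := by rw [e3]
      _ = _ := by group
  have e5 : v⁻¹ * mapX D φ v ∈ D.posUnipotent F ⊓ D.diagonalSubgroup F := by
    constructor
    · exact Subgroup.mul_mem _ (Subgroup.inv_mem _ hv) (mapX_U ax ax _ hv)
    · rw [e4]
      exact Subgroup.mul_mem _ he' (Subgroup.inv_mem _ (mapX_H ax ax _ he'))
  rw [U_inf_H ax h, Subgroup.mem_bot] at e5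
  have hvf : mapX D φ v = v := (inv_mul_eq_one.mp e5).symm
  have hef : mapX D φ e' = e' := by
    rw [hvf] at e3
    exact mul_left_cancel e3
  have hvS := U_fixed_gen ax φ h h2 hv hvf
  refine ⟨u₁ * n⁻¹ * v, Subgroup.mul_mem _ (Subgroup.mul_mem _ haS (Subgroup.inv_mem _ hnS)) hvS, e', he', hef, ?_⟩
  rw [hb]
  group

include hD in
/-- A fixed element of `H` normalizes `L`. -/
theorem conj_LL {e : GL D.Idx F} (he : e ∈ D.diagonalSubgroup F) (hef : mapX D φ e = e) {x : GL D.Idx F}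
    (hx : x ∈ LL ax φ) : e * x * e⁻¹ ∈ LL ax φ := by
  have h := tab_of_mem hD
  obtain ⟨y, rfl⟩ := exists_tor_of_mem ax h he
  have hle : LL ax φ ≤ (LL ax φ).comap (MulAut.conj (tor D y)).toMonoidHom := by
    rw [LL, Subgroup.closure_le]
    rintro _ ⟨r, t, hr, ht, rfl⟩
    show tor D y * xG ax r t * (tor D y)⁻¹ ∈ LL ax φ
    rw [tor_conj_xG ax h y hr t]
    apply xG_mem_LL ax φ hr
    rw [map_mul, ht]
    congr 1
    have e1 := congrArg (fun w : GL D.Idx F => (w : Matrix D.Idx D.Idx F) (Sum.inr ⟨r, hr⟩) (Sum.inr ⟨r, hr⟩)) hef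
    simpa [coe_mapX, tor, diagG, torD] using e1
  exact hle hx

variable (K : Subgroup (GL D.Idx F)) (hLK : LL ax φ ≤ K) (hKG : K ≤ D.group F) (hKf : ∀ x ∈ K, mapX D φ x = x)

include hD hLK in
theorem centralizer_eq_bot : D.group F ⊓ Subgroup.centralizer (K : Set (GL D.Idx F)) = ⊥ := by
  rw [eq_bot_iff]
  rintro g ⟨hg, hc⟩
  have hc : g ∈ Subgroup.centralizer (K : Set (GL D.Idx F)) := hc
  rw [Subgroup.mem_centralizer_iff] at hc
  rw [Subgroup.mem_bot]
  apply eq_one_of_comm hD ax hg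
  intro x hx
  exact (hc x (hLK (L1_le_LL ax φ hx))).symm

include hD hLK hKG hKf in
theorem conj_mem_K {g x : GL D.Idx F} (hg : g ∈ D.group F) (hgf : mapX D φ g = g) (hx : x ∈ K) : g * x * g⁻¹ ∈ K := by
  obtain ⟨l, hl, e, he, hef, rfl⟩ := exists_fixed_form hD ax φ hg hgf
  obtain ⟨l', hl', e', he', hef', rfl⟩ := exists_fixed_form hD ax φ (hKG hx) (hKf x hx)
  have h := tab_of_mem hD
  have he'K : e' ∈ K := by
    have : e' = l'⁻¹ * (l' * e') := by group
    rw [this]
    exact Subgroup.mul_mem _ (Subgroup.inv_mem _ (hLK hl')) hx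
  have hcomm : e * e' = e' * e := by
    obtain ⟨y, rfl⟩ := exists_tor_of_mem ax h he
    obtain ⟨y', rfl⟩ := exists_tor_of_mem ax h he'
    apply Units.ext
    show Matrix.diagonal _ * Matrix.diagonal _ = Matrix.diagonal _ * Matrix.diagonal _
    rw [Matrix.diagonal_mul_diagonal, Matrix.diagonal_mul_diagonal]
    congr 1
    funext i
    exact mul_comm _ _
  have e1 : l * e * (l' * e') * (l * e)⁻¹ = l * (e * l' * e⁻¹) * e' * l⁻¹ := by
    calc l * e * (l' * e') * (l * e)⁻¹ = l * (e * l' * e⁻¹) * (e * e') * e⁻¹ * l⁻¹ := by group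
      _ = l * (e * l' * e⁻¹) * (e' * e) * e⁻¹ * l⁻¹ := by rw [hcomm]
      _ = _ := by group
  rw [e1]
  exact Subgroup.mul_mem _ (Subgroup.mul_mem _ (Subgroup.mul_mem _ (hLK hl) (hLK (conj_LL hD ax φ he hef hl'))) he'K)
    (Subgroup.inv_mem _ (hLK hl))

include hD hLK hKG hKf in
/-- The normalizer of `K` in the group is the fixed point subgroup. -/
theorem mem_normalizer_iff_fixed {g : GL D.Idx F} (hg : g ∈ D.group F) :
    g ∈ Subgroup.normalizer (K : Set (GL D.Idx F)) ↔ mapX D φ g = g := by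
  have h := tab_of_mem hD
  rw [Subgroup.mem_normalizer_iff]
  constructor
  · intro hn
    have hy : g⁻¹ * mapX D φ g ∈ D.group F ⊓ Subgroup.centralizer (K : Set (GL D.Idx F)) := by
      refine ⟨Subgroup.mul_mem _ (Subgroup.inv_mem _ hg) (mapX_group ax ax _ h hg), ?_⟩
      show _ ∈ Subgroup.centralizer (K : Set (GL D.Idx F))
      rw [Subgroup.mem_centralizer_iff]
      intro x hx
      have hx' : x ∈ K := hx
      have e1 := hKf _ ((hn x).mp hx')
      simp only [map_mul, map_inv, hKf x hx'] at e1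
      have e2 : mapX D φ g * x * (mapX D φ g)⁻¹ = g * x * g⁻¹ := e1
      calc x * (g⁻¹ * mapX D φ g) = g⁻¹ * (g * x * g⁻¹) * mapX D φ g := by group
        _ = g⁻¹ * (mapX D φ g * x * (mapX D φ g)⁻¹) * mapX D φ g := by rw [e2]
        _ = _ := by group
    rw [centralizer_eq_bot hD ax φ K hLK, Subgroup.mem_bot] at hy
    exact (inv_mul_eq_one.mp hy).symm
  · intro hgf x
    have hgi : mapX D φ g⁻¹ = g⁻¹ := by rw [map_inv, hgf]
    constructor
    · intro hx
      exact conj_mem_K hD ax φ K hLK hKG hKf hg hgf hx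
    · intro hx
      have := conj_mem_K hD ax φ K hLK hKG hKf (Subgroup.inv_mem _ hg) hgi hx
      have e : g⁻¹ * (g * x * g⁻¹) * g⁻¹⁻¹ = x := by group
      rwa [e] at this

end frob

end Cfsg.Agent.Lib.Steinberg.FrobFix
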