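import Cfsg.Agent.Lib.Steinberg.InvMain
import Cfsg.Agent.Lib.Lie.AxOf

/-!
Tables for the classes of involutions in type G2, characteristic two.
-/

set_option autoImplicit false
set_option linter.unusedSectionVars false
set_option linter.unusedVariables false
set_option maxRecDepth 200000

namespace Cfsg.Agent.Lib.Steinberg.InvG2

open Cfsg Lie ChevalleyDatum
open Cfsg.Agent.Lib.Chev
open Tables Tables2 Tables3 AxBasic
open _root_.Cfsg.Agent.Lib.Steinberg.Fold
open _root_.Cfsg.Agent.Lib.Steinberg.InvGen2 _root_.Cfsg.Agent.Lib.Steinberg.InvRank _root_.Cfsg.Agent.Lib.Steinberg.InvLS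

/-- The reflections. -/
def tT : ℕ := 246256254798955341236574213934228336289395207453460858112

/-- The fundamental roots. -/
def tS : List ℕ := [7,6]

/-- The frames. -/
def frs : List (List (List ℕ × ℕ)) := [[],
  [([1,0],1)],
  [([0,1],0)],
  [([],1),([0,1],0)]]

/-- The rows. -/
def tbl : List (List ℕ × List ℕ × ℕ) := [([],[],3),
  ([0],[],1),
  ([1],[],2),
  ([0,1,0,1,0,1],[],0)]

/-- The moves. -/
def chains : List (List (List ℕ × List ℕ × List ℕ)) := [[],
  [([],[],[11])],
  [([],[],[9])],
  [([0],[7,6],[8]),([0],[],[9])]]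

/-- The representatives. -/
def reps : List (List ℕ) := [[11],[9]]

theorem ft : FT chevG2 2 12 6 tT tS w0G2 := ft_of_chk (by decide +kernel)

theorem hT : allBelow (2 ^ 2) (fun b => rowChk 2 12 6 tT tS w0G2 (frs.map frW) b (tbl.getD b ([], [], 0))) = true := by
  decide +kernel

theorem hfr : frs.all (fun fr => frOK chevG2 fr && pwB (cm4 chevG2) (frR chevG2 fr)) = true := by
  decide +kernel

theorem hch : (List.range frs.length).all (fun k => (frs.getD k []).isEmpty ||
    reps.any fun rep => runChain chevG2 64 (frR chevG2 (frs.getD k [])) (chains.getD k []) rep) = true := by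
  decide +kernel

theorem hreps : reps.all (fun l => l.all (fun r => decide (r < chevG2.nroots)) && pwB (cm4 chevG2) l) = true := by
  decide +kernel

/-- Columns. -/
def cols0 : List ℕ := [6144,64,256,512,0,1024,0,0,0,0,0,0,0,2048]

/-- Elimination. -/
def bas0 : List ℕ := [6144,2048,1024,512,256,64]

theorem rk0 : rankChk chevG2 [11] 14 cols0 bas0 = true := by
  decide +kernel

theorem rkLen0 : bas0.length = 6 := by
  decide +kernel

/-- Columns. -/
def cols1 : List ℕ := [1160,2320,8704,1024,2048,0,0,1024,2048,0,0,0,512,0]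

/-- Elimination. -/
def bas1 : List ℕ := [8704,2320,1160,512,272,136]

theorem rk1 : rankChk chevG2 [9] 14 cols1 bas1 = true := by
  decide +kernel

theorem rkLen1 : bas1.length = 6 := by
  decide +kernel


/-- The orbit of the first root. -/
def orbL : List ℕ := [0,1,5,6,10,11]

theorem hNr : normChk chevG2 11 [] = true := by
  decide +kernel

theorem hNs : normChk chevG2 9 [10,11] = true := by
  decide +kernel

theorem hOrb : (List.range chevG2.rank).all (fun i => orbL.all fun x => decide (chevG2.reflectRoot i x ∈ orbL)) = true := by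
  decide +kernel

open _root_.Cfsg.Agent.Lib.Steinberg.InvMain _root_.Cfsg.Agent.Lib.Steinberg.InvLS in
/-- The classification of the involutions. -/
theorem stmt {F : Type*} [Field F] [Fintype F] [CharP F 2] :
    (∀ y : GL chevG2.Idx F, (y : Matrix chevG2.Idx chevG2.Idx F) ∈ [chevG2.x F 11 1, chevG2.x F 9 1] → y ∈ chevG2.group F ∧ orderOf y = 2) ∧
    (∀ g ∈ chevG2.group F, orderOf g = 2 → ∃ y ∈ chevG2.group F, (y : Matrix chevG2.Idx chevG2.Idx F) ∈ [chevG2.x F 11 1, chevG2.x F 9 1] ∧
      ∃ x ∈ chevG2.group F, x * g * x⁻¹ = y) ∧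
    (∀ y₁ ∈ chevG2.group F, ∀ y₂ ∈ chevG2.group F, (y₁ : Matrix chevG2.Idx chevG2.Idx F) ∈ [chevG2.x F 11 1, chevG2.x F 9 1] →
      (y₂ : Matrix chevG2.Idx chevG2.Idx F) ∈ [chevG2.x F 11 1, chevG2.x F 9 1] →
      (∃ x ∈ chevG2.group F, x * y₁ * x⁻¹ = y₂) → (y₁ : Matrix chevG2.Idx chevG2.Idx F) = y₂) := by
  have hD : chevG2 ∈ [chevG2, chevB2, chevD4, chevF4, chevE6, chevE7, chevE8] := by simp
  have ax : Ax chevG2 F := Cfsg.Agent.Lib.Lie.AxOf.ax_of_mem hD
  have h : Tab chevG2 := tab_of_mem hD
  have h2 : Tab2 chevG2 := tab2_of_mem hD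
  have h3 : Tab3 chevG2 := tab3_of_mem hD
  have hne : ∀ rep ∈ reps, wX ax rep ≠ 1 := by
    intro rep hrep
    simp only [reps, List.mem_cons, List.not_mem_nil, or_false] at hrep
    rcases hrep with rfl | rfl
    · exact ne_one_of_rank ax (k := bas0.length) (rank_of_chk ax rk0) (by rw [rkLen0]; norm_num)
    · exact ne_one_of_rank ax (k := bas1.length) (rank_of_chk ax rk1) (by rw [rkLen1]; norm_num)
  obtain ⟨hA, hB⟩ := reps_main ax h h2 h3 ft hT hfr hch hreps hne
  refine statement_form ax (reps := reps) ?_ hA hB ?_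
  · simp [reps, mul_assoc]
  · have hAB : ∀ g ∈ chevG2.group F, g * wX ax [11] * g⁻¹ ≠ wX ax [9] := by
      intro g hg e
      have e' : g * xG ax 11 1 * g⁻¹ = xG ax 9 1 := by
        simpa [wX] using e
      refine not_conj_roots ax h h2 (T := [10,11]) (Lo := orbL) (normT_of_chk hNr) (normT_of_chk hNs) (by decide)
        ?_ (by decide) hg e'
      intro i hi x hx
      have := List.all_eq_true.mp (List.all_eq_true.mp hOrb i (List.mem_range.mpr hi)) x hx
      simpa using this
    refine dist_of_rank' ax (ρ := fun l => if l = [11] then 6 else if l = [9] then 6 else 0) (A := [11]) (B := [9]) ?_ (by decide) hAB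
    intro rep hrep
    simp only [reps, List.mem_cons, List.not_mem_nil, or_false] at hrep
    rcases hrep with rfl | rfl
    · rw [rank_of_chk ax rk0, rkLen0]; decide
    · rw [rank_of_chk ax rk1, rkLen1]; decide

end Cfsg.Agent.Lib.Steinberg.InvG2
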