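import Cfsg.Agent.Lib.Twisted.Struct

/-!
Involutions of a Chevalley group in characteristic two.  An involution has a conjugate in the monomial
subgroup whose permutation of the roots sends every fundamental root to itself or to a negative root:
one takes a conjugate in a Bruhat cell of greatest length.
-/

set_option autoImplicit false
set_option linter.unusedSectionVars false
set_option linter.unusedVariables false
set_option linter.ambiguousOpen false
set_option linter.dupNamespace false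

namespace Cfsg.Agent.Lib.Steinberg.InvGen

open scoped MatrixGroups Matrix
open Cfsg Lie ChevalleyDatum
open Cfsg.Agent.Lib.Chev
open Tables Tables2 Tables3 Raise Basic AxBasic Torus Products Products2 Mono1 Mono2 Mono3 Bn
open Cfsg.Agent.Lib.Twisted.Fact Cfsg.Agent.Lib.Twisted.Bruhat Cfsg.Agent.Lib.Twisted.Tw
open Cfsg.Agent.Lib.Twisted.Struct

variable {D : ChevalleyDatum} {F : Type*} [Field F]

/-! ### Counting -/

lemma card_lt_of_map {α : Type*} [DecidableEq α] {A B : Finset α} (f : α → α) (hf : Function.Injective f)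
    (hAB : ∀ r ∈ A, f r ∈ B) (a : α) (ha : a ∈ B) (hna : ∀ r ∈ A, f r ≠ a) : A.card < B.card := by
  have h1 : A.card = (A.image f).card := (Finset.card_image_of_injective A hf).symm
  have h2 : A.image f ⊆ B.erase a := by
    intro x hx
    obtain ⟨r, hr, rfl⟩ := Finset.mem_image.mp hx
    exact Finset.mem_erase.mpr ⟨hna r hr, hAB r hr⟩
  have h3 := Finset.card_le_card h2
  have h4 := Finset.card_erase_lt_of_mem ha
  omega

section comb

variable (h : Tab D) (h2 : Tab2 D)

include h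

lemma wF_wF {i : ℕ} (hi : i < D.rank) (s : Fin D.nroots) : wF h i hi (wF h i hi s) = s := by
  apply Fin.ext
  rw [wF_val, wF_val]
  exact reflect_reflect h hi s.isLt

lemma wF_inv {i : ℕ} (hi : i < D.rank) : (wF h i hi)⁻¹ = wF h i hi := by
  apply Equiv.ext
  intro s
  rw [Equiv.Perm.inv_eq_iff_eq, wF_wF]

/-- The fundamental root as an element of `Fin`. -/
def simF (h : Tab D) (i : ℕ) (hi : i < D.rank) : Fin D.nroots := ⟨D.simple i, h.simple_lt i hi⟩

lemma wF_simF {i : ℕ} (hi : i < D.rank) : wF h i hi (simF h i hi) = negF h (simF h i hi) := by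
  apply Fin.ext
  rw [wF_val]
  exact reflect_simple h hi

lemma wF_negF {i : ℕ} (hi : i < D.rank) (s : Fin D.nroots) : wF h i hi (negF h s) = negF h (wF h i hi s) := by
  apply Fin.ext
  rw [wF_val]
  exact reflect_neg h hi s.isLt

lemma negF_negF (s : Fin D.nroots) : negF h (negF h s) = s := Fin.ext (h.neg_neg s s.isLt)

omit h in
lemma pos_negF_iff (h : Tab D) (s : Fin D.nroots) : D.IsPosRoot (negF h s) ↔ D.IsNegRoot s :=
  isPosRoot_neg h s.isLt

lemma not_pos_iff_neg (s : Fin D.nroots) : ¬ D.IsPosRoot s ↔ D.IsNegRoot s := not_isPos_iff h s.isLt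

lemma simF_pos {i : ℕ} (hi : i < D.rank) : D.IsPosRoot (simF h i hi) := simple_isPos h hi

lemma not_pos_neg_simF {i : ℕ} (hi : i < D.rank) : ¬ D.IsPosRoot (negF h (simF h i hi)) := by
  intro hp
  have h3 := (pos_negF_iff h _).mp hp
  exact not_isNeg_of_isPos h (simF_pos h hi) h3

include h2

/-- Multiplication by a reflection sending a positive root to a positive root raises the length. -/
lemma len_lt_mul {π : Equiv.Perm (Fin D.nroots)} (hneg : ∀ s, π (negF h s) = negF h (π s)) {i : ℕ}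
    (hi : i < D.rank) (hp : D.IsPosRoot (π (simF h i hi))) : len π < len (π * wF h i hi) := by
  unfold len
  apply card_lt_of_map (wF h i hi) (wF h i hi).injective _ (simF h i hi)
  · simp only [Finset.mem_filter, Finset.mem_univ, true_and]
    refine ⟨simF_pos h hi, ?_⟩
    rw [Equiv.Perm.mul_apply, wF_simF, hneg, pos_negF_iff]
    exact fun hq => not_isNeg_of_isPos h hp hq
  · intro r hr he
    simp only [Finset.mem_filter, Finset.mem_univ, true_and] at hr
    have h3 : r = negF h (simF h i hi) := by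
      rw [← wF_simF, ← he, wF_wF]
    rw [h3] at hr
    exact not_pos_neg_simF h hi hr.1
  · intro r hr
    simp only [Finset.mem_filter, Finset.mem_univ, true_and] at hr ⊢
    obtain ⟨h3, h4⟩ := hr
    refine ⟨?_, ?_⟩
    · rw [wF_val]
      apply isPos_reflect h h2 hi h3
      intro he
      apply h4
      have : r = simF h i hi := Fin.ext he
      rw [this]
      exact hp
    · rw [Equiv.Perm.mul_apply, wF_wF]
      exact h4

/-- Conjugation by a reflection raises the length of an involution sending a fundamental root to another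
positive root. -/
lemma len_lt_conj {π : Equiv.Perm (Fin D.nroots)} (hneg : ∀ s, π (negF h s) = negF h (π s))
    (hinv : ∀ s, π (π s) = s) {i : ℕ} (hi : i < D.rank) (hp : D.IsPosRoot (π (simF h i hi)))
    (hne : π (simF h i hi) ≠ simF h i hi) : len π < len (wF h i hi * π * wF h i hi) := by
  unfold len
  apply card_lt_of_map (wF h i hi) (wF h i hi).injective _ (simF h i hi)
  · simp only [Finset.mem_filter, Finset.mem_univ, true_and]
    refine ⟨simF_pos h hi, ?_⟩
    rw [Equiv.Perm.mul_apply, Equiv.Perm.mul_apply, wF_simF, hneg, wF_negF, pos_negF_iff]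
    intro hq
    refine not_isNeg_of_isPos h ?_ hq
    rw [wF_val]
    apply isPos_reflect h h2 hi hp
    intro he
    exact hne (Fin.ext he)
  · intro r hr he
    simp only [Finset.mem_filter, Finset.mem_univ, true_and] at hr
    have h3 : r = negF h (simF h i hi) := by
      rw [← wF_simF, ← he, wF_wF]
    rw [h3] at hr
    exact not_pos_neg_simF h hi hr.1
  · intro r hr
    simp only [Finset.mem_filter, Finset.mem_univ, true_and] at hr ⊢
    obtain ⟨h3, h4⟩ := hr
    refine ⟨?_, ?_⟩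
    · rw [wF_val]
      apply isPos_reflect h h2 hi h3
      intro he
      apply h4
      have : r = simF h i hi := Fin.ext he
      rw [this]
      exact hp
    · rw [Equiv.Perm.mul_apply, Equiv.Perm.mul_apply, wF_wF]
      intro hq
      rw [wF_val] at hq
      by_cases hne2 : ((π r : Fin D.nroots) : ℕ) = D.neg (D.simple i)
      · have h5 : π r = negF h (simF h i hi) := Fin.ext hne2
        have h6 : r = negF h (π (simF h i hi)) := by
          rw [← hneg, ← h5, hinv]
        rw [h6, pos_negF_iff] at h3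
        exact not_isNeg_of_isPos h hp h3
      · exact h4 (isPos_neg_reflect h h2 hi (π r).isLt hq hne2)

end comb

/-! ### Bruhat cells of the conjugates -/

section cells

variable (h : Tab D) (ax : Ax D F)

/-- `t` lies in the double coset of an element of `N` with permutation `π`. -/
def InCell (h : Tab D) (ax : Ax D F) (t : GL D.Idx F) (π : Equiv.Perm (Fin D.nroots)) : Prop :=
  ∃ b ∈ D.borelSubgroup F, ∃ m ∈ D.monomialSubgroup F, ∃ b' ∈ D.borelSubgroup F, ∃ c,
    IsNor h ax m π c ∧ t = b * m * b'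

/-- A bound for the length of the cells of the conjugates of `t`. -/
def Bd (h : Tab D) (ax : Ax D F) (t : GL D.Idx F) (k : ℕ) : Prop :=
  ∀ g ∈ D.group F, ∀ π, InCell h ax (g * t * g⁻¹) π → len π ≤ k

variable {h ax}

lemma Bd.conj {t : GL D.Idx F} {k : ℕ} (H : Bd h ax t k) {g : GL D.Idx F} (hg : g ∈ D.group F) :
    Bd h ax (g * t * g⁻¹) k := by
  intro g' hg' π hπ
  apply H (g' * g) (Subgroup.mul_mem _ hg' hg) π
  convert hπ using 1
  group

variable (h ax)

omit ax in
lemma perm_of_mem_H {a : GL D.Idx F} (ax : Ax D F) (h2 : Tab2 D) (ha : a ∈ D.diagonalSubgroup F)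
    {π : Equiv.Perm (Fin D.nroots)} {c : Fin D.nroots → Fˣ} (H : IsNor h ax a π c) : π = 1 := by
  obtain ⟨y, rfl⟩ := exists_tor_of_mem ax h ha
  exact (IsNor.unique h ax h2 H (isNor_tor h ax y)).1

variable (h2 : Tab2 D)

include h2 ax h

theorem exists_max {t : GL D.Idx F} (ht : t ∈ D.group F) :
    ∃ g ∈ D.group F, ∃ π, InCell h ax (g * t * g⁻¹) π ∧ Bd h ax t (len π) := by
  set S : Set ℕ := {k | ∃ g ∈ D.group F, ∃ π, InCell h ax (g * t * g⁻¹) π ∧ len π = k} with hS
  have hne : S.Nonempty := by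
    obtain ⟨b, hb, n, hn, b', hb', e⟩ := exists_bruhat h h2 ax ht
    obtain ⟨π, c, H⟩ := exists_isNor h h2 ax hn
    refine ⟨len π, 1, Subgroup.one_mem _, π, ⟨b, hb, n, hn, b', hb', c, H, ?_⟩, rfl⟩
    simpa using e
  have hbd : BddAbove S := by
    refine ⟨D.nroots, ?_⟩
    rintro k ⟨g, -, π, -, rfl⟩
    calc len π ≤ (Finset.univ : Finset (Fin D.nroots)).card := Finset.card_filter_le _ _
      _ = D.nroots := by simp
  obtain ⟨g, hg, π, hc, hk⟩ := Nat.sSup_mem hne hbd
  refine ⟨g, hg, π, hc, ?_⟩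
  intro g' hg' π' hπ'
  rw [hk]
  exact le_csSup hbd ⟨g', hg', π', hπ', rfl⟩

/-- The form `n y` with `n ∈ N`, `y ∈ U`. -/
theorem exists_form {t : GL D.Idx F} (ht : t ∈ D.group F) :
    ∃ g ∈ D.group F, ∃ n ∈ D.monomialSubgroup F, ∃ π c, IsNor h ax n π c ∧ ∃ y ∈ D.posUnipotent F,
      g * t * g⁻¹ = n * y ∧ Bd h ax (n * y) (len π) := by
  obtain ⟨g, hg, π, ⟨b, hb, m, hm, b', hb', c, H, e⟩, hB⟩ := exists_max h ax h2 ht
  have hbG := borel_le_group h ax hb
  have hb2 : b' * b ∈ D.borelSubgroup F := Subgroup.mul_mem _ hb' hb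
  obtain ⟨u, hu, a, ha, e2⟩ := (mem_borel_iff ax h).mp (Subgroup.inv_mem _ hb2)
  have e3 : b' * b = a⁻¹ * u⁻¹ := by
    rw [← _root_.mul_inv_rev, ← e2, inv_inv]
  obtain ⟨y', hy'⟩ := exists_tor_of_mem ax h (Subgroup.inv_mem _ ha)
  have H2 := H.mul h ax (isNor_tor h ax y')
  rw [mul_one, ← hy'] at H2
  have hg2 : b⁻¹ * g ∈ D.group F := Subgroup.mul_mem _ (Subgroup.inv_mem _ hbG) hg
  have hform : (b⁻¹ * g) * t * (b⁻¹ * g)⁻¹ = m * a⁻¹ * u⁻¹ := by
    have : (b⁻¹ * g) * t * (b⁻¹ * g)⁻¹ = b⁻¹ * (g * t * g⁻¹) * b := by group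
    rw [this, e]
    have : b⁻¹ * (b * m * b') * b = m * (b' * b) := by group
    rw [this, e3]
    group
  refine ⟨b⁻¹ * g, hg2, m * a⁻¹,
    Subgroup.mul_mem _ hm ((le_sup_left : D.diagonalSubgroup F ≤ D.monomialSubgroup F) (Subgroup.inv_mem _ ha)),
    π, _, H2, u⁻¹, Subgroup.inv_mem _ hu, hform, ?_⟩
  rw [← hform]
  intro g' hg' π' hπ'
  apply hB (g' * (b⁻¹ * g)) (Subgroup.mul_mem _ hg' hg2) π'
  convert hπ' using 1
  group

end cells

/-! ### The involutions in the form `n y` -/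

section main

variable (h : Tab D) (h2 : Tab2 D) (ax : Ax D F)

variable {n y : GL D.Idx F} {π : Equiv.Perm (Fin D.nroots)} {c : Fin D.nroots → Fˣ}

include h h2 ax

lemma mn_sq_mem (hn : n ∈ D.monomialSubgroup F) (hy : y ∈ D.posUnipotent F) (ht : (n * y) * (n * y) = 1) :
    n⁻¹ * n⁻¹ ∈ D.diagonalSubgroup F := by
  have hU : D.posUnipotent F ≤ D.borelSubgroup F := le_sup_left
  have e : 1 * n * y = y⁻¹ * n⁻¹ * 1 := by
    rw [one_mul, mul_one, ← _root_.mul_inv_rev]
    exact eq_inv_of_mul_eq_one_left ht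
  exact cell_unique h h2 ax (Subgroup.one_mem _) (hU hy) (hU (Subgroup.inv_mem _ hy)) (Subgroup.one_mem _) hn
    (Subgroup.inv_mem _ hn) e

lemma perm_sq (hn : n ∈ D.monomialSubgroup F) (H : IsNor h ax n π c) (hy : y ∈ D.posUnipotent F)
    (ht : (n * y) * (n * y) = 1) (s : Fin D.nroots) : π (π s) = s := by
  have h3 := perm_of_mem_H h ax h2 (mn_sq_mem h h2 ax hn hy ht) ((H.inv h ax).mul h ax (H.inv h ax))
  have h4 : (π⁻¹ * π⁻¹) s = s := by rw [h3]; rfl
  have h5 : π⁻¹ (π⁻¹ s) = s := h4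
  calc π (π s) = π (π (π⁻¹ (π⁻¹ s))) := by rw [h5]
    _ = s := by simp

/-- The part of `y` sent to negative roots by `n` is trivial. -/
lemma split_y (hn : n ∈ D.monomialSubgroup F) (H : IsNor h ax n π c) (hy : y ∈ D.posUnipotent F)
    (ht : (n * y) * (n * y) = 1) :
    y ∈ rootClosure ax (fun r => D.IsPosRoot r ∧ ∃ hr : r < D.nroots, D.IsPosRoot (π ⟨r, hr⟩)) := by
  have hU : D.posUnipotent F ≤ D.borelSubgroup F := le_sup_left
  set A : ℕ → Prop := fun r => ∃ hr : r < D.nroots, D.IsPosRoot (π ⟨r, hr⟩) with hA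
  rw [← rootClosure_posRoots ax] at hy
  obtain ⟨a, ha, b, hb, e⟩ := factor_good ax h A (goodList_posRoots h) hy
  have ha' : a ∈ rootClosure ax (fun r => D.IsPosRoot r ∧ A r) :=
    rootClosure_mono ax (fun r hr => ⟨mem_posRoots.mp hr.1, hr.2⟩) ha
  have hb' : b ∈ rootClosure ax (fun r => D.IsPosRoot r ∧ ¬ A r) :=
    rootClosure_mono ax (fun r hr => ⟨mem_posRoots.mp hr.1, hr.2⟩) hb
  have hyU : y ∈ D.posUnipotent F := by
    rw [← rootClosure_posRoots ax]; exact hy
  have hu1 : n * a * n⁻¹ ∈ D.posUnipotent F := by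
    rw [posUnipotent_eq ax]
    refine conj_closure H (P := fun r => D.IsPosRoot r ∧ A r) (fun r hr => hr.1.1) ?_ ha'
    rintro r ⟨-, hr, h3⟩
    exact h3
  have hv : n * b * n⁻¹ ∈ D.negUnipotent F := by
    rw [negUnipotent_eq ax]
    refine conj_closure H (P := fun r => D.IsPosRoot r ∧ ¬ A r) (fun r hr => hr.1.1) ?_ hb'
    rintro r ⟨-, h3⟩
    rw [← not_isPos_iff h (π r).isLt]
    intro hq
    exact h3 ⟨r.isLt, hq⟩
  have hsq := mn_sq_mem h h2 ax hn (hy := hyU) ht
  have e1 : n * b * n⁻¹ = (n * a * n⁻¹)⁻¹ * y⁻¹ * (n⁻¹ * n⁻¹) := by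
    have e2 : n * y * (n * y) = 1 := ht
    have e3 : n * y = y⁻¹ * n⁻¹ := by
      rw [← _root_.mul_inv_rev]
      exact eq_inv_of_mul_eq_one_left ht
    have e4 : (n * a * n⁻¹) * (n * b * n⁻¹) * n = n * y := by
      rw [e]; group
    have e5 : n * b * n⁻¹ = (n * a * n⁻¹)⁻¹ * ((n * a * n⁻¹) * (n * b * n⁻¹) * n) * n⁻¹ := by group
    rw [e5, e4, e3]
    group
  have hmem : n * b * n⁻¹ ∈ D.borelSubgroup F ⊓ D.negUnipotent F := by
    refine ⟨?_, hv⟩
    rw [e1]
    exact Subgroup.mul_mem _ (Subgroup.mul_mem _ (hU (Subgroup.inv_mem _ hu1)) (hU (Subgroup.inv_mem _ hyU)))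
      ((le_sup_right : D.diagonalSubgroup F ≤ D.borelSubgroup F) hsq)
  rw [borel_inf_V ax h, Subgroup.mem_bot] at hmem
  have hb1 : b = 1 := by
    have : n * b * n⁻¹ = n * 1 * n⁻¹ := by rw [hmem]; group
    simpa using this
  rw [e, hb1, mul_one]
  exact ha'

/-- `n` is an involution and inverts `y`. -/
lemma sq_one (hn : n ∈ D.monomialSubgroup F) (H : IsNor h ax n π c) (hy : y ∈ D.posUnipotent F)
    (ht : (n * y) * (n * y) = 1) : n * n = 1 ∧ n * y * n⁻¹ = y⁻¹ := by
  have hU : D.posUnipotent F ≤ D.borelSubgroup F := le_sup_left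
  have hsq := mn_sq_mem h h2 ax hn hy ht
  have hcl := split_y h h2 ax hn H hy ht
  have hu1 : n * y * n⁻¹ ∈ D.posUnipotent F := by
    rw [posUnipotent_eq ax]
    refine conj_closure H (P := fun r => D.IsPosRoot r ∧ ∃ hr : r < D.nroots, D.IsPosRoot (π ⟨r, hr⟩))
      (fun r hr => hr.1.1) ?_ hcl
    rintro r ⟨-, hr, h3⟩
    exact h3
  have e1 : n * n = (n * y * n⁻¹)⁻¹ * y⁻¹ := by
    have : (n * y * n⁻¹) * (n * n) * y = 1 := by
      rw [← ht]; group
    have e2 : (n * n) = (n * y * n⁻¹)⁻¹ * ((n * y * n⁻¹) * (n * n) * y) * y⁻¹ := by group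
    rw [e2, this]
    group
  have hm : n * n ∈ D.posUnipotent F ⊓ D.diagonalSubgroup F := by
    refine ⟨?_, ?_⟩
    · rw [e1]
      exact Subgroup.mul_mem _ (Subgroup.inv_mem _ hu1) (Subgroup.inv_mem _ hy)
    · have := Subgroup.inv_mem _ hsq
      simpa using this
  rw [U_inf_H ax h, Subgroup.mem_bot] at hm
  refine ⟨hm, ?_⟩
  have e3 : (n * y * n⁻¹) * (n * n) * y = 1 := by
    rw [← ht]; group
  rw [hm, mul_one] at e3
  exact eq_inv_of_mul_eq_one_left e3

/-- A fundamental root is sent by `π` to itself or to a negative root. -/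
lemma simple_alt (hn : n ∈ D.monomialSubgroup F) (H : IsNor h ax n π c) (hy : y ∈ D.posUnipotent F)
    (ht : (n * y) * (n * y) = 1) (hB : Bd h ax (n * y) (len π)) {i : ℕ} (hi : i < D.rank)
    (hp : D.IsPosRoot (π (simF h i hi))) : π (simF h i hi) = simF h i hi := by
  by_contra hne
  have hU : D.posUnipotent F ≤ D.borelSubgroup F := le_sup_left
  have hinv := perm_sq h h2 ax hn H hy ht
  have hlt := len_lt_conj h h2 H.neg hinv hi hp hne
  have hcl := split_y h h2 ax hn H hy ht
  have hy0 := hy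
  rw [← rootClosure_posRoots ax] at hy
  obtain ⟨a, ha, b, hb, e⟩ := factor_good ax h (· = D.simple i) (goodList_posRoots h) hy
  obtain ⟨e0, rfl⟩ := mem_rootSubgroup h ax (rootClosure_mono ax (fun r hr => hr.2) ha)
  have hb' : b ∈ Up ax i := rootClosure_mono ax (fun r hr => ⟨mem_posRoots.mp hr.1, hr.2⟩) hb
  obtain ⟨d, hd⟩ := exists_isNor_sG h ax h2 (F := F) hi
  set S := sG ax i with hS
  have hSm : S ∈ D.monomialSubgroup F := sG_mem_monomial h h2 ax hi
  have hSG : S ∈ D.group F := monomial_le_group h ax hSm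
  -- the conjugated element
  set n' := S * n * S⁻¹ with hn'
  have hn'm : n' ∈ D.monomialSubgroup F :=
    Subgroup.mul_mem _ (Subgroup.mul_mem _ hSm hn) (Subgroup.inv_mem _ hSm)
  have H' := (hd.mul h ax H).mul h ax (hd.inv h ax)
  rw [wF_inv h hi] at H'
  have hb2 : S * b * S⁻¹ ∈ Up ax i := sG_conj_Up h h2 ax hi hb'
  have hx1 : S * xG ax (D.simple i) e0 * S⁻¹ = xG ax (D.neg (D.simple i)) (-e0) := by
    have e6 : S * xG ax (D.simple i) e0 = xG ax (D.neg (D.simple i)) (-e0) * S := sG_mul_x h h2 ax hi e0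
    rw [e6]; group
  have hsneg : ((negF h (simF h i hi) : Fin D.nroots) : ℕ) = D.neg (D.simple i) := rfl
  have hx2 := H'.conj (negF h (simF h i hi)) (-e0)
  rw [hsneg] at hx2
  have hperm : (wF h i hi * π * wF h i hi) (negF h (simF h i hi)) = wF h i hi (π (simF h i hi)) := by
    rw [Equiv.Perm.mul_apply, Equiv.Perm.mul_apply, wF_negF, wF_simF, negF_negF]
  rw [hperm] at hx2
  have hq : D.IsPosRoot (wF h i hi (π (simF h i hi))) := by
    rw [wF_val]
    apply isPos_reflect h h2 hi hp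
    intro he
    exact hne (Fin.ext he)
  have hcell : InCell h ax (S * (n * y) * S⁻¹) (wF h i hi * π * wF h i hi) := by
    refine ⟨n' * xG ax (D.neg (D.simple i)) (-e0) * n'⁻¹, ?_, n', hn'm, S * b * S⁻¹,
      Bp_le_borel h h2 ax i ((le_sup_left : Up ax i ≤ Bp ax i) hb2), _, H', ?_⟩
    · rw [hn', hx2]
      exact xG_mem_borel h h2 ax hq _
    · rw [e, ← hx1, hn']
      group
  have := hB S hSG _ hcell
  omega

/-- The fundamental roots fixed by a permutation. -/
def fixJ (h : Tab D) (π : Equiv.Perm (Fin D.nroots)) (i : ℕ) : Prop :=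
  ∃ hi : i < D.rank, π (simF h i hi) = simF h i hi

omit h2 ax in
/-- The linearity of a word acting on roots, in terms of a permutation. -/
lemma coef_pi {l : List ℕ} (hl : ∀ i ∈ l, i < D.rank) (s : Fin D.nroots) {j : ℕ} (hj : j < D.rank) :
    coef D (wPw h l s) j =
      ∑ k ∈ Finset.range D.rank, coef D s k * coef D (wWord D l (D.simple k)) j := by
  rw [wPw_val h hl]
  exact coef_wWord h hl s.isLt hj

omit h2 ax in
lemma wPw_simF {l : List ℕ} (hl : ∀ i ∈ l, i < D.rank) {i : ℕ} (hi : i < D.rank) :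
    ((wPw h l (simF h i hi) : Fin D.nroots) : ℕ) = wWord D l (D.simple i) := wPw_val h hl _

omit h2 ax in
/-- A word fixing the fundamental roots of `J` fixes the roots supported in `J`. -/
lemma fix_of_psi {l : List ℕ} (hl : ∀ i ∈ l, i < D.rank) {J : ℕ → Prop}
    (hJ : ∀ i (hi : i < D.rank), J i → wPw h l (simF h i hi) = simF h i hi) {s : Fin D.nroots}
    (hs : ∀ i, i < D.rank → ¬ J i → coef D s i = 0) : wPw h l s = s := by
  apply Fin.ext
  apply eq_of_coef_eq h (wPw h l s).isLt s.isLt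
  intro j hj
  rw [coef_pi h hl s hj]
  have e : ∀ k ∈ Finset.range D.rank, coef D s k * coef D (wWord D l (D.simple k)) j =
      if k = j then coef D s j else 0 := by
    intro k hk
    have hk' := Finset.mem_range.mp hk
    by_cases hJk : J k
    · have h3 := hJ k hk' hJk
      have h4 : wWord D l (D.simple k) = D.simple k := by
        rw [← wPw_simF h hl hk', h3]; rfl
      rw [h4, h.coef_simple k hk' j hj]
      by_cases hkj : k = j
      · subst hkj; simp
      · have hjk : j ≠ k := fun e => hkj e.symm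
        simp [hkj, hjk]
    · rw [hs k hk' hJk, zero_mul]
      by_cases hkj : k = j
      · subst hkj; simp [hs k hk' hJk]
      · simp [hkj]
  rw [Finset.sum_congr rfl e, Finset.sum_ite_eq' (Finset.range D.rank) j]
  simp [hj]

omit h2 ax in
/-- The main sign lemma.  An involution in the Weyl group, sending each fundamental root to itself or to a
negative root, sends a positive root with a support not in the fixed nodes to a negative root. -/
lemma neg_of_support {l : List ℕ} (hl : ∀ i ∈ l, i < D.rank) (hinv : ∀ s, wPw h l (wPw h l s) = s)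
    (hneg : ∀ s, wPw h l (negF h s) = negF h (wPw h l s))
    (hsim : ∀ i (hi : i < D.rank), wPw h l (simF h i hi) = simF h i hi ∨
      D.IsNegRoot (wPw h l (simF h i hi)))
    {J : ℕ → Prop} (hJ : ∀ i (hi : i < D.rank), J i ↔ wPw h l (simF h i hi) = simF h i hi)
    {r : Fin D.nroots} (hr : D.IsPosRoot r) {k₀ : ℕ} (hk₀ : k₀ < D.rank) (hJk₀ : ¬ J k₀)
    (hc : 0 < coef D r k₀) : ¬ D.IsPosRoot (wPw h l r) := by
  have hneg₀ : ∀ i (hi : i < D.rank), ¬ J i → D.IsNegRoot (wPw h l (simF h i hi)) := by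
    intro i hi hJi
    rcases hsim i hi with h3 | h3
    · exact absurd ((hJ i hi).mpr h3) hJi
    · exact h3
  have hnk := hneg₀ k₀ hk₀ hJk₀
  -- a node outside `J` with a negative coefficient
  obtain ⟨j₀, hj₀, hJj₀, hcj⟩ : ∃ j, j < D.rank ∧ ¬ J j ∧ coef D (wPw h l (simF h k₀ hk₀)) j < 0 := by
    by_contra hno
    push Not at hno
    set γ := negF h (wPw h l (simF h k₀ hk₀)) with hγ
    have hγ0 : ∀ i, i < D.rank → ¬ J i → coef D γ i = 0 := by
      intro i hi hJi
      have h3 := hno i hi hJi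
      have h4 := (isNegRoot_iff h (wPw h l (simF h k₀ hk₀)).isLt).mp hnk i hi
      have h5 : coef D (wPw h l (simF h k₀ hk₀)) i = 0 := le_antisymm h4 h3
      rw [hγ]
      simp only [negF]
      rw [h.coef_neg _ (wPw h l (simF h k₀ hk₀)).isLt i hi, h5]
      simp
    have hfix := fix_of_psi h hl (J := J) (fun i hi hi' => (hJ i hi).mp hi') hγ0
    rw [hγ, hneg, hinv] at hfix
    have h6 := congrArg (negF h) hfix
    rw [negF_negF, negF_negF] at h6
    exact hJk₀ ((hJ k₀ hk₀).mpr h6.symm)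
  intro hp
  have h7 := (isPosRoot_iff h (wPw h l r).isLt).mp hp j₀ hj₀
  rw [coef_pi h hl r hj₀] at h7
  have h8 : ∑ k ∈ Finset.range D.rank, coef D r k * coef D (wWord D l (D.simple k)) j₀ <
      ∑ k ∈ Finset.range D.rank, (0 : ℤ) := by
    apply Finset.sum_lt_sum
    · intro k hk
      have hk' := Finset.mem_range.mp hk
      have h3 := (isPosRoot_iff h r.isLt).mp hr k hk'
      by_cases hJk : J k
      · have h4 := (hJ k hk').mp hJk
        have h5 : wWord D l (D.simple k) = D.simple k := by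
          rw [← wPw_simF h hl hk', h4]; rfl
        rw [h5, h.coef_simple k hk' j₀ hj₀]
        have hne : j₀ ≠ k := fun e => hJj₀ (e ▸ hJk)
        simp [hne]
      · have h4 := hneg₀ k hk' hJk
        rw [wPw_simF h hl hk', isNegRoot_iff h (wWord_lt h hl (h.simple_lt k hk'))] at h4
        exact mul_nonpos_of_nonneg_of_nonpos h3 (h4 j₀ hj₀)
    · refine ⟨k₀, Finset.mem_range.mpr hk₀, ?_⟩
      rw [wPw_simF h hl hk₀] at hcj
      exact mul_neg_of_pos_of_neg hc hcj
  simp only [Finset.sum_const_zero] at h8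
  omega

/-- Words with letters in `J` sending the fundamental roots of `J` to negative roots. -/
lemma exists_wordJ (J : ℕ → Prop) :
    ∃ l, (∀ i ∈ l, i < D.rank ∧ J i) ∧ ∀ i (hi : i < D.rank), J i → ¬ D.IsPosRoot (wPw h l (simF h i hi)) := by
  set S : Set ℕ := {k | ∃ l, (∀ i ∈ l, i < D.rank ∧ J i) ∧ len (wPw h l) = k} with hS
  have hne : S.Nonempty := ⟨_, [], by simp, rfl⟩
  have hbd : BddAbove S := by
    refine ⟨D.nroots, ?_⟩
    rintro k ⟨l, -, rfl⟩
    calc len (wPw h l) ≤ (Finset.univ : Finset (Fin D.nroots)).card := Finset.card_filter_le _ _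
      _ = D.nroots := by simp
  obtain ⟨l, hl, hk⟩ := Nat.sSup_mem hne hbd
  refine ⟨l, hl, ?_⟩
  intro i hi hJi hp
  have hl' : ∀ i ∈ l, i < D.rank := fun j hj => (hl j hj).1
  obtain ⟨c, hc⟩ := exists_isNor_nw h h2 ax (F := F) hl'
  have h3 := len_lt_mul h h2 hc.neg hi hp
  have h4 : wPw h l * wF h i hi = wPw h (l ++ [i]) := by
    rw [wPw_append]
    simp [wPw, wP_of_lt h hi]
  rw [h4] at h3
  have h5 : len (wPw h (l ++ [i])) ≤ sSup S := by
    apply le_csSup hbd
    refine ⟨l ++ [i], ?_, rfl⟩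
    intro j hj
    rcases List.mem_append.mp hj with hj | hj
    · exact hl j hj
    · simp only [List.mem_singleton] at hj
      rw [hj]
      exact ⟨hi, hJi⟩
  omega

variable [CharP F 2]

/-- A scalar of a fixed root for an involution is trivial in characteristic two. -/
lemma scalar_one {n : GL D.Idx F} {π : Equiv.Perm (Fin D.nroots)} {c : Fin D.nroots → Fˣ}
    (H : IsNor h ax n π c) (hnn : n * n = 1) {r : Fin D.nroots} (hr : π r = r) : c r = 1 := by
  have hinv : n⁻¹ = n := inv_eq_of_mul_eq_one_left hnn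
  have e1 := H.conj r 1
  rw [hr, mul_one] at e1
  have e2 := H.conj r (c r : F)
  rw [hr, ← e1] at e2
  have e3 : n * (n * xG ax r 1 * n⁻¹) * n⁻¹ = xG ax r 1 := by
    rw [hinv]
    calc n * (n * xG ax r 1 * n) * n = (n * n) * xG ax r 1 * (n * n) := by group
      _ = xG ax r 1 := by rw [hnn]; simp
  rw [e3] at e2
  have e4 := (xG_eq_iff ax h h2 r.isLt r.isLt (one_ne_zero (α := F)) e2).2
  have h2F : (2 : F) = 0 := CharTwo.two_eq_zero
  have e5 : ((c r : F) - 1) ^ 2 = 0 := by
    linear_combination (-1 : F) * e4 + (1 - (c r : F)) * h2F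
  have e6 : (c r : F) = 1 := by
    have := pow_eq_zero_iff (two_ne_zero) |>.mp e5
    exact sub_eq_zero.mp this
  exact Units.ext e6

/-- An involution commutes with a root element of a fixed root, and its negative. -/
lemma comm_fix {n : GL D.Idx F} {π : Equiv.Perm (Fin D.nroots)} {c : Fin D.nroots → Fˣ}
    (H : IsNor h ax n π c) (hnn : n * n = 1) {r : Fin D.nroots} (hr : π r = r) (t : F) :
    n * xG ax r t = xG ax r t * n := by
  have e1 := H.conj r t
  rw [hr, scalar_one h h2 ax H hnn hr] at e1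
  simp only [Units.val_one, one_mul] at e1
  calc n * xG ax r t = (n * xG ax r t * n⁻¹) * n := by group
    _ = xG ax r t * n := by rw [e1]

lemma comm_sG {n : GL D.Idx F} {π : Equiv.Perm (Fin D.nroots)} {c : Fin D.nroots → Fˣ}
    (H : IsNor h ax n π c) (hnn : n * n = 1) {i : ℕ} (hi : i < D.rank) (hr : π (simF h i hi) = simF h i hi) :
    n * sG ax i = sG ax i * n := by
  have e1 := comm_fix h h2 ax H hnn hr
  have hr' : π (negF h (simF h i hi)) = negF h (simF h i hi) := by rw [H.neg, hr]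
  have e2 := comm_fix h h2 ax H hnn hr'
  simp only [simF, negF] at e1 e2
  simp only [sG, nG]
  rw [← mul_assoc, ← mul_assoc, e1, mul_assoc (xG ax (D.simple i) 1), e2, ← mul_assoc, mul_assoc _ n, e1]
  simp only [mul_assoc]

omit [CharP F 2] in
/-- The conjugation of a closure of fixed roots by a reflection, in the absence of the fundamental root. -/
lemma step_simple {n y : GL D.Idx F} {π : Equiv.Perm (Fin D.nroots)} {c : Fin D.nroots → Fˣ}
    (hn : n ∈ D.monomialSubgroup F) (H : IsNor h ax n π c) {J : ℕ → Prop}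
    (hy : y ∈ rootClosure ax (Psi D J)) (hB : Bd h ax (n * y) (len π)) {i : ℕ} (hi : i < D.rank) (hJi : J i)
    (hr : π (simF h i hi) = simF h i hi) (hcS : n * sG ax i = sG ax i * n) :
    sG ax i * y * (sG ax i)⁻¹ ∈ rootClosure ax (Psi D J) ∧
      Bd h ax (n * (sG ax i * y * (sG ax i)⁻¹)) (len π) := by
  have hcl := closed_Psi h J
  have hy1 := hy
  rw [← rootClosure_posL ax hcl.pos] at hy1
  obtain ⟨a, ha, b, hb, e⟩ := factor_good ax h (· = D.simple i) (goodList_posL hcl) hy1
  obtain ⟨e0, rfl⟩ := mem_rootSubgroup h ax (rootClosure_mono ax (fun r hr => hr.2) ha)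
  have hb1 : b ∈ Up ax i :=
    rootClosure_mono ax (fun r hr => ⟨hcl.pos _ (mem_posL.mp hr.1).2, hr.2⟩) hb
  have hb2 : b ∈ rootClosure ax (fun r => Psi D J r ∧ r ≠ D.simple i) :=
    rootClosure_mono ax (fun r hr => ⟨(mem_posL.mp hr.1).2, hr.2⟩) hb
  obtain ⟨d, hd⟩ := exists_isNor_sG h ax h2 (F := F) hi
  set S := sG ax i with hS
  have hSm : S ∈ D.monomialSubgroup F := sG_mem_monomial h h2 ax hi
  have hSG : S ∈ D.group F := monomial_le_group h ax hSm
  have hconj : n * (S * y * S⁻¹) = S * (n * y) * S⁻¹ := by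
    have e1 : S * n = n * S := hcS.symm
    calc n * (S * y * S⁻¹) = (n * S) * y * S⁻¹ := by group
      _ = (S * n) * y * S⁻¹ := by rw [e1]
      _ = S * (n * y) * S⁻¹ := by group
  have he0 : e0 = 0 := by
    by_contra he0
    have hτ : -e0 ≠ 0 := neg_ne_zero.mpr he0
    set τ := -e0 with hτd
    set a' : F := -τ⁻¹ with ha'
    have ha'0 : a' ≠ 0 := neg_ne_zero.mpr (inv_ne_zero hτ)
    have hp := h.simple_lt i hi
    have hb3 : S * b * S⁻¹ ∈ Up ax i := sG_conj_Up h h2 ax hi hb1
    have hx1 : S * xG ax (D.simple i) e0 * S⁻¹ = xG ax (D.neg (D.simple i)) τ := by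
      have e6 : S * xG ax (D.simple i) e0 = xG ax (D.neg (D.simple i)) τ * S := sG_mul_x h h2 ax hi e0
      rw [e6]; group
    have hnG : nG ax (D.simple i) a' = xG ax (D.simple i) a' * xG ax (D.neg (D.simple i)) τ * xG ax (D.simple i) a' := by
      simp only [nG]
      have : -a'⁻¹ = τ := by simp [ha']
      rw [this]
    have hx2 : xG ax (D.neg (D.simple i)) τ = xG ax (D.simple i) (τ⁻¹) * nG ax (D.simple i) a' * xG ax (D.simple i) (τ⁻¹) := by
      have e7 : xG ax (D.simple i) (τ⁻¹) = (xG ax (D.simple i) a')⁻¹ := by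
        rw [← xG_inv]; simp [ha']
      rw [hnG, e7]; group
    obtain ⟨yt, hyt⟩ := exists_tor_of_mem ax h (hG_mem_diagonal ax hp ha'0)
    have hHN := (isNor_tor h ax yt).mul h ax hd
    have e10 : hG ax (D.simple i) a' * S = nG ax (D.simple i) a' := (nG_eq_hG_mul ax (D.simple i) a').symm
    rw [← hyt, one_mul, e10] at hHN
    have hNm : nG ax (D.simple i) a' ∈ D.monomialSubgroup F := by
      rw [monomial_eq_monoS h h2 ax]
      exact nG_mem_monoS h h2 ax hp ha'0
    have hcell : InCell h ax (S * (n * y) * S⁻¹) (π * wF h i hi) := by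
      refine ⟨n * xG ax (D.simple i) (τ⁻¹) * n⁻¹, ?_, n * nG ax (D.simple i) a',
        Subgroup.mul_mem _ hn hNm, xG ax (D.simple i) (τ⁻¹) * (S * b * S⁻¹), ?_, _, H.mul h ax hHN, ?_⟩
      · have e8 := H.conj (simF h i hi) (τ⁻¹)
        rw [hr] at e8
        simp only [simF] at e8
        rw [e8]
        exact xG_mem_borel h h2 ax (simple_isPos h hi) _
      · apply Subgroup.mul_mem
        · exact xG_mem_borel h h2 ax (simple_isPos h hi) _
        · exact Bp_le_borel h h2 ax i ((le_sup_left : Up ax i ≤ Bp ax i) hb3)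
      · rw [← hconj, e]
        have e9 : S * (xG ax (D.simple i) e0 * b) * S⁻¹ = (S * xG ax (D.simple i) e0 * S⁻¹) * (S * b * S⁻¹) := by group
        rw [e9, hx1, hx2]
        group
    have h3 := hB S hSG _ hcell
    have hlt := len_lt_mul h h2 H.neg hi (by rw [hr]; exact simF_pos h hi)
    omega
  rw [he0, xG_zero, one_mul] at e
  refine ⟨?_, ?_⟩
  · rw [e]
    refine conj_closure hd (P := fun r => Psi D J r ∧ r ≠ D.simple i) (fun r hr => hr.1.1.1) ?_ hb2
    rintro r ⟨⟨hr1, hr2⟩, hr3⟩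
    rw [wF_val]
    refine ⟨isPos_reflect h h2 hi hr1 hr3, ?_⟩
    intro j hj hJj
    rw [h.coef_reflect i hi _ r.isLt j hj, hr2 j hj hJj]
    have : j ≠ i := fun e => hJj (e ▸ hJi)
    simp [this]
  · rw [hconj]
    exact hB.conj hSG

/-- All conjugates along words in `J` stay in the closure. -/
lemma step_word {n : GL D.Idx F} {π : Equiv.Perm (Fin D.nroots)} {c : Fin D.nroots → Fˣ}
    (hn : n ∈ D.monomialSubgroup F) (H : IsNor h ax n π c) (hnn : n * n = 1) {J : ℕ → Prop}
    (hJ : ∀ i (hi : i < D.rank), J i → π (simF h i hi) = simF h i hi)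
    (l : List ℕ) (hl : ∀ i ∈ l, i < D.rank ∧ J i) {y : GL D.Idx F}
    (hy : y ∈ rootClosure ax (Psi D J)) (hB : Bd h ax (n * y) (len π)) :
    nw D ax l * y * (nw D ax l)⁻¹ ∈ rootClosure ax (Psi D J) ∧
      Bd h ax (n * (nw D ax l * y * (nw D ax l)⁻¹)) (len π) := by
  induction l with
  | nil => simpa using ⟨hy, hB⟩
  | cons i l ih =>
    obtain ⟨h3, h4⟩ := ih fun j hj => hl j (by simp [hj])
    obtain ⟨hi, hJi⟩ := hl i (by simp)
    have hr := hJ i hi hJi
    have h5 := step_simple h h2 ax hn H h3 h4 hi hJi hr (comm_sG h h2 ax H hnn hi hr)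
    have e : nw D ax (i :: l) * y * (nw D ax (i :: l))⁻¹ =
        sG ax i * (nw D ax l * y * (nw D ax l)⁻¹) * (sG ax i)⁻¹ := by
      rw [nw_cons]; group
    rw [e]
    exact h5

/-- The element `y` is trivial. -/
lemma y_trivial {n y : GL D.Idx F} {π : Equiv.Perm (Fin D.nroots)} {c : Fin D.nroots → Fˣ}
    (hn : n ∈ D.monomialSubgroup F) (H : IsNor h ax n π c) (hnn : n * n = 1) {J : ℕ → Prop}
    (hJ : ∀ i (hi : i < D.rank), J i → π (simF h i hi) = simF h i hi)
    (hy : y ∈ rootClosure ax (Psi D J)) (hB : Bd h ax (n * y) (len π)) : y = 1 := by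
  obtain ⟨l, hl, hneg⟩ := exists_wordJ h h2 ax (F := F) J
  have hl' : ∀ i ∈ l, i < D.rank := fun j hj => (hl j hj).1
  obtain ⟨c1, hc1⟩ := exists_isNor_nw h h2 ax (F := F) hl'
  have hm := nw_mem_monomial_aux h h2 ax (F := F) hl'
  obtain ⟨h3, -⟩ := step_word h h2 ax hn H hnn hJ l hl hy hB
  have h4 : nw D ax l * y * (nw D ax l)⁻¹ ∈ D.negUnipotent F := by
    rw [negUnipotent_eq ax]
    refine conj_closure hc1 (P := Psi D J) (fun r hr => hr.1.1) ?_ hy
    rintro r ⟨hr1, hr2⟩
    apply pi_neg_of_support h2 hm hc1 hr1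
    intro k hk hck
    rw [← not_isPos_iff h (wPw h l _).isLt]
    apply hneg k hk
    by_contra hJk
    exact hck (hr2 k hk hJk)
  have h5 : nw D ax l * y * (nw D ax l)⁻¹ ∈ D.borelSubgroup F ⊓ D.negUnipotent F :=
    ⟨(le_sup_left : D.posUnipotent F ≤ D.borelSubgroup F) (psi_le_U ax J h3), h4⟩
  rw [borel_inf_V ax h, Subgroup.mem_bot] at h5
  have : nw D ax l * y * (nw D ax l)⁻¹ = nw D ax l * 1 * (nw D ax l)⁻¹ := by rw [h5]; group
  simpa using this

/-- An involution has a conjugate in `N` whose permutation sends each fundamental root to itself or to a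
negative root. -/
theorem exists_conj_monomial {t : GL D.Idx F} (ht : t ∈ D.group F) (ht2 : t * t = 1) :
    ∃ g ∈ D.group F, ∃ π c, g * t * g⁻¹ ∈ D.monomialSubgroup F ∧ IsNor h ax (g * t * g⁻¹) π c ∧
      (g * t * g⁻¹) * (g * t * g⁻¹) = 1 ∧ ∀ i (hi : i < D.rank), π (simF h i hi) = simF h i hi ∨
        D.IsNegRoot (π (simF h i hi)) := by
  obtain ⟨g, hg, n, hn, π, c, H, y, hy, e, hB⟩ := exists_form h ax h2 ht
  have htt : (n * y) * (n * y) = 1 := by
    rw [← e]
    calc (g * t * g⁻¹) * (g * t * g⁻¹) = g * (t * t) * g⁻¹ := by group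
      _ = 1 := by rw [ht2]; simp
  obtain ⟨hnn, -⟩ := sq_one h h2 ax hn H hy htt
  have hinv := perm_sq h h2 ax hn H hy htt
  have hcl := split_y h h2 ax hn H hy htt
  have halt := fun i (hi : i < D.rank) (hp : D.IsPosRoot (π (simF h i hi))) =>
    simple_alt h h2 ax hn H hy htt hB hi hp
  set J : ℕ → Prop := fixJ h π with hJd
  have hJ : ∀ i (hi : i < D.rank), J i → π (simF h i hi) = simF h i hi := fun i hi ⟨_, hf⟩ => hf
  have hJ' : ∀ i (hi : i < D.rank), J i ↔ π (simF h i hi) = simF h i hi :=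
    fun i hi => ⟨hJ i hi, fun hf => ⟨hi, hf⟩⟩
  have hsim : ∀ i (hi : i < D.rank), π (simF h i hi) = simF h i hi ∨ D.IsNegRoot (π (simF h i hi)) := by
    intro i hi
    by_cases hp : D.IsPosRoot (π (simF h i hi))
    · exact Or.inl (halt i hi hp)
    · exact Or.inr ((not_isPos_iff h (π _).isLt).mp hp)
  have hy2 : y ∈ rootClosure ax (Psi D J) := by
    refine rootClosure_mono ax ?_ hcl
    rintro r ⟨hr, hr0, hp⟩
    refine ⟨hr, ?_⟩
    intro k hk hJk
    by_contra hc0
    have hc1 : 0 < coef D r k := by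
      have := (isPosRoot_iff h hr.1).mp hr k hk
      omega
    obtain ⟨l, hl, rfl⟩ := exists_list h2 hn H
    exact neg_of_support h hl hinv H.neg hsim hJ' (r := ⟨r, hr0⟩) hr hk hJk hc1 hp
  have hy1 := y_trivial h h2 ax hn H hnn hJ hy2 hB
  refine ⟨g, hg, π, c, ?_, ?_, ?_, hsim⟩
  · rw [e, hy1, mul_one]; exact hn
  · rw [e, hy1, mul_one]; exact H
  · rw [e, hy1, mul_one]; exact hnn

end main

end Cfsg.Agent.Lib.Steinberg.InvGen
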