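import Cfsg.Agent.Lib.Steinberg.InvGen
import Cfsg.Agent.Lib.Steinberg.Fold
import Cfsg.Agent.Lib.Steinberg.Levi

/-!
Involutions of a Chevalley group in characteristic two, continued.  Elements of `N` with the same permutation are
conjugate under `H`; products of commuting `n_r(1)` are conjugate to products of `x_r(1)`; the permutation of the
monomial involution is determined by its fixed fundamental roots.
-/

set_option autoImplicit false
set_option linter.unusedSectionVars false
set_option linter.unusedVariables false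
set_option linter.ambiguousOpen false
set_option linter.dupNamespace false

namespace Cfsg.Agent.Lib.Steinberg.InvGen2

open scoped MatrixGroups Matrix
open Cfsg Lie ChevalleyDatum
open Cfsg.Agent.Lib.Chev
open Tables Tables2 Tables3 Raise Basic AxBasic Torus Products Products2 Mono1 Mono2 Mono3 Bn
open Cfsg.Agent.Lib.Twisted.Fact Cfsg.Agent.Lib.Twisted.Bruhat Cfsg.Agent.Lib.Twisted.Tw
open Cfsg.Agent.Lib.Twisted.Struct
open _root_.Cfsg.Agent.Lib.Steinberg.InvGen _root_.Cfsg.Agent.Lib.Steinberg.Rel _root_.Cfsg.Agent.Lib.Steinberg.Fold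

variable {D : ChevalleyDatum} {F : Type*} [Field F] [CharP F 2]

section elem

variable (ax : Ax D F)

lemma neg_two (t : F) : -t = t := CharTwo.neg_eq t

lemma xG_sq (r : ℕ) (t : F) : xG ax r t * xG ax r t = 1 := by
  rw [xG_add, CharTwo.add_self_eq_zero, xG_zero]

lemma xG_inv_two (r : ℕ) (t : F) : (xG ax r t)⁻¹ = xG ax r t := by
  rw [xG_inv, neg_two]

lemma nG_one (r : ℕ) : nG ax r 1 = xG ax r 1 * xG ax (D.neg r) 1 * xG ax r 1 := by
  simp [nG, neg_two]

lemma nG_inv_two (r : ℕ) : (nG ax r 1)⁻¹ = nG ax r 1 := by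
  rw [nG_inv, neg_two]

lemma nG_sq (r : ℕ) : nG ax r 1 * nG ax r 1 = 1 := by
  nth_rewrite 1 [← nG_inv_two ax r]
  exact inv_mul_cancel _

lemma sG_inv_two (i : ℕ) : (sG ax i)⁻¹ = sG ax i := nG_inv_two ax _

lemma nw_inv_two (v : List ℕ) : (nw D ax v)⁻¹ = nw D ax v.reverse := by
  induction v with
  | nil => simp
  | cons i v ih =>
    rw [nw_cons, _root_.mul_inv_rev, ih, sG_inv_two, List.reverse_cons, nw_append]
    simp [nw]

variable (h : Tab D) (h2 : Tab2 D)

include h h2

lemma nG_neg_two {r : ℕ} (hr : r < D.nroots) : nG ax (D.neg r) 1 = nG ax r 1 := by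
  rcases isPos_or_isNeg h hr with hp | hn
  · have := (pos_root_aux h h2 ax _ r hp le_rfl).2 1 one_ne_zero
    rw [this]
    simp [neg_two]
  · have hp : D.IsPosRoot (D.neg r) := (isPosRoot_neg h hr).mpr hn
    have := (pos_root_aux h h2 ax _ (D.neg r) hp le_rfl).2 1 one_ne_zero
    rw [h.neg_neg r hr] at this
    rw [this]
    simp [neg_two]

/-- The `S₃` computation. -/
lemma conj_single {r : ℕ} (hr : r < D.nroots) :
    (xG ax r 1 * xG ax (D.neg r) 1) * nG ax r 1 * (xG ax r 1 * xG ax (D.neg r) 1)⁻¹ = xG ax r 1 := by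
  have hb : nG ax r 1 = xG ax (D.neg r) 1 * xG ax r 1 * xG ax (D.neg r) 1 := by
    rw [← nG_neg_two ax h h2 hr, nG_one, h.neg_neg r hr]
  have hn := nG_one ax r
  set x := xG ax r 1 with hx
  set y := xG ax (D.neg r) 1 with hy
  have hxx : x * x = 1 := xG_sq ax r 1
  have hyy : y * y = 1 := xG_sq ax _ 1
  have hxi : x⁻¹ = x := xG_inv_two ax r 1
  have hyi : y⁻¹ = y := xG_inv_two ax _ 1
  rw [_root_.mul_inv_rev, hxi, hyi]
  calc x * y * nG ax r 1 * (y * x) = x * (y * nG ax r 1 * y) * x := by group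
    _ = x * (y * (y * x * y) * y) * x := by rw [hb]
    _ = x * ((y * y) * x * (y * y)) * x := by group
    _ = x * x * x := by rw [hyy]; group
    _ = x := by rw [hxx, one_mul]

lemma sG_conj_two {i : ℕ} (hi : i < D.rank) {s : ℕ} (hs : s < D.nroots) (t : F) :
    sG ax i * xG ax s t * (sG ax i)⁻¹ = xG ax (D.reflectRoot i s) t := by
  obtain ⟨η, hη, h1, -⟩ := ax.n_simple i s hi hs
  have hη1 : (η : F) = 1 := by
    rcases hη with rfl | rfl
    · simp
    · simp [neg_two]
  have : (sG ax i * xG ax s t : GL D.Idx F) = xG ax (D.reflectRoot i s) t * sG ax i :=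
    Units.ext (by simpa [sG_val, hη1] using h1 t)
  rw [this]
  simp

lemma nw_conj_two {v : List ℕ} (hv : ∀ i ∈ v, i < D.rank) {s : ℕ} (hs : s < D.nroots) (t : F) :
    nw D ax v * xG ax s t * (nw D ax v)⁻¹ = xG ax (wWord D v s) t := by
  induction v with
  | nil => simp [wWord]
  | cons i v ih =>
    have hi : i < D.rank := hv i (by simp)
    have hv' : ∀ j ∈ v, j < D.rank := fun j hj => hv j (by simp [hj])
    have e : nw D ax (i :: v) * xG ax s t * (nw D ax (i :: v))⁻¹ =
        sG ax i * (nw D ax v * xG ax s t * (nw D ax v)⁻¹) * (sG ax i)⁻¹ := by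
      rw [nw_cons]; group
    rw [e, ih hv', sG_conj_two ax h h2 hi (wWord_lt h hv' hs)]
    rfl

omit [CharP F 2] h2 in
lemma wWord_neg {v : List ℕ} (hv : ∀ i ∈ v, i < D.rank) {s : ℕ} (hs : s < D.nroots) :
    wWord D v (D.neg s) = D.neg (wWord D v s) := by
  induction v with
  | nil => rfl
  | cons i v ih =>
    have hi : i < D.rank := hv i (by simp)
    have hv' : ∀ j ∈ v, j < D.rank := fun j hj => hv j (by simp [hj])
    have e1 : wWord D (i :: v) (D.neg s) = D.reflectRoot i (wWord D v (D.neg s)) := rfl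
    have e2 : wWord D (i :: v) s = D.reflectRoot i (wWord D v s) := rfl
    rw [e1, e2, ih hv', reflect_neg h hi (wWord_lt h hv' hs)]

include ax in
lemma nw_conj_nG {v : List ℕ} (hv : ∀ i ∈ v, i < D.rank) {s : ℕ} (hs : s < D.nroots) (t : F) :
    nw D ax v * nG ax s t * (nw D ax v)⁻¹ = nG ax (wWord D v s) t := by
  have e : nw D ax v * nG ax s t * (nw D ax v)⁻¹ =
      (nw D ax v * xG ax s t * (nw D ax v)⁻¹) * (nw D ax v * xG ax (D.neg s) (-t⁻¹) * (nw D ax v)⁻¹) *
        (nw D ax v * xG ax s t * (nw D ax v)⁻¹) := by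
    simp only [nG]; group
  rw [e, nw_conj_two ax h h2 hv hs, nw_conj_two ax h h2 hv (h.neg_lt s hs), wWord_neg h hv hs]
  rfl

end elem

/-! ### Products along lists -/

section lists

variable (ax : Ax D F)

/-- The product of the `x_r(1)` along a list. -/
def wX (ax : Ax D F) (l : List ℕ) : GL D.Idx F := (l.map fun r => xG ax r 1).prod

/-- The product of the `n_r(1)` along a list. -/
def nX (ax : Ax D F) (l : List ℕ) : GL D.Idx F := (l.map fun r => nG ax r 1).prod

/-- The element conjugating them. -/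
def gX (ax : Ax D F) (l : List ℕ) : GL D.Idx F := (l.map fun r => xG ax r 1 * xG ax (D.neg r) 1).prod

@[simp] lemma wX_nil : wX ax [] = 1 := rfl
@[simp] lemma nX_nil : nX ax [] = 1 := rfl
@[simp] lemma gX_nil : gX ax [] = 1 := rfl
lemma wX_cons (r : ℕ) (l : List ℕ) : wX ax (r :: l) = xG ax r 1 * wX ax l := by simp [wX]
lemma nX_cons (r : ℕ) (l : List ℕ) : nX ax (r :: l) = nG ax r 1 * nX ax l := by simp [nX]
lemma gX_cons (r : ℕ) (l : List ℕ) : gX ax (r :: l) = (xG ax r 1 * xG ax (D.neg r) 1) * gX ax l := by simp [gX]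
lemma wX_append (l l' : List ℕ) : wX ax (l ++ l') = wX ax l * wX ax l' := by simp [wX]

variable (h : Tab D) (h2 : Tab2 D)

lemma wX_mem {l : List ℕ} (hl : ∀ r ∈ l, r < D.nroots) : wX ax l ∈ D.group F := by
  apply Subgroup.list_prod_mem
  intro x hx
  obtain ⟨r, hr, rfl⟩ := List.mem_map.mp hx
  exact xG_mem_group ax (hl r hr) 1

include h h2 in
lemma nw_conj_wX {v : List ℕ} (hv : ∀ i ∈ v, i < D.rank) {l : List ℕ} (hl : ∀ r ∈ l, r < D.nroots) :
    nw D ax v * wX ax l * (nw D ax v)⁻¹ = wX ax (l.map (wWord D v)) := by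
  induction l with
  | nil => simp
  | cons r l ih =>
    rw [List.map_cons, wX_cons, wX_cons, ← ih fun s hs => hl s (by simp [hs]),
      ← nw_conj_two ax h h2 hv (hl r (by simp))]
    group

/-- Two roots whose root elements commute in all signs. -/
def cm4 (D : ChevalleyDatum) (a b : ℕ) : Bool :=
  comOK D 2 (a, 1) (b, 1) && comOK D 2 (a, 1) (D.neg b, 1) && comOK D 2 (D.neg a, 1) (b, 1) &&
    comOK D 2 (D.neg a, 1) (D.neg b, 1)

lemma two_cast : ((2 : ℤ) : F) = 0 := by
  have : ((2 : ℤ) : F) = (2 : F) := by norm_cast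
  rw [this]
  exact CharTwo.two_eq_zero

lemma cm4_comm {a b : ℕ} (hc : cm4 D a b = true) :
    Commute (xG ax a 1) (xG ax b 1) ∧ Commute (xG ax a 1) (xG ax (D.neg b) 1) ∧
      Commute (xG ax (D.neg a) 1) (xG ax b 1) ∧ Commute (xG ax (D.neg a) 1) (xG ax (D.neg b) 1) := by
  simp only [cm4, Bool.and_eq_true] at hc
  obtain ⟨⟨⟨h1, h3⟩, h4⟩, h5⟩ := hc
  have hy := Levi.stRel_xG (D' := D) ax
  have hm := two_cast (F := F)
  exact ⟨(commute_of_comOK hy hm h1 1 1).symm, (commute_of_comOK hy hm h3 1 1).symm,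
    (commute_of_comOK hy hm h4 1 1).symm, (commute_of_comOK hy hm h5 1 1).symm⟩

lemma comm_lists {e : GL D.Idx F} {l : List ℕ}
    (he : ∀ s ∈ l, Commute e (xG ax s 1) ∧ Commute e (xG ax (D.neg s) 1)) :
    Commute e (wX ax l) ∧ Commute e (nX ax l) ∧ Commute e (gX ax l) := by
  refine ⟨?_, ?_, ?_⟩
  · apply Commute.list_prod_right
    intro x hx
    obtain ⟨r, hr, rfl⟩ := List.mem_map.mp hx
    exact (he r hr).1
  · apply Commute.list_prod_right
    intro x hx
    obtain ⟨r, hr, rfl⟩ := List.mem_map.mp hx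
    rw [nG_one]
    exact ((he r hr).1.mul_right (he r hr).2).mul_right (he r hr).1
  · apply Commute.list_prod_right
    intro x hx
    obtain ⟨r, hr, rfl⟩ := List.mem_map.mp hx
    exact (he r hr).1.mul_right (he r hr).2

include h h2 in
/-- Products of commuting `n_r(1)` are conjugate to the products of the `x_r(1)`. -/
theorem frame_conj {R : List ℕ} (hR : pwB (cm4 D) R = true) (hlt : ∀ r ∈ R, r < D.nroots) :
    gX ax R * nX ax R * (gX ax R)⁻¹ = wX ax R ∧ wX ax R * wX ax R = 1 := by
  induction R with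
  | nil => simp
  | cons r R ih =>
    simp only [pwB, Bool.and_eq_true, List.all_eq_true] at hR
    obtain ⟨ih1, ih2⟩ := ih hR.2 fun s hs => hlt s (by simp [hs])
    have hr : r < D.nroots := hlt r (by simp)
    have hc1 : ∀ s ∈ R, Commute (xG ax r 1) (xG ax s 1) ∧ Commute (xG ax r 1) (xG ax (D.neg s) 1) :=
      fun s hs => ⟨(cm4_comm ax (hR.1 s hs)).1, (cm4_comm ax (hR.1 s hs)).2.1⟩
    have hc2 : ∀ s ∈ R, Commute (xG ax (D.neg r) 1) (xG ax s 1) ∧
        Commute (xG ax (D.neg r) 1) (xG ax (D.neg s) 1) :=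
      fun s hs => ⟨(cm4_comm ax (hR.1 s hs)).2.2.1, (cm4_comm ax (hR.1 s hs)).2.2.2⟩
    obtain ⟨a1, a2, a3⟩ := comm_lists ax hc1
    obtain ⟨b1, b2, b3⟩ := comm_lists ax hc2
    have hn3 : Commute (nG ax r 1) (gX ax R) := by
      rw [nG_one]
      exact (a3.mul_left b3).mul_left a3
    have hg1 : Commute (xG ax r 1 * xG ax (D.neg r) 1) (wX ax R) := a1.mul_left b1
    have hs := conj_single ax h h2 hr
    constructor
    · rw [gX_cons, nX_cons, wX_cons]
      calc (xG ax r 1 * xG ax (D.neg r) 1) * gX ax R * (nG ax r 1 * nX ax R) *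
            ((xG ax r 1 * xG ax (D.neg r) 1) * gX ax R)⁻¹
          = (xG ax r 1 * xG ax (D.neg r) 1) * (gX ax R * nG ax r 1) * nX ax R * (gX ax R)⁻¹ *
              (xG ax r 1 * xG ax (D.neg r) 1)⁻¹ := by group
        _ = (xG ax r 1 * xG ax (D.neg r) 1) * nG ax r 1 * (gX ax R * nX ax R * (gX ax R)⁻¹) *
              (xG ax r 1 * xG ax (D.neg r) 1)⁻¹ := by
            rw [hn3.symm.eq]; group
        _ = (xG ax r 1 * xG ax (D.neg r) 1) * nG ax r 1 * wX ax R * (xG ax r 1 * xG ax (D.neg r) 1)⁻¹ := by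
            rw [ih1]
        _ = ((xG ax r 1 * xG ax (D.neg r) 1) * nG ax r 1 * (xG ax r 1 * xG ax (D.neg r) 1)⁻¹) * wX ax R := by
            have := (hg1.inv_left).eq
            rw [mul_assoc _ (wX ax R), ← this]
            group
        _ = xG ax r 1 * wX ax R := by rw [hs]
    · rw [wX_cons]
      calc xG ax r 1 * wX ax R * (xG ax r 1 * wX ax R) = xG ax r 1 * (wX ax R * xG ax r 1) * wX ax R := by group
        _ = xG ax r 1 * (xG ax r 1 * wX ax R) * wX ax R := by rw [a1.symm.eq]
        _ = (xG ax r 1 * xG ax r 1) * (wX ax R * wX ax R) := by group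
        _ = 1 := by rw [ih2, xG_sq]; simp

end lists

/-! ### Frames -/

section frames

variable (ax : Ax D F) (h : Tab D) (h2 : Tab2 D)

/-- The roots of a frame. -/
def frR (D : ChevalleyDatum) (fr : List (List ℕ × ℕ)) : List ℕ := fr.map fun e => wWord D e.1 (D.simple e.2)

/-- The word of a frame. -/
def frW (fr : List (List ℕ × ℕ)) : List ℕ := fr.flatMap fun e => e.1 ++ e.2 :: e.1.reverse

/-- The letters of a frame are in range. -/
def frOK (D : ChevalleyDatum) (fr : List (List ℕ × ℕ)) : Bool :=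
  fr.all fun e => e.1.all (fun i => decide (i < D.rank)) && decide (e.2 < D.rank)

omit [CharP F 2] in
lemma frW_lt {fr : List (List ℕ × ℕ)} (hfr : frOK D fr = true) : ∀ i ∈ frW fr, i < D.rank := by
  simp only [frOK, List.all_eq_true, Bool.and_eq_true, decide_eq_true_eq] at hfr
  intro i hi
  simp only [frW, List.mem_flatMap, List.mem_append, List.mem_cons, List.mem_reverse] at hi
  obtain ⟨e, he, hi⟩ := hi
  obtain ⟨h3, h4⟩ := hfr e he
  rcases hi with hi | rfl | hi
  · exact h3 i hi
  · exact h4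
  · exact h3 i hi

omit [CharP F 2] in
include h in
lemma frR_lt {fr : List (List ℕ × ℕ)} (hfr : frOK D fr = true) : ∀ r ∈ frR D fr, r < D.nroots := by
  simp only [frOK, List.all_eq_true, Bool.and_eq_true, decide_eq_true_eq] at hfr
  intro r hr
  simp only [frR, List.mem_map] at hr
  obtain ⟨e, he, rfl⟩ := hr
  obtain ⟨h3, h4⟩ := hfr e he
  exact wWord_lt h h3 (h.simple_lt _ h4)

include h h2

lemma nw_frW {fr : List (List ℕ × ℕ)} (hfr : frOK D fr = true) : nw D ax (frW fr) = nX ax (frR D fr) := by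
  induction fr with
  | nil => simp [frW, frR]
  | cons e fr ih =>
    simp only [frOK, List.all_cons, Bool.and_eq_true, List.all_eq_true, decide_eq_true_eq] at hfr
    obtain ⟨⟨h3, h4⟩, h5⟩ := hfr
    have h6 : frOK D fr = true := by
      simp only [frOK, List.all_eq_true, Bool.and_eq_true, decide_eq_true_eq]
      exact h5
    simp only [frW, List.flatMap_cons, frR, List.map_cons]
    rw [nX_cons, nw_append]
    have ih' := ih h6
    simp only [frW, frR] at ih'
    rw [ih']
    congr 1
    have e1 : e.1 ++ e.2 :: e.1.reverse = e.1 ++ [e.2] ++ e.1.reverse := by simp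
    rw [e1, nw_append, nw_append, ← nw_inv_two]
    have := nw_conj_nG ax h h2 h3 (h.simple_lt _ h4) 1
    rw [← this]
    simp [nw, sG]

/-- Elements of `N` with the same permutation, of order two, are conjugate under `H`. -/
theorem conj_of_same_perm [Fintype F] {n z : GL D.Idx F} (hn : n ∈ D.monomialSubgroup F)
    (hz : z ∈ D.monomialSubgroup F) {π : Equiv.Perm (Fin D.nroots)} {c c' : Fin D.nroots → Fˣ}
    (Hn : IsNor h ax n π c) (Hz : IsNor h ax z π c') (hnn : n * n = 1) (hzz : z * z = 1) :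
    ∃ b ∈ D.diagonalSubgroup F, b * z * b⁻¹ = n := by
  have hzi : z⁻¹ = z := inv_eq_of_mul_eq_one_left hzz
  have hni : n⁻¹ = n := inv_eq_of_mul_eq_one_left hnn
  set a := n * z⁻¹ with ha
  have ham : a ∈ D.monomialSubgroup F := Subgroup.mul_mem _ hn (Subgroup.inv_mem _ hz)
  have Ha := Hn.mul h ax (Hz.inv h ax)
  rw [mul_inv_cancel] at Ha
  have haH : a ∈ D.diagonalSubgroup F := mem_H_of_pos h h2 ax ham Ha (fun s hs => hs)
  obtain ⟨y, hy⟩ := exists_tor_of_mem ax h haH
  set q := Fintype.card F with hq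
  have hq0 : 0 < q := Fintype.card_pos
  have hqpow : a ^ (q - 1) = 1 := by
    have e1 : y ^ (q - 1) = 1 := by
      funext i
      apply Units.ext
      simp only [Pi.pow_apply, Units.val_pow_eq_pow_val, Pi.one_apply, Units.val_one]
      exact FiniteField.pow_card_sub_one_eq_one _ (y i).ne_zero
    have e2 := map_pow (torHom (F := F) D) y (q - 1)
    rw [e1, map_one] at e2
    rw [hy]
    exact e2.symm
  have h2q : 2 ∣ q := (CharP.cast_eq_zero_iff F 2 q).mp (Nat.cast_card_eq_zero F)
  obtain ⟨m, hm⟩ := h2q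
  have hbb : a ^ m * a ^ m = a := by
    rw [← pow_add, show m + m = (q - 1) + 1 by omega, pow_succ, hqpow, one_mul]
  have hza : z * a * z⁻¹ = a⁻¹ := by
    rw [ha, hzi, _root_.mul_inv_rev, hzi, hni]
    calc z * (n * z) * z = z * n * (z * z) := by group
      _ = z * n := by rw [hzz, mul_one]
  have hzb : z * a ^ m * z⁻¹ = (a ^ m)⁻¹ := by
    rw [← inv_pow, ← hza, conj_pow]
  refine ⟨a ^ m, Subgroup.pow_mem _ haH m, ?_⟩
  calc a ^ m * z * (a ^ m)⁻¹ = a ^ m * (z * (a ^ m)⁻¹ * z⁻¹) * z := by group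
    _ = a ^ m * (z * a ^ m * z⁻¹)⁻¹ * z := by group
    _ = a ^ m * a ^ m * z := by rw [hzb, inv_inv]
    _ = a * z := by rw [hbb]
    _ = n := by rw [ha]; group

/-- An involution of `N` with the permutation of a frame is conjugate to the product of root elements of the frame. -/
theorem conj_of_frame [Fintype F] {n : GL D.Idx F} (hn : n ∈ D.monomialSubgroup F)
    {π : Equiv.Perm (Fin D.nroots)} {c : Fin D.nroots → Fˣ} (H : IsNor h ax n π c) (hnn : n * n = 1)
    {fr : List (List ℕ × ℕ)} (hfr : frOK D fr = true) (hR : pwB (cm4 D) (frR D fr) = true)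
    (hπ : π = wPw h (frW fr)) : ∃ g ∈ D.group F, g * n * g⁻¹ = wX ax (frR D fr) := by
  have hW := frW_lt hfr
  have hRlt := frR_lt h hfr
  obtain ⟨e1, e2⟩ := frame_conj ax h h2 hR hRlt
  set z := nw D ax (frW fr) with hz
  have hzN : z ∈ D.monomialSubgroup F := nw_mem_monomial_aux h h2 ax hW
  obtain ⟨c', Hz⟩ := exists_isNor_nw h h2 ax (F := F) hW
  rw [← hπ] at Hz
  have hzX : z = nX ax (frR D fr) := nw_frW ax h h2 hfr
  have hzz : z * z = 1 := by
    have e3 : z = (gX ax (frR D fr))⁻¹ * wX ax (frR D fr) * gX ax (frR D fr) := by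
      rw [← e1, hzX]; group
    rw [e3]
    calc (gX ax (frR D fr))⁻¹ * wX ax (frR D fr) * gX ax (frR D fr) *
          ((gX ax (frR D fr))⁻¹ * wX ax (frR D fr) * gX ax (frR D fr))
        = (gX ax (frR D fr))⁻¹ * (wX ax (frR D fr) * wX ax (frR D fr)) * gX ax (frR D fr) := by group
      _ = 1 := by rw [e2]; simp
  obtain ⟨b, hb, e4⟩ := conj_of_same_perm ax h h2 hn hzN H Hz hnn hzz
  have hgG : gX ax (frR D fr) ∈ D.group F := by
    apply Subgroup.list_prod_mem
    intro x hx
    obtain ⟨r, hr, rfl⟩ := List.mem_map.mp hx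
    exact Subgroup.mul_mem _ (xG_mem_group ax (hRlt r hr) 1) (xG_mem_group ax (h.neg_lt r (hRlt r hr)) 1)
  refine ⟨gX ax (frR D fr) * b⁻¹, Subgroup.mul_mem _ hgG (Subgroup.inv_mem _ (diagonal_le_group h ax hb)), ?_⟩
  rw [← e4, ← e1, hzX]
  group

end frames

/-! ### Identification of the permutation -/

section ident

variable (ax : Ax D F) (h : Tab D) (h2 : Tab2 D)

omit [CharP F 2] in
include h in
lemma wPw_inv {l : List ℕ} (hl : ∀ i ∈ l, i < D.rank) : (wPw h l)⁻¹ = wPw h l.reverse := by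
  induction l with
  | nil => simp
  | cons i l ih =>
    have hi : i < D.rank := hl i (by simp)
    rw [wPw_cons, _root_.mul_inv_rev, ih fun j hj => hl j (by simp [hj]), List.reverse_cons, wPw_append, wP_of_lt h hi,
      wF_inv h hi]
    simp [wPw, wP_of_lt h hi]

omit [CharP F 2] in
include h in
/-- Two words agreeing on the fundamental roots have the same permutation. -/
lemma wPw_eq_of_simple {l l' : List ℕ} (hl : ∀ i ∈ l, i < D.rank) (hl' : ∀ i ∈ l', i < D.rank)
    (he : ∀ i, i < D.rank → wWord D l (D.simple i) = wWord D l' (D.simple i)) : wPw h l = wPw h l' := by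
  apply Equiv.ext
  intro s
  apply Fin.ext
  rw [wPw_val h hl, wPw_val h hl']
  apply eq_of_coef_eq h (wWord_lt h hl s.isLt) (wWord_lt h hl' s.isLt)
  intro j hj
  rw [coef_wWord h hl s.isLt hj, coef_wWord h hl' s.isLt hj]
  apply Finset.sum_congr rfl
  intro k hk
  rw [he k (Finset.mem_range.mp hk)]

omit [CharP F 2] in
include h in
/-- Letters not involved in a word do not change the coefficient. -/
lemma coef_wWord_off {l : List ℕ} (hl : ∀ i ∈ l, i < D.rank) {j : ℕ} (hj : j < D.rank) (hjl : j ∉ l) {s : ℕ}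
    (hs : s < D.nroots) : coef D (wWord D l s) j = coef D s j := by
  induction l with
  | nil => rfl
  | cons i l ih =>
    have hi : i < D.rank := hl i (by simp)
    have hl' : ∀ k ∈ l, k < D.rank := fun k hk => hl k (by simp [hk])
    have hji : j ≠ i := fun e => hjl (by simp [e])
    have e1 : wWord D (i :: l) s = D.reflectRoot i (wWord D l s) := rfl
    rw [e1, h.coef_reflect i hi _ (wWord_lt h hl' hs) j hj, if_neg hji, ih hl' fun hm => hjl (by simp [hm]), sub_zero]

include h h2 ax in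
/-- The permutation of a monomial involution of the given form is determined by the fixed fundamental roots: it
is the product of the longest word and the longest word on the fixed nodes. -/
theorem perm_eq_w0 (h3 : Tab3 D) {n : GL D.Idx F} (hn : n ∈ D.monomialSubgroup F)
    {π : Equiv.Perm (Fin D.nroots)} {c : Fin D.nroots → Fˣ} (H : IsNor h ax n π c) (hnn : n * n = 1)
    (hsim : ∀ i (hi : i < D.rank), π (simF h i hi) = simF h i hi ∨ D.IsNegRoot (π (simF h i hi)))
    {wJ : List ℕ} (hwl : ∀ i ∈ wJ, ∃ hi : i < D.rank, π (simF h i hi) = simF h i hi)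
    (hwn : ∀ i (hi : i < D.rank), π (simF h i hi) = simF h i hi → D.IsNegRoot (wWord D wJ (D.simple i))) :
    π = wPw h (w0Of D.nroots ++ wJ.reverse) := by
  have hl0 : ∀ i ∈ wJ, i < D.rank := fun i hi => (hwl i hi).1
  have hinv : ∀ s, π (π s) = s := by
    intro s
    have h4 := (H.mul h ax H)
    rw [hnn] at h4
    have h5 := (IsNor.unique h ax h2 h4 (IsNor.one h ax)).1
    have h6 := congrArg (fun f => f s) h5
    simpa using h6
  set J : ℕ → Prop := fixJ h π with hJd
  have hJ' : ∀ i (hi : i < D.rank), J i ↔ π (simF h i hi) = simF h i hi :=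
    fun i hi => ⟨fun ⟨_, hf⟩ => hf, fun hf => ⟨hi, hf⟩⟩
  obtain ⟨l, hl, rfl⟩ := exists_list h2 hn H
  obtain ⟨c₁, H₁⟩ := exists_isNor_nw h h2 ax (F := F) hl0
  have hx : ∀ k (hk : k < D.rank), D.IsNegRoot ((wPw h l * wPw h wJ) (simF h k hk)) := by
    intro k hk
    rw [Equiv.Perm.mul_apply]
    by_cases hJk : J k
    · have hf := (hJ' k hk).mp hJk
      have h4 := hwn k hk hf
      set β := wPw h wJ (simF h k hk) with hβ
      have hβv : (β : ℕ) = wWord D wJ (D.simple k) := wPw_simF h hl0 hk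
      have hnβ : D.IsNegRoot β := by rw [hβv]; exact h4
      have hγ0 : ∀ i, i < D.rank → ¬ J i → coef D (negF h β) i = 0 := by
        intro i hi hJi
        simp only [negF]
        rw [h.coef_neg _ β.isLt i hi, hβv]
        have hil : i ∉ wJ := fun hm => by
          obtain ⟨hi', hf'⟩ := hwl i hm
          exact hJi ⟨hi', hf'⟩
        rw [coef_wWord_off h hl0 hi hil (h.simple_lt k hk), h.coef_simple k hk i hi]
        have : i ≠ k := fun e => hJi (e ▸ hJk)
        simp [this]
      have hfix := fix_of_psi h hl (J := J) (fun i hi hi' => (hJ' i hi).mp hi') hγ0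
      rw [H.neg] at hfix
      have h6 := congrArg (negF h) hfix
      rw [negF_negF, negF_negF] at h6
      rw [h6]
      exact hnβ
    · set β := wPw h wJ (simF h k hk) with hβ
      have hβv : (β : ℕ) = wWord D wJ (D.simple k) := wPw_simF h hl0 hk
      have hkl : k ∉ wJ := fun hm => by
        obtain ⟨hi', hf'⟩ := hwl k hm
        exact hJk ⟨hi', hf'⟩
      have hcβ : coef D β k = 1 := by
        rw [hβv, coef_wWord_off h hl0 hk hkl (h.simple_lt k hk), h.coef_simple k hk k hk]
        simp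
      have hβp : D.IsPosRoot β := isPos_of_coef_pos h β.isLt hk (by omega)
      rw [← not_isPos_iff h (wPw h l β).isLt]
      exact neg_of_support h hl hinv H.neg hsim hJ' hβp hk hJk (by omega)
  -- compare with the longest element
  obtain ⟨c₀, H₀⟩ := exists_isNor_nw h h2 ax (F := F) h3.w0_lt
  have hz₀ := nw_mem_monomial_aux h h2 ax (F := F) h3.w0_lt
  have hz₁ := nw_mem_monomial_aux h h2 ax (F := F) hl0
  have hg : (nw D ax (w0Of D.nroots))⁻¹ * (n * nw D ax wJ) ∈ D.monomialSubgroup F :=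
    Subgroup.mul_mem _ (Subgroup.inv_mem _ hz₀) (Subgroup.mul_mem _ hn hz₁)
  have Hg := (H₀.inv h ax).mul h ax (H.mul h ax H₁)
  have hpos : ∀ s : Fin D.nroots, D.IsPosRoot s →
      D.IsPosRoot (((wPw h (w0Of D.nroots))⁻¹ * (wPw h l * wPw h wJ)) s) := by
    intro s hs
    apply pi_pos_of_support h2 hg Hg hs
    intro k hk _
    rw [Equiv.Perm.mul_apply]
    set δ := (wPw h (w0Of D.nroots))⁻¹ ((wPw h l * wPw h wJ) (simF h k hk)) with hδ
    change D.IsPosRoot δ
    by_contra hn'
    have h4 : D.IsNegRoot δ := (not_isPos_iff h δ.isLt).mp hn'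
    have h5 : D.IsPosRoot (negF h δ) := (isPosRoot_neg h δ.isLt).mpr h4
    have h6 := isNeg_w0 h h2 ax h3 h5
    have h7 : wWord D (w0Of D.nroots) (negF h δ) = negF h (wPw h (w0Of D.nroots) δ) := by
      rw [← H₀.neg, wPw_val h h3.w0_lt]
    have e9 : wPw h (w0Of D.nroots) ((wPw h (w0Of D.nroots))⁻¹ ((wPw h l * wPw h wJ) (simF h k hk))) =
        (wPw h l * wPw h wJ) (simF h k hk) := by simp
    rw [h7, hδ, e9] at h6
    have h8 := hx k hk
    have h9 : D.IsPosRoot (negF h ((wPw h l * wPw h wJ) (simF h k hk))) :=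
      (isPosRoot_neg h (Fin.isLt _)).mpr h8
    exact not_isNeg_of_isPos h h9 h6
  have hH := mem_H_of_pos h h2 ax hg Hg hpos
  have hone := perm_of_mem_H h ax h2 hH Hg
  have e1 : wPw h l * wPw h wJ = wPw h (w0Of D.nroots) := by
    have := congrArg (fun f => wPw h (w0Of D.nroots) * f) hone
    simpa using this
  rw [wPw_append, ← wPw_inv h hl0, ← e1]
  simp

omit [CharP F 2] in
lemma exists_bits (n : ℕ) (J : ℕ → Prop) : ∃ b, b < 2 ^ n ∧ ∀ i, i < n → (b.testBit i = true ↔ J i) := by
  classical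
  induction n with
  | zero => exact ⟨0, by simp, by simp⟩
  | succ n ih =>
    obtain ⟨b, hb, hs⟩ := ih
    by_cases hJ : J n
    · refine ⟨2 ^ n + b, by rw [pow_succ]; omega, ?_⟩
      intro i hi
      rcases Nat.lt_or_ge i n with h1 | h1
      · rw [Nat.testBit_two_pow_add_gt h1, hs i h1]
      · have : i = n := by omega
        subst this
        rw [Nat.testBit_two_pow_add_eq, Nat.testBit_lt_two_pow hb]
        simp [hJ]
    · refine ⟨b, by rw [pow_succ]; omega, ?_⟩
      intro i hi
      rcases Nat.lt_or_ge i n with h1 | h1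
      · exact hs i h1
      · have : i = n := by omega
        subst this
        rw [Nat.testBit_lt_two_pow hb]
        simp [hJ]

/-- Lookup of a reflection in a table coded as a single number. -/
def fastR (T n i s : ℕ) : ℕ := (T >>> (8 * (i * n + s))) % 256

/-- The action of a word through the table. -/
def wFast (T n : ℕ) (l : List ℕ) (s : ℕ) : ℕ := l.foldr (fastR T n) s

/-- The table is correct. -/
structure FT (D : ChevalleyDatum) (rk n N T : ℕ) (sim w0 : List ℕ) : Prop where
  hr : D.rank = rk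
  hn : D.nroots = n
  refl : ∀ i, i < rk → ∀ s, s < n → D.reflectRoot i s = fastR T n i s
  neg : ∀ s, s < n → (D.IsNegRoot s ↔ s < N)
  sim : ∀ i, i < rk → D.simple i = sim.getD i 0
  w0 : w0Of n = w0

/-- The check that a table is correct. -/
def ftChk (D : ChevalleyDatum) (rk n N T : ℕ) (sim w0 : List ℕ) : Bool :=
  decide (D.rank = rk) && decide (D.nroots = n) &&
    allBelow rk (fun i => allBelow n fun s => D.reflectRoot i s == fastR T n i s) &&
    allBelow n (fun s => decide (D.IsNegRoot s) == decide (s < N)) &&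
    allBelow rk (fun i => D.simple i == sim.getD i 0) && decide (w0Of n = w0)

omit [CharP F 2] in
theorem ft_of_chk {D : ChevalleyDatum} {rk n N T : ℕ} {sim w0 : List ℕ} (hc : ftChk D rk n N T sim w0 = true) :
    FT D rk n N T sim w0 := by
  simp only [ftChk, Bool.and_eq_true, decide_eq_true_eq] at hc
  obtain ⟨⟨⟨⟨⟨h1, h2⟩, h3⟩, h4⟩, h5⟩, h6⟩ := hc
  refine ⟨h1, h2, ?_, ?_, ?_, h6⟩
  · intro i hi s hs
    have := allBelow_spec (allBelow_spec h3 i hi) s hs
    simpa using this
  · intro s hs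
    have := allBelow_spec h4 s hs
    simpa using this
  · intro i hi
    have := allBelow_spec h5 i hi
    simpa using this

omit [CharP F 2] in
include h in
lemma wWord_eq_wFast {rk n N T : ℕ} {sim w0 : List ℕ} (hF : FT D rk n N T sim w0) {l : List ℕ}
    (hl : ∀ i ∈ l, i < rk) {s : ℕ} (hs : s < n) : wWord D l s = wFast T n l s := by
  induction l with
  | nil => rfl
  | cons i l ih =>
    have hi : i < rk := hl i (by simp)
    have hl' : ∀ j ∈ l, j < rk := fun j hj => hl j (by simp [hj])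
    have e1 : wWord D (i :: l) s = D.reflectRoot i (wWord D l s) := rfl
    have e2 : wFast T n (i :: l) s = fastR T n i (wFast T n l s) := rfl
    have hl2 : ∀ j ∈ l, j < D.rank := fun j hj => hF.hr ▸ hl' j hj
    have hs2 : s < D.nroots := hF.hn ▸ hs
    have hlt : wWord D l s < n := hF.hn ▸ wWord_lt h hl2 hs2
    rw [e1, e2, ih hl', hF.refl i hi _ (by rw [← ih hl']; exact hlt)]

/-- The check of one row of the table of the classes of monomial involutions. -/
def rowChk (rk n N T : ℕ) (sim w0 : List ℕ) (frWs : List (List ℕ)) (b : ℕ) (row : List ℕ × List ℕ × ℕ) : Bool :=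
  row.1.all (fun i => decide (i < rk) && b.testBit i) &&
  allBelow rk (fun i => !b.testBit i || decide (wFast T n row.1 (sim.getD i 0) < N)) &&
  (!(allBelow rk fun i => if b.testBit i then wFast T n (w0 ++ row.1.reverse) (sim.getD i 0) == sim.getD i 0
        else decide (wFast T n (w0 ++ row.1.reverse) (sim.getD i 0) < N)) ||
    (decide (row.2.2 < frWs.length) && row.2.1.all (fun i => decide (i < rk)) &&
      allBelow rk fun i => wFast T n (row.2.1 ++ frWs.getD row.2.2 [] ++ row.2.1.reverse) (sim.getD i 0) ==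
        wFast T n (w0 ++ row.1.reverse) (sim.getD i 0)))

include h h2 ax

/-- Every involution (or the identity) is conjugate to the product of root elements along a frame in the list. -/
theorem classify [Fintype F] (h3 : Tab3 D) {rk n N T : ℕ} {sim w0 : List ℕ} (hF : FT D rk n N T sim w0)
    {frs : List (List (List ℕ × ℕ))} {tbl : List (List ℕ × List ℕ × ℕ)}
    (hT : allBelow (2 ^ rk) (fun b => rowChk rk n N T sim w0 (frs.map frW) b (tbl.getD b ([], [], 0))) = true)
    (hfr : frs.all (fun fr => frOK D fr && pwB (cm4 D) (frR D fr)) = true)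
    {t : GL D.Idx F} (ht : t ∈ D.group F) (ht2 : t * t = 1) :
    ∃ k, k < frs.length ∧ ∃ g ∈ D.group F, g * t * g⁻¹ = wX ax (frR D (frs.getD k [])) := by
  obtain ⟨hr, hn'⟩ : D.rank = rk ∧ D.nroots = n := ⟨hF.hr, hF.hn⟩
  obtain ⟨g₀, hg₀, π, c, hm, H, hnn, hsim⟩ := exists_conj_monomial h h2 ax ht ht2
  set n' := g₀ * t * g₀⁻¹ with hnd
  obtain ⟨b, hb, hbs⟩ := exists_bits D.rank (fixJ h π)
  have hrow := allBelow_spec hT b (hr ▸ hb)
  set row := tbl.getD b ([], [], 0) with hrowd
  simp only [rowChk, Bool.and_eq_true, Bool.or_eq_true, Bool.not_eq_true', List.all_eq_true] at hrow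
  obtain ⟨⟨h5, h6⟩, h7⟩ := hrow
  have hfixb : ∀ i (hi : i < D.rank), b.testBit i = true ↔ π (simF h i hi) = simF h i hi := by
    intro i hi
    rw [hbs i hi]
    exact ⟨fun ⟨_, hf⟩ => hf, fun hf => ⟨hi, hf⟩⟩
  have hwl : ∀ i ∈ row.1, ∃ hi : i < D.rank, π (simF h i hi) = simF h i hi := by
    intro i hi
    have := h5 i hi
    simp only [Bool.and_eq_true, decide_eq_true_eq] at this
    have hi' : i < D.rank := hr ▸ this.1
    exact ⟨hi', (hfixb i hi').mp this.2⟩
  have hl0 : ∀ i ∈ row.1, i < D.rank := fun i hi => (hwl i hi).1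
  have hl0' : ∀ i ∈ row.1, i < rk := fun i hi => hr ▸ hl0 i hi
  have hsimp : ∀ i (hi : i < D.rank), sim.getD i 0 = D.simple i := fun i hi => (hF.sim i (hr ▸ hi)).symm
  have hsl : ∀ i (hi : i < D.rank), D.simple i < n := fun i hi => hn' ▸ h.simple_lt i hi
  have hwn : ∀ i (hi : i < D.rank), π (simF h i hi) = simF h i hi → D.IsNegRoot (wWord D row.1 (D.simple i)) := by
    intro i hi hf
    have := allBelow_spec h6 i (hr ▸ hi)
    rw [(hfixb i hi).mpr hf, hsimp i hi] at this
    simp only [Bool.not_true, Bool.false_or, decide_eq_true_eq] at this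
    rw [wWord_eq_wFast h hF hl0' (hsl i hi)]
    have hlt : wFast T n row.1 (D.simple i) < n := by
      rw [← wWord_eq_wFast h hF hl0' (hsl i hi), ← hn']
      exact wWord_lt h hl0 (h.simple_lt i hi)
    exact (hF.neg _ hlt).mpr this
  have eπ := perm_eq_w0 ax h h2 h3 hm H hnn hsim hwl hwn
  have hw0 : w0Of D.nroots = w0 := by rw [hn']; exact hF.w0
  rw [hw0] at eπ
  have h3w : ∀ i ∈ w0, i < D.rank := by
    intro i hi
    rw [← hw0] at hi
    exact h3.w0_lt i hi
  have hl1 : ∀ i ∈ w0 ++ row.1.reverse, i < D.rank := by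
    intro i hi
    rcases List.mem_append.mp hi with hi | hi
    · exact h3w i hi
    · exact hl0 i (List.mem_reverse.mp hi)
  have hl1' : ∀ i ∈ w0 ++ row.1.reverse, i < rk := fun i hi => hr ▸ hl1 i hi
  have hval : ∀ i (hi : i < D.rank), ((π (simF h i hi) : Fin D.nroots) : ℕ) =
      wFast T n (w0 ++ row.1.reverse) (D.simple i) := by
    intro i hi
    rw [eπ, ← wWord_eq_wFast h hF hl1' (hsl i hi)]
    exact wPw_simF h hl1 hi
  have hcons : allBelow rk (fun i => if b.testBit i then wFast T n (w0 ++ row.1.reverse) (sim.getD i 0) == sim.getD i 0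
        else decide (wFast T n (w0 ++ row.1.reverse) (sim.getD i 0) < N)) = true := by
    have aux : ∀ m, m ≤ rk → allBelow m (fun i => if b.testBit i then wFast T n (w0 ++ row.1.reverse) (sim.getD i 0) == sim.getD i 0
        else decide (wFast T n (w0 ++ row.1.reverse) (sim.getD i 0) < N)) = true := by
      intro m
      induction m with
      | zero => intro _; rfl
      | succ m ih =>
        intro hm'
        have hm1 : m < D.rank := by omega
        simp only [allBelow, Bool.and_eq_true]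
        refine ⟨?_, ih (by omega)⟩
        rw [hsimp m hm1]
        by_cases hbm : b.testBit m = true
        · rw [if_pos hbm, beq_iff_eq, ← hval m hm1, (hfixb m hm1).mp hbm]
          rfl
        · rw [if_neg hbm, decide_eq_true_eq, ← hval m hm1]
          rcases hsim m hm1 with h8 | h8
          · exact absurd ((hfixb m hm1).mpr h8) hbm
          · have hlt : ((π (simF h m hm1) : Fin D.nroots) : ℕ) < n := hn' ▸ (π (simF h m hm1)).isLt
            exact (hF.neg _ hlt).mp h8
    exact aux _ le_rfl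
  have h7' := h7.resolve_left (by rw [hcons]; simp)
  simp only [Bool.and_eq_true, decide_eq_true_eq] at h7'
  obtain ⟨⟨hk, hv⟩, hagree⟩ := h7'
  rw [List.length_map] at hk
  set k := row.2.2 with hkd
  set v := row.2.1 with hvd
  set fr := frs.getD k [] with hfrd
  have hmem : fr ∈ frs := by
    rw [hfrd, List.getD_eq_getElem _ _ hk]
    exact List.getElem_mem hk
  have hfrW : (frs.map frW).getD k [] = frW fr := by
    rw [hfrd, List.getD_eq_getElem _ _ hk, List.getD_eq_getElem _ _ (by simpa using hk)]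
    simp
  rw [hfrW] at hagree
  have hfr' := (List.all_eq_true.mp hfr) fr hmem
  simp only [Bool.and_eq_true] at hfr'
  obtain ⟨hfrOK, hfrP⟩ := hfr'
  have hW := frW_lt hfrOK
  have hvr : ∀ i ∈ v, i < D.rank := by
    intro i hi
    have := hv i hi
    exact hr ▸ this
  have hl2 : ∀ i ∈ v ++ frW fr ++ v.reverse, i < D.rank := by
    intro i hi
    simp only [List.mem_append, List.mem_reverse] at hi
    rcases hi with (hi | hi) | hi
    · exact hvr i hi
    · exact hW i hi
    · exact hvr i hi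
  have hl2' : ∀ i ∈ v ++ frW fr ++ v.reverse, i < rk := fun i hi => hr ▸ hl2 i hi
  have eπ2 : π = wPw h v * wPw h (frW fr) * (wPw h v)⁻¹ := by
    rw [eπ, ← wPw_eq_of_simple h hl2 hl1 (fun i hi => by
      have := allBelow_spec hagree i (hr ▸ hi)
      rw [hsimp i hi] at this
      rw [wWord_eq_wFast h hF hl2' (hsl i hi), wWord_eq_wFast h hF hl1' (hsl i hi)]
      simpa using this), wPw_inv h hvr, wPw_append, wPw_append]
  -- conjugate by the word
  obtain ⟨c₁, H₁⟩ := exists_isNor_nw h h2 ax (F := F) hvr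
  have hz := nw_mem_monomial_aux h h2 ax (F := F) hvr
  have H' := ((H₁.inv h ax).mul h ax H).mul h ax H₁
  have ep : (wPw h v)⁻¹ * π * wPw h v = wPw h (frW fr) := by
    rw [eπ2]; group
  rw [ep] at H'
  have hm' : (nw D ax v)⁻¹ * n' * nw D ax v ∈ D.monomialSubgroup F :=
    Subgroup.mul_mem _ (Subgroup.mul_mem _ (Subgroup.inv_mem _ hz) hm) hz
  have hnn' : ((nw D ax v)⁻¹ * n' * nw D ax v) * ((nw D ax v)⁻¹ * n' * nw D ax v) = 1 := by
    calc ((nw D ax v)⁻¹ * n' * nw D ax v) * ((nw D ax v)⁻¹ * n' * nw D ax v)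
        = (nw D ax v)⁻¹ * (n' * n') * nw D ax v := by group
      _ = 1 := by rw [hnn]; simp
  obtain ⟨g', hg', e⟩ := conj_of_frame ax h h2 hm' H' hnn' hfrOK hfrP rfl
  have hzG : nw D ax v ∈ D.group F := monomial_le_group h ax hz
  refine ⟨k, hk, g' * (nw D ax v)⁻¹ * g₀, Subgroup.mul_mem _ (Subgroup.mul_mem _ hg' (Subgroup.inv_mem _ hzG)) hg₀, ?_⟩
  rw [← e, hnd]
  group

end ident

/-! ### Moves between frames -/

section moves

variable (ax : Ax D F) (h : Tab D) (h2 : Tab2 D)

/-- Letters with parameter `1`. -/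
def lt1 (l : List ℕ) : List Ltr := l.map fun r => (r, 1, 0, 0)

lemma ev_lt1 (l : List ℕ) : ev (xG ax) (1 : F) 1 (lt1 l) = wX ax l := by
  induction l with
  | nil => rfl
  | cons r l ih =>
    have e : lt1 (r :: l) = (r, 1, 0, 0) :: lt1 l := rfl
    rw [e, ev_cons, ih, wX_cons]
    simp [val]

/-- The key of a positive root. -/
def keyId (r : ℕ) : ℤ := r

/-- Moves: conjugate by a word of the Weyl group, by elements of `U`. -/
def runChain (D : ChevalleyDatum) (f : ℕ) : List ℕ → List (List ℕ × List ℕ × List ℕ) → List ℕ → Bool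
  | L, [], rep => collect D keyId 2 f (lt1 L) == collect D keyId 2 f (lt1 rep)
  | L, s :: rest, rep =>
    s.1.all (fun i => decide (i < D.rank)) && L.all (fun r => decide (r < D.nroots)) &&
      s.2.1.all (fun r => decide (r < D.nroots)) &&
      (collect D keyId 2 f (lt1 s.2.1 ++ lt1 (L.map (wWord D s.1))) ==
        collect D keyId 2 f (lt1 s.2.2 ++ lt1 s.2.1)) && runChain D f s.2.2 rest rep

include h h2

theorem chain_conj {f : ℕ} {L rep : List ℕ} {ch : List (List ℕ × List ℕ × List ℕ)}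
    (hc : runChain D f L ch rep = true) : ∃ g ∈ D.group F, g * wX ax L * g⁻¹ = wX ax rep := by
  have hy := Levi.stRel_xG (D' := D) ax
  have hm := two_cast (F := F)
  induction ch generalizing L with
  | nil =>
    simp only [runChain, beq_iff_eq] at hc
    refine ⟨1, Subgroup.one_mem _, ?_⟩
    have := congrArg (ev (xG ax) (1 : F) 1) hc
    rw [ev_collect hy hm, ev_collect hy hm, ev_lt1, ev_lt1] at this
    rw [this]
    simp
  | cons s rest ih =>
    simp only [runChain, Bool.and_eq_true, List.all_eq_true, decide_eq_true_eq, beq_iff_eq] at hc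
    obtain ⟨⟨⟨⟨h3, h4⟩, h5⟩, h6⟩, h7⟩ := hc
    obtain ⟨g₁, hg₁, e₁⟩ := ih h7
    have e2 := congrArg (ev (xG ax) (1 : F) 1) h6
    rw [ev_collect hy hm, ev_collect hy hm, ev_append, ev_append, ev_lt1, ev_lt1, ev_lt1] at e2
    have hgG : wX ax s.2.1 ∈ D.group F := wX_mem ax h5
    have hz : nw D ax s.1 ∈ D.group F := monomial_le_group h ax (nw_mem_monomial_aux h h2 ax h3)
    refine ⟨g₁ * wX ax s.2.1 * nw D ax s.1, Subgroup.mul_mem _ (Subgroup.mul_mem _ hg₁ hgG) hz, ?_⟩
    have e3 := nw_conj_wX ax h h2 h3 h4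
    have e4 : wX ax s.2.1 * wX ax (L.map (wWord D s.1)) * (wX ax s.2.1)⁻¹ = wX ax s.2.2 := by
      rw [e2]; group
    rw [← e₁, ← e4, ← e3]
    group

/-- Every involution is conjugate to one of the representatives. -/
theorem classify_reps [Fintype F] (h3 : Tab3 D) {rk n N T f : ℕ} {sim w0 : List ℕ} (hF : FT D rk n N T sim w0)
    {frs : List (List (List ℕ × ℕ))} {tbl : List (List ℕ × List ℕ × ℕ)}
    (hT : allBelow (2 ^ rk) (fun b => rowChk rk n N T sim w0 (frs.map frW) b (tbl.getD b ([], [], 0))) = true)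
    (hfr : frs.all (fun fr => frOK D fr && pwB (cm4 D) (frR D fr)) = true)
    {chains : List (List (List ℕ × List ℕ × List ℕ))} {reps : List (List ℕ)}
    (hch : (List.range frs.length).all (fun k => (frs.getD k []).isEmpty ||
      reps.any fun rep => runChain D f (frR D (frs.getD k [])) (chains.getD k []) rep) = true)
    {t : GL D.Idx F} (ht : t ∈ D.group F) (ht2 : t * t = 1) (ht1 : t ≠ 1) :
    ∃ rep ∈ reps, ∃ g ∈ D.group F, g * t * g⁻¹ = wX ax rep := by
  obtain ⟨k, hk, g, hg, e⟩ := classify ax h h2 h3 hF hT hfr ht ht2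
  have h4 := List.all_eq_true.mp hch k (List.mem_range.mpr hk)
  simp only [Bool.or_eq_true, List.any_eq_true] at h4
  rcases h4 with h5 | ⟨rep, hrep, h5⟩
  · exfalso
    have h6 : frs.getD k [] = [] := List.isEmpty_iff.mp h5
    rw [h6] at e
    simp only [frR, List.map_nil, wX_nil] at e
    apply ht1
    have : t = g⁻¹ * (g * t * g⁻¹) * g := by group
    rw [this, e]
    simp
  · obtain ⟨g₁, hg₁, e₁⟩ := chain_conj ax h h2 h5
    refine ⟨rep, hrep, g₁ * g, Subgroup.mul_mem _ hg₁ hg, ?_⟩
    rw [← e₁, ← e]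
    group

end moves

end Cfsg.Agent.Lib.Steinberg.InvGen2
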