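import Cfsg.Agent.Lib.Steinberg.InvRank

/-!
Non-conjugacy of root elements for roots in different orbits of the Weyl group, via the Bruhat decomposition: the
first root is central in the positive roots, the second root is central modulo a closed set of later roots.
-/

set_option autoImplicit false
set_option linter.unusedSectionVars false
set_option linter.unusedVariables false
set_option linter.ambiguousOpen false
set_option linter.dupNamespace false

namespace Cfsg.Agent.Lib.Steinberg.InvLS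

open scoped MatrixGroups Matrix
open Cfsg Lie ChevalleyDatum
open Cfsg.Agent.Lib.Chev
open Tables Tables2 Tables3 Raise Basic AxBasic Torus Products Products2 Mono1 Mono2 Mono3 Bn
open Cfsg.Agent.Lib.Twisted.Fact Cfsg.Agent.Lib.Twisted.Bruhat Cfsg.Agent.Lib.Twisted.Tw
open Cfsg.Agent.Lib.Twisted.Struct
open _root_.Cfsg.Agent.Lib.Steinberg.Rel

variable {D : ChevalleyDatum} {F : Type*} [Field F]

/-- The root `s` is central in `U` modulo the roots in `T`, and `T` is normal in `U`. -/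
structure NormT (D : ChevalleyDatum) (s : ℕ) (T : List ℕ) : Prop where
  hs : D.IsPosRoot s
  hT : ∀ t ∈ T, D.IsPosRoot t
  hns : s ∉ T
  h1 : ∀ p, D.IsPosRoot p → p ≠ s → ∀ c ∈ D.commTerms p s, c.1 ∈ T
  h2 : ∀ p, D.IsPosRoot p → ∀ t ∈ T, p ≠ t → ∀ c ∈ D.commTerms p t, c.1 ∈ T

/-- The check of the structure. -/
def normChk (D : ChevalleyDatum) (s : ℕ) (T : List ℕ) : Bool :=
  decide (D.IsPosRoot s) && T.all (fun t => decide (D.IsPosRoot t)) && decide (s ∉ T) &&
    D.posRoots.all (fun p => (p == s || (D.commTerms p s).all fun c => decide (c.1 ∈ T)) &&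
      T.all fun t => p == t || (D.commTerms p t).all fun c => decide (c.1 ∈ T))

theorem normT_of_chk {s : ℕ} {T : List ℕ} (hc : normChk D s T = true) : NormT D s T := by
  simp only [normChk, Bool.and_eq_true, decide_eq_true_eq, List.all_eq_true, Bool.or_eq_true, beq_iff_eq] at hc
  obtain ⟨⟨⟨h1, h2⟩, h3⟩, h4⟩ := hc
  refine ⟨h1, h2, h3, ?_, ?_⟩
  · intro p hp hne c hc
    have := (h4 p (mem_posRoots.mpr hp)).1
    rcases this with h5 | h5
    · exact absurd h5 hne
    · exact h5 c hc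
  · intro p hp t ht hne c hc
    have := (h4 p (mem_posRoots.mpr hp)).2 t ht
    rcases this with h5 | h5
    · exact absurd h5 hne
    · exact h5 c hc

variable (ax : Ax D F) (h : Tab D) (h2 : Tab2 D)

include h

lemma conj_single_root {p t : ℕ} (hp : D.IsPosRoot p) (ht : D.IsPosRoot t) (hne : t ≠ p)
    {T : ℕ → Prop} (hT : ∀ c ∈ D.commTerms p t, T c.1) (a c : F) :
    ∃ τ ∈ rootClosure ax T, xG ax p a * xG ax t c * (xG ax p a)⁻¹ = xG ax t c * τ := by
  have hnt : t ≠ D.neg p := by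
    intro e
    rw [e] at ht
    exact not_isNeg_of_isPos h ht ((isNegRoot_neg h hp.1).mpr hp)
  refine ⟨wordG ax (D.commWord F p t (-a) c), ?_, ?_⟩
  · apply wordG_mem_rootClosure
    intro q hq
    obtain ⟨k, hk, rfl⟩ := List.mem_map.mp hq
    exact hT k hk
  · have e := xG_comm ax hp.1 ht.1 hne hnt (-a) c
    rw [xG_inv, mul_assoc, e, ← mul_assoc, ← mul_assoc, xG_add, add_neg_cancel, xG_zero, one_mul]

/-- `T` is normal in `U`. -/
lemma U_conj_T {s : ℕ} {T : List ℕ} (hN : NormT D s T) {u : GL D.Idx F} (hu : u ∈ D.posUnipotent F) :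
    ∀ τ ∈ rootClosure ax (· ∈ T), u * τ * u⁻¹ ∈ rootClosure ax (· ∈ T) := by
  rw [posUnipotent_eq ax] at hu
  refine rootClosure_induction ax (Q := fun u => ∀ τ ∈ rootClosure ax (· ∈ T), u * τ * u⁻¹ ∈ rootClosure ax (· ∈ T))
    (by simp) ?_ ?_ hu
  · intro p a hp τ hτ
    apply conj_mem_of_gen ax _ hτ
    intro t c ht
    by_cases hpt : p = t
    · subst hpt
      have e : xG ax p a * xG ax p c * (xG ax p a)⁻¹ = xG ax p c := by
        rw [xG_inv, xG_add, xG_add, show a + c + -a = c by ring]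
      rw [e]
      exact xG_mem_rootClosure ax ht c
    · obtain ⟨τ', hτ', e⟩ := conj_single_root ax h hp (hN.hT t ht) (Ne.symm hpt) (T := (· ∈ T))
        (fun k hk => hN.h2 p hp t ht hpt k hk) a c
      rw [e]
      exact Subgroup.mul_mem _ (xG_mem_rootClosure ax ht c) hτ'
  · intro a b ha hb τ hτ
    have e : a * b * τ * (a * b)⁻¹ = a * (b * τ * b⁻¹) * a⁻¹ := by group
    rw [e]
    exact ha _ (hb τ hτ)

/-- The conjugates of `x_s(c)` under `U`. -/
lemma U_conj_s {s : ℕ} {T : List ℕ} (hN : NormT D s T) {u : GL D.Idx F} (hu : u ∈ D.posUnipotent F) (c : F) :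
    ∃ τ ∈ rootClosure ax (· ∈ T), u * xG ax s c * u⁻¹ = xG ax s c * τ := by
  rw [posUnipotent_eq ax] at hu
  have key : u ∈ D.posUnipotent F ∧ ∀ c : F, ∃ τ ∈ rootClosure ax (· ∈ T), u * xG ax s c * u⁻¹ = xG ax s c * τ := by
    refine rootClosure_induction ax (Q := fun u => u ∈ D.posUnipotent F ∧
      ∀ c : F, ∃ τ ∈ rootClosure ax (· ∈ T), u * xG ax s c * u⁻¹ = xG ax s c * τ) ?_ ?_ ?_ hu
    · exact ⟨Subgroup.one_mem _, fun c => ⟨1, Subgroup.one_mem _, by simp⟩⟩
    · intro p a hp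
      refine ⟨by rw [posUnipotent_eq ax]; exact xG_mem_rootClosure ax hp a, fun c => ?_⟩
      by_cases hps : p = s
      · subst hps
        refine ⟨1, Subgroup.one_mem _, ?_⟩
        rw [xG_inv, xG_add, xG_add, show a + c + -a = c by ring, mul_one]
      · exact conj_single_root ax h hp hN.hs (Ne.symm hps) (T := (· ∈ T)) (fun k hk => hN.h1 p hp hps k hk) a c
    · rintro a b ⟨ha, ha'⟩ ⟨hb, hb'⟩
      refine ⟨Subgroup.mul_mem _ ha hb, fun c => ?_⟩
      obtain ⟨τ₂, h₂, e₂⟩ := hb' c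
      obtain ⟨τ₁, h₁, e₁⟩ := ha' c
      refine ⟨τ₁ * (a * τ₂ * a⁻¹), Subgroup.mul_mem _ h₁ (U_conj_T ax h hN ha τ₂ h₂), ?_⟩
      calc a * b * xG ax s c * (a * b)⁻¹ = a * (b * xG ax s c * b⁻¹) * a⁻¹ := by group
        _ = (a * xG ax s c * a⁻¹) * (a * τ₂ * a⁻¹) := by rw [e₂]; group
        _ = xG ax s c * (τ₁ * (a * τ₂ * a⁻¹)) := by rw [e₁]; group
  exact key.2 c

omit h in
lemma closedP_T {s : ℕ} {T : List ℕ} (hN : NormT D s T) : ClosedP D (· ∈ T) where
  pos := hN.hT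
  closed := by
    intro r u hr hu hlt c hc
    have hne : r ≠ u := Nat.ne_of_lt hlt
    exact hN.h2 r (hN.hT r hr) u hu hne c hc

omit h in
lemma closedP_sT {s : ℕ} {T : List ℕ} (hN : NormT D s T) : ClosedP D (· ∈ s :: T) where
  pos := by
    intro r hr
    rcases List.mem_cons.mp hr with rfl | hr
    · exact hN.hs
    · exact hN.hT r hr
  closed := by
    intro r u hr hu hlt c hc
    have hne : r ≠ u := Nat.ne_of_lt hlt
    have hrp : D.IsPosRoot r := by
      rcases List.mem_cons.mp hr with rfl | hr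
      · exact hN.hs
      · exact hN.hT r hr
    rcases List.mem_cons.mp hu with rfl | hu
    · exact List.mem_cons_of_mem _ (hN.h1 r hrp hne c hc)
    · exact List.mem_cons_of_mem _ (hN.h2 r hrp u hu hne c hc)

include h2

/-- A root element of the central root is not conjugate to a root element of the other root if the roots are in different
orbits of the Weyl group. -/
theorem not_conj_roots {r s : ℕ} {T Lo : List ℕ} (hr : NormT D r []) (hs : NormT D s T) (hLo : r ∈ Lo)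
    (hcl : ∀ i, i < D.rank → ∀ x ∈ Lo, D.reflectRoot i x ∈ Lo) (hsL : s ∉ Lo) {g : GL D.Idx F}
    (hg : g ∈ D.group F) : g * xG ax r 1 * g⁻¹ ≠ xG ax s 1 := by
  intro e
  have hU : D.posUnipotent F ≤ D.borelSubgroup F := le_sup_left
  obtain ⟨b, hb, n, hn, b', hb', rfl⟩ := exists_bruhat h h2 ax hg
  obtain ⟨π, c, H⟩ := exists_isNor h h2 ax hn
  -- the right factor
  obtain ⟨u₂, hu₂, a₂, ha₂, rfl⟩ := (mem_borel_iff ax h).mp hb'
  obtain ⟨y₂, rfl⟩ := exists_tor_of_mem ax h ha₂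
  have e1 := (isNor_tor h ax y₂).conj ⟨r, hr.hs.1⟩ 1
  simp only [Equiv.Perm.coe_one, id_eq, mul_one] at e1
  set d₁ : Fˣ := chi D y₂ r with hd₁
  obtain ⟨τ₀, hτ₀, e2⟩ := U_conj_s ax h hr hu₂ (d₁ : F)
  have hτ₀1 : τ₀ = 1 := by
    refine rootClosure_induction ax (Q := fun g => g = 1) rfl ?_ ?_ hτ₀
    · intro r t hr
      exact absurd hr (List.not_mem_nil)
    · rintro a b rfl rfl
      simp
  rw [hτ₀1, mul_one] at e2
  have e3 := H.conj ⟨r, hr.hs.1⟩ (d₁ : F)
  set ρ : Fin D.nroots := π ⟨r, hr.hs.1⟩ with hρ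
  set e₀ : F := (c ⟨r, hr.hs.1⟩ : F) * d₁ with he₀
  have he₀0 : e₀ ≠ 0 := mul_ne_zero (c _).ne_zero d₁.ne_zero
  -- moving `b` over
  have e4 : b * xG ax ρ e₀ * b⁻¹ = xG ax s 1 := by
    rw [← e3, ← e2, ← e1, ← e]
    group
  have e5 : xG ax ρ e₀ = b⁻¹ * xG ax s 1 * b⁻¹⁻¹ := by
    rw [← e4]; group
  obtain ⟨u₃, hu₃, a₃, ha₃, e6⟩ := (mem_borel_iff ax h).mp (Subgroup.inv_mem _ hb)
  obtain ⟨y₃, rfl⟩ := exists_tor_of_mem ax h ha₃
  have e7 := (isNor_tor h ax y₃).conj ⟨s, hs.hs.1⟩ 1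
  simp only [Equiv.Perm.coe_one, id_eq, mul_one] at e7
  set d₃ : Fˣ := chi D y₃ s with hd₃
  obtain ⟨τ, hτ, e8⟩ := U_conj_s ax h hs hu₃ (d₃ : F)
  have e9 : xG ax ρ e₀ = xG ax s (d₃ : F) * τ := by
    rw [e5, e6, ← e8, ← e7]
    group
  have hd₃0 : (d₃ : F) ≠ 0 := d₃.ne_zero
  have hs1 : xG ax s (d₃ : F) ∈ rootClosure ax (· ∈ s :: T) := xG_mem_rootClosure ax (by simp) _
  have hτ1 : τ ∈ rootClosure ax (· ∈ s :: T) := rootClosure_mono ax (fun r hr => by simp [show r ∈ T from hr]) hτ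
  have hm : xG ax ρ e₀ ∈ rootClosure ax (· ∈ s :: T) := by
    rw [e9]; exact Subgroup.mul_mem _ hs1 hτ1
  have hB : xG ax ρ e₀ ∈ D.borelSubgroup F := by
    apply hU
    rw [e9]
    apply Subgroup.mul_mem
    · rw [posUnipotent_eq ax]; exact xG_mem_rootClosure ax hs.hs _
    · rw [posUnipotent_eq ax]; exact rootClosure_mono ax hs.hT hτ
  have hρp : D.IsPosRoot ρ := isPos_of_conj_mem_borel h h2 ax (s := 0) ρ.isLt he₀0 hB
  have hmem := root_mem_closure ax h h2 (closedP_sT hs) hρp he₀0 hm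
  rcases List.mem_cons.mp hmem with h5 | h5
  · -- `π r = s` is excluded by the orbit
    obtain ⟨l, hl, rfl⟩ := exists_list h2 hn H
    have hv : ((wPw h l ⟨r, hr.hs.1⟩ : Fin D.nroots) : ℕ) = wWord D l r := wPw_val h hl _
    have hw : ∀ (l : List ℕ), (∀ i ∈ l, i < D.rank) → wWord D l r ∈ Lo := by
      intro l
      induction l with
      | nil => intro _; exact hLo
      | cons i l ih =>
        intro hl'
        exact hcl i (hl' i (by simp)) _ (ih fun j hj => hl' j (by simp [hj]))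
    apply hsL
    rw [← h5, hρ, hv]
    exact hw l hl
  · -- otherwise `x_s` is in the closure of `T`
    have h6 : xG ax ρ e₀ ∈ rootClosure ax (· ∈ T) := xG_mem_rootClosure ax h5 _
    have h7 : xG ax s (d₃ : F) ∈ rootClosure ax (· ∈ T) := by
      have : xG ax s (d₃ : F) = xG ax ρ e₀ * τ⁻¹ := by rw [e9]; group
      rw [this]
      exact Subgroup.mul_mem _ h6 (Subgroup.inv_mem _ hτ)
    exact hs.hns (root_mem_closure ax h h2 (closedP_T hs) hs.hs hd₃0 h7)

end Cfsg.Agent.Lib.Steinberg.InvLS
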