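import Cfsg.Agent.Lib.Steinberg.InvRank
import Cfsg.Agent.Lib.Steinberg.InvLS

/-!
The assembly of the classification of the involutions from the tables.
-/

set_option autoImplicit false
set_option linter.unusedSectionVars false
set_option linter.unusedVariables false
set_option linter.ambiguousOpen false
set_option linter.dupNamespace false

namespace Cfsg.Agent.Lib.Steinberg.InvMain

open scoped MatrixGroups Matrix
open Cfsg Lie ChevalleyDatum
open Cfsg.Agent.Lib.Chev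
open Tables Tables2 Tables3 AxBasic Mono3
open _root_.Cfsg.Agent.Lib.Steinberg.Fold
open _root_.Cfsg.Agent.Lib.Steinberg.InvGen2 _root_.Cfsg.Agent.Lib.Steinberg.InvRank

variable {D : ChevalleyDatum} {F : Type*} [Field F] [CharP F 2]

variable (ax : Ax D F) (h : Tab D) (h2 : Tab2 D)

lemma wX_val (l : List ℕ) :
    ((wX ax l : GL D.Idx F) : Matrix D.Idx D.Idx F) = (l.map fun r => D.x F r 1).prod := by
  induction l with
  | nil => rfl
  | cons r l ih =>
    rw [wX_cons, Units.val_mul, ih, xG_val]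
    simp

lemma mem_list_iff {reps : List (List ℕ)} {mats : List (Matrix D.Idx D.Idx F)}
    (hm : mats = reps.map fun l => (l.map fun r => D.x F r 1).prod) (y : GL D.Idx F) :
    (y : Matrix D.Idx D.Idx F) ∈ mats ↔ ∃ rep ∈ reps, y = wX ax rep := by
  rw [hm, List.mem_map]
  constructor
  · rintro ⟨l, hl, e⟩
    refine ⟨l, hl, Units.ext ?_⟩
    rw [wX_val, e]
  · rintro ⟨l, hl, rfl⟩
    exact ⟨l, hl, (wX_val ax l).symm⟩

/-- The rank distinguishes the representatives. -/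
theorem dist_of_rank {reps : List (List ℕ)} {ρ : List ℕ → ℕ}
    (hρ : ∀ rep ∈ reps, (((wX ax rep : GL D.Idx F) : Matrix D.Idx D.Idx F) - 1).rank = ρ rep)
    (hinj : ∀ rep₁ ∈ reps, ∀ rep₂ ∈ reps, ρ rep₁ = ρ rep₂ → rep₁ = rep₂) :
    ∀ rep₁ ∈ reps, ∀ rep₂ ∈ reps, (∃ g ∈ D.group F, g * wX ax rep₁ * g⁻¹ = wX ax rep₂) → rep₁ = rep₂ := by
  rintro r₁ h₁ r₂ h₂ ⟨g, -, e⟩
  apply hinj r₁ h₁ r₂ h₂
  rw [← hρ r₁ h₁, ← hρ r₂ h₂]
  exact (rank_conj e).symm

/-- The rank distinguishes the representatives, up to one pair. -/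
theorem dist_of_rank' {reps : List (List ℕ)} {ρ : List ℕ → ℕ} {A B : List ℕ}
    (hρ : ∀ rep ∈ reps, (((wX ax rep : GL D.Idx F) : Matrix D.Idx D.Idx F) - 1).rank = ρ rep)
    (hinj : ∀ rep₁ ∈ reps, ∀ rep₂ ∈ reps, ρ rep₁ = ρ rep₂ → rep₁ = rep₂ ∨ (rep₁ = A ∧ rep₂ = B) ∨ (rep₁ = B ∧ rep₂ = A))
    (hAB : ∀ g ∈ D.group F, g * wX ax A * g⁻¹ ≠ wX ax B) :
    ∀ rep₁ ∈ reps, ∀ rep₂ ∈ reps, (∃ g ∈ D.group F, g * wX ax rep₁ * g⁻¹ = wX ax rep₂) → rep₁ = rep₂ := by
  rintro r₁ h₁ r₂ h₂ ⟨g, hg, e⟩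
  have h3 : ρ r₁ = ρ r₂ := by
    rw [← hρ r₁ h₁, ← hρ r₂ h₂]
    exact (rank_conj e).symm
  rcases hinj r₁ h₁ r₂ h₂ h3 with h4 | ⟨rfl, rfl⟩ | ⟨rfl, rfl⟩
  · exact h4
  · exact absurd e (hAB g hg)
  · refine absurd ?_ (hAB g⁻¹ (Subgroup.inv_mem _ hg))
    rw [← e]
    group

/-- A product with a nonzero rank is nontrivial. -/
theorem ne_one_of_rank {rep : List ℕ} {k : ℕ}
    (hρ : (((wX ax rep : GL D.Idx F) : Matrix D.Idx D.Idx F) - 1).rank = k) (hk : 0 < k) : wX ax rep ≠ 1 := by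
  intro e
  rw [e] at hρ
  simp at hρ
  omega

include h h2 in
/-- Representatives from the tables. -/
theorem reps_main [Fintype F] (h3 : Tab3 D) {rk n N T f : ℕ} {sim w0 : List ℕ} (hF : FT D rk n N T sim w0)
    {frs : List (List (List ℕ × ℕ))} {tbl : List (List ℕ × List ℕ × ℕ)}
    (hT : allBelow (2 ^ rk) (fun b => rowChk rk n N T sim w0 (frs.map frW) b (tbl.getD b ([], [], 0))) = true)
    (hfr : frs.all (fun fr => frOK D fr && pwB (cm4 D) (frR D fr)) = true)
    {chains : List (List (List ℕ × List ℕ × List ℕ))} {reps : List (List ℕ)}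
    (hch : (List.range frs.length).all (fun k => (frs.getD k []).isEmpty ||
      reps.any fun rep => runChain D f (frR D (frs.getD k [])) (chains.getD k []) rep) = true)
    (hreps : reps.all (fun l => l.all (fun r => decide (r < D.nroots)) && pwB (cm4 D) l) = true)
    (hne : ∀ rep ∈ reps, wX ax rep ≠ 1) :
    (∀ rep ∈ reps, wX ax rep ∈ D.group F ∧ orderOf (wX ax rep) = 2) ∧
      (∀ g ∈ D.group F, orderOf g = 2 → ∃ rep ∈ reps, ∃ x ∈ D.group F, x * g * x⁻¹ = wX ax rep) := by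
  constructor
  · intro rep hrep
    have h4 := List.all_eq_true.mp hreps rep hrep
    simp only [Bool.and_eq_true, List.all_eq_true, decide_eq_true_eq] at h4
    refine ⟨wX_mem ax h4.1, orderOf_eq_prime ?_ (hne rep hrep)⟩
    rw [pow_two]
    exact (frame_conj ax h h2 h4.2 h4.1).2
  · intro g hg ho
    have hsq : g * g = 1 := by
      rw [← pow_two, ← ho]
      exact pow_orderOf_eq_one g
    have hg1 : g ≠ 1 := by
      rintro rfl
      simp at ho
    exact classify_reps ax h h2 h3 hF hT hfr hch hg hsq hg1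

/-- Two root elements with parameter one commute. -/
def cm1 (D : ChevalleyDatum) (a b : ℕ) : Bool := comOK D 2 (a, 1) (b, 1)

omit [CharP F 2] in
lemma wX_sq_aux [CharP F 2] {R : List ℕ} (hR : pwB (cm1 D) R = true) : wX ax R * wX ax R = 1 := by
  induction R with
  | nil => simp
  | cons r R ih =>
    simp only [pwB, Bool.and_eq_true, List.all_eq_true] at hR
    have hy := Levi.stRel_xG (D' := D) ax
    have hm := two_cast (F := F)
    have hc : Commute (xG ax r 1) (wX ax R) := by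
      apply Commute.list_prod_right
      intro x hx
      obtain ⟨s, hs, rfl⟩ := List.mem_map.mp hx
      exact (commute_of_comOK hy hm (hR.1 s hs) 1 1).symm
    rw [wX_cons]
    calc xG ax r 1 * wX ax R * (xG ax r 1 * wX ax R) = xG ax r 1 * (wX ax R * xG ax r 1) * wX ax R := by group
      _ = xG ax r 1 * (xG ax r 1 * wX ax R) * wX ax R := by rw [hc.symm.eq]
      _ = (xG ax r 1 * xG ax r 1) * (wX ax R * wX ax R) := by group
      _ = 1 := by rw [ih hR.2, xG_sq]; simp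

include h h2 in
/-- Representatives from the tables, with representatives which need only commute. -/
theorem reps_main' [Fintype F] (h3 : Tab3 D) {rk n N T f : ℕ} {sim w0 : List ℕ} (hF : FT D rk n N T sim w0)
    {frs : List (List (List ℕ × ℕ))} {tbl : List (List ℕ × List ℕ × ℕ)}
    (hT : allBelow (2 ^ rk) (fun b => rowChk rk n N T sim w0 (frs.map frW) b (tbl.getD b ([], [], 0))) = true)
    (hfr : frs.all (fun fr => frOK D fr && pwB (cm4 D) (frR D fr)) = true)
    {chains : List (List (List ℕ × List ℕ × List ℕ))} {reps : List (List ℕ)}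
    (hch : (List.range frs.length).all (fun k => (frs.getD k []).isEmpty ||
      reps.any fun rep => runChain D f (frR D (frs.getD k [])) (chains.getD k []) rep) = true)
    (hreps : reps.all (fun l => l.all (fun r => decide (r < D.nroots)) && pwB (cm1 D) l) = true)
    (hne : ∀ rep ∈ reps, wX ax rep ≠ 1) :
    (∀ rep ∈ reps, wX ax rep ∈ D.group F ∧ orderOf (wX ax rep) = 2) ∧
      (∀ g ∈ D.group F, orderOf g = 2 → ∃ rep ∈ reps, ∃ x ∈ D.group F, x * g * x⁻¹ = wX ax rep) := by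
  constructor
  · intro rep hrep
    have h4 := List.all_eq_true.mp hreps rep hrep
    simp only [Bool.and_eq_true, List.all_eq_true, decide_eq_true_eq] at h4
    refine ⟨wX_mem ax h4.1, orderOf_eq_prime ?_ (hne rep hrep)⟩
    rw [pow_two]
    exact wX_sq_aux ax h4.2
  · intro g hg ho
    have hsq : g * g = 1 := by
      rw [← pow_two, ← ho]
      exact pow_orderOf_eq_one g
    have hg1 : g ≠ 1 := by
      rintro rfl
      simp at ho
    exact classify_reps ax h h2 h3 hF hT hfr hch hg hsq hg1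

/-- The form of the statements. -/
theorem statement_form [Fintype F] {reps : List (List ℕ)} {mats : List (Matrix D.Idx D.Idx F)}
    (hm : mats = reps.map fun l => (l.map fun r => D.x F r 1).prod)
    (hA : ∀ rep ∈ reps, wX ax rep ∈ D.group F ∧ orderOf (wX ax rep) = 2)
    (hB : ∀ g ∈ D.group F, orderOf g = 2 → ∃ rep ∈ reps, ∃ x ∈ D.group F, x * g * x⁻¹ = wX ax rep)
    (hC : ∀ rep₁ ∈ reps, ∀ rep₂ ∈ reps, (∃ g ∈ D.group F, g * wX ax rep₁ * g⁻¹ = wX ax rep₂) → rep₁ = rep₂) :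
    (∀ y : GL D.Idx F, (y : Matrix D.Idx D.Idx F) ∈ mats → y ∈ D.group F ∧ orderOf y = 2) ∧
    (∀ g ∈ D.group F, orderOf g = 2 → ∃ y ∈ D.group F, (y : Matrix D.Idx D.Idx F) ∈ mats ∧
      ∃ x ∈ D.group F, x * g * x⁻¹ = y) ∧
    (∀ y₁ ∈ D.group F, ∀ y₂ ∈ D.group F, (y₁ : Matrix D.Idx D.Idx F) ∈ mats → (y₂ : Matrix D.Idx D.Idx F) ∈ mats →
      (∃ x ∈ D.group F, x * y₁ * x⁻¹ = y₂) → (y₁ : Matrix D.Idx D.Idx F) = y₂) := by
  refine ⟨?_, ?_, ?_⟩
  · intro y hy
    obtain ⟨rep, hrep, rfl⟩ := (mem_list_iff ax hm y).mp hy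
    exact hA rep hrep
  · intro g hg ho
    obtain ⟨rep, hrep, x, hx, e⟩ := hB g hg ho
    exact ⟨wX ax rep, (hA rep hrep).1, (mem_list_iff ax hm _).mpr ⟨rep, hrep, rfl⟩, x, hx, e⟩
  · intro y₁ _ y₂ _ h₁ h₂ hc
    obtain ⟨r₁, hr₁, rfl⟩ := (mem_list_iff ax hm _).mp h₁
    obtain ⟨r₂, hr₂, rfl⟩ := (mem_list_iff ax hm _).mp h₂
    rw [hC r₁ hr₁ r₂ hr₂ hc]

/-- The number of classes of involutions. -/
theorem ncard_classes {reps : List (List ℕ)} (hnd : reps.Nodup)
    (hA : ∀ rep ∈ reps, wX ax rep ∈ D.group F ∧ orderOf (wX ax rep) = 2)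
    (hB : ∀ g ∈ D.group F, orderOf g = 2 → ∃ rep ∈ reps, ∃ x ∈ D.group F, x * g * x⁻¹ = wX ax rep)
    (hC : ∀ rep₁ ∈ reps, ∀ rep₂ ∈ reps, (∃ g ∈ D.group F, g * wX ax rep₁ * g⁻¹ = wX ax rep₂) → rep₁ = rep₂) :
    (ConjClasses.mk '' {g : ↥(D.group F) | orderOf g = 2}).ncard = reps.length := by
  classical
  set φ : List ℕ → ConjClasses ↥(D.group F) :=
    fun rep => if hm : wX ax rep ∈ D.group F then ConjClasses.mk ⟨wX ax rep, hm⟩ else 1 with hφ
  have hφv : ∀ rep (hrep : rep ∈ reps), φ rep = ConjClasses.mk ⟨wX ax rep, (hA rep hrep).1⟩ := by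
    intro rep hrep
    simp only [hφ]
    rw [dif_pos (hA rep hrep).1]
  have himg : ConjClasses.mk '' {g : ↥(D.group F) | orderOf g = 2} = φ '' (↑reps.toFinset : Set (List ℕ)) := by
    ext c
    constructor
    · rintro ⟨g, hg, rfl⟩
      have ho : orderOf (g : GL D.Idx F) = 2 := by
        rw [Subgroup.orderOf_coe]; exact hg
      obtain ⟨rep, hrep, x, hx, e⟩ := hB g.1 g.2 ho
      refine ⟨rep, by simpa using hrep, ?_⟩
      rw [hφv rep hrep]
      apply ConjClasses.mk_eq_mk_iff_isConj.mpr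
      rw [isConj_iff]
      refine ⟨⟨x, hx⟩⁻¹, ?_⟩
      apply Subtype.ext
      simp only [Subgroup.coe_mul, Subgroup.coe_inv, inv_inv]
      rw [← e]
      group
    · rintro ⟨rep, hrep, rfl⟩
      have hrep' : rep ∈ reps := by simpa using hrep
      refine ⟨⟨wX ax rep, (hA rep hrep').1⟩, ?_, (hφv rep hrep').symm⟩
      show orderOf (⟨wX ax rep, (hA rep hrep').1⟩ : ↥(D.group F)) = 2
      rw [← Subgroup.orderOf_coe]
      exact (hA rep hrep').2
  rw [himg, Set.ncard_image_of_injOn, Set.ncard_coe_finset, List.toFinset_card_of_nodup hnd]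
  intro r₁ h₁ r₂ h₂ e
  have h₁' : r₁ ∈ reps := by simpa using h₁
  have h₂' : r₂ ∈ reps := by simpa using h₂
  rw [hφv r₁ h₁', hφv r₂ h₂'] at e
  have h3 := ConjClasses.mk_eq_mk_iff_isConj.mp e
  rw [isConj_iff] at h3
  obtain ⟨c, hc⟩ := h3
  exact hC r₁ h₁' r₂ h₂' ⟨c.1, c.2, congrArg Subtype.val hc⟩

end Cfsg.Agent.Lib.Steinberg.InvMain
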