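import Cfsg.Agent.Lib.Steinberg.InvGen2
import Cfsg.Agent.Lib.Lie.Core

/-!
Ranks of `y - 1` for products `y` of root elements with parameter one, in characteristic two, by a reflective
computation with bitmasks.
-/

set_option autoImplicit false
set_option linter.unusedSectionVars false
set_option linter.unusedVariables false
set_option linter.ambiguousOpen false
set_option linter.dupNamespace false

namespace Cfsg.Agent.Lib.Steinberg.InvRank

open scoped MatrixGroups Matrix
open Cfsg Lie ChevalleyDatum
open Cfsg.Agent.Lib.Chev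
open AxBasic
open Cfsg.Agent.Lib.Lie.Core
open _root_.Cfsg.Agent.Lib.Steinberg.InvGen2

variable {D : ChevalleyDatum} {F : Type*} [Field F] [CharP F 2]

section gauss

/-- The reduction of a vector along a list. -/
def red : List ℕ → ℕ → ℕ
  | [], v => v
  | b :: B, v => red B (if v.testBit (Nat.log2 b) then v ^^^ b else v)

/-- Insertion in a list with decreasing leading bit. -/
def insD (x : ℕ) : List ℕ → List ℕ
  | [] => [x]
  | b :: B => if Nat.log2 b < Nat.log2 x then x :: b :: B else b :: insD x B

/-- One step of the elimination. -/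
def gaussStep (B : List ℕ) (v : ℕ) : List ℕ :=
  if red B v == 0 then B else insD (red B v) B

/-- The elimination. -/
def gauss (cols : List ℕ) : List ℕ := cols.foldl gaussStep []

/-- The echelon condition. -/
def ech : List ℕ → Bool
  | [] => true
  | b :: B => decide (b ≠ 0) && B.all (fun c => decide (Nat.log2 c < Nat.log2 b)) && ech B

end gauss

section vec

variable (D F)

/-- The vector of a mask. -/
def vecB (m : ℕ) : D.Idx → F := fun i => if m.testBit (code D i) then 1 else 0

variable {D F}

lemma vecB_xor (a b : ℕ) : vecB D F (a ^^^ b) = vecB D F a + vecB D F b := by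
  funext i
  simp only [vecB, Nat.testBit_xor, Pi.add_apply]
  cases a.testBit (code D i) <;> cases b.testBit (code D i) <;> simp [CharTwo.add_self_eq_zero]

lemma vecB_zero : vecB D F 0 = 0 := by
  funext i
  simp [vecB]

/-- The span of a list of masks. -/
def spn (D : ChevalleyDatum) (F : Type*) [Field F] (L : List ℕ) : Submodule F (D.Idx → F) :=
  Submodule.span F (vecB D F '' {m | m ∈ L})

lemma vecB_mem_spn {L : List ℕ} {m : ℕ} (hm : m ∈ L) : vecB D F m ∈ spn D F L :=
  Submodule.subset_span ⟨m, hm, rfl⟩

lemma red_mem {S : Submodule F (D.Idx → F)} {B : List ℕ} (hB : ∀ b ∈ B, vecB D F b ∈ S) {v : ℕ}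
    (hv : vecB D F v ∈ S) : vecB D F (red B v) ∈ S := by
  induction B generalizing v with
  | nil => exact hv
  | cons b B ih =>
    simp only [red]
    apply ih fun c hc => hB c (by simp [hc])
    split_ifs
    · rw [vecB_xor]
      exact S.add_mem hv (hB b (by simp))
    · exact hv

lemma mem_of_red {B : List ℕ} {v : ℕ} : vecB D F v - vecB D F (red B v) ∈ spn D F B := by
  induction B generalizing v with
  | nil => simp [red]
  | cons b B ih =>
    simp only [red]
    have h1 : spn D F B ≤ spn D F (b :: B) := by
      apply Submodule.span_mono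
      rintro _ ⟨m, hm, rfl⟩
      exact ⟨m, by simp [show m ∈ B from hm], rfl⟩
    have h2 := h1 (ih (v := if v.testBit (Nat.log2 b) then v ^^^ b else v))
    split_ifs at h2 ⊢
    · rw [vecB_xor] at h2
      have h3 : vecB D F b ∈ spn D F (b :: B) := vecB_mem_spn (by simp)
      have h4 := (spn D F (b :: B)).add_mem h2 h3
      have e : vecB D F v - vecB D F (red B (v ^^^ b)) =
          vecB D F v + vecB D F b - vecB D F (red B (v ^^^ b)) + vecB D F b := by
        funext i
        simp only [Pi.sub_apply, Pi.add_apply]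
        have : vecB D F b i + vecB D F b i = 0 := CharTwo.add_self_eq_zero _
        linear_combination (-1 : F) * this
      rw [e]
      exact h4
    · exact h2

lemma mem_insD {x : ℕ} {B : List ℕ} {c : ℕ} (hc : c ∈ insD x B) : c = x ∨ c ∈ B := by
  induction B with
  | nil => simpa [insD] using hc
  | cons b B ih =>
    simp only [insD] at hc
    split_ifs at hc
    · simpa using hc
    · simp only [List.mem_cons] at hc ⊢
      rcases hc with h | h
      · exact Or.inr (Or.inl h)
      · rcases ih h with h2 | h2
        · exact Or.inl h2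
        · exact Or.inr (Or.inr h2)

lemma gauss_mem {S : Submodule F (D.Idx → F)} {cols : List ℕ} (hc : ∀ m ∈ cols, vecB D F m ∈ S) :
    ∀ b ∈ gauss cols, vecB D F b ∈ S := by
  have aux : ∀ (L : List ℕ) (B : List ℕ), (∀ m ∈ L, vecB D F m ∈ S) → (∀ b ∈ B, vecB D F b ∈ S) →
      ∀ b ∈ L.foldl gaussStep B, vecB D F b ∈ S := by
    intro L
    induction L with
    | nil => intro B _ hB b hb; exact hB b hb
    | cons v L ih =>
      intro B hL hB
      rw [List.foldl_cons]
      apply ih _ fun m hm => hL m (by simp [hm])
      intro b hb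
      simp only [gaussStep] at hb
      split_ifs at hb
      · exact hB b hb
      · rcases mem_insD hb with rfl | h3
        · exact red_mem hB (hL v (by simp))
        · exact hB b h3
  exact aux cols [] hc (by simp)

/-- The masks in a list of decreasing leading bit are linearly independent. -/
theorem ech_indep (N : ℕ) (hN : N = D.nroots + D.rank) {B : List ℕ} (he : ech B = true)
    (hlog : ∀ b ∈ B, Nat.log2 b < N) :
    LinearIndependent F (fun i : Fin B.length => vecB D F (B.get i)) := by
  induction B with
  | nil =>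
    haveI : IsEmpty (Fin ([] : List ℕ).length) := inferInstanceAs (IsEmpty (Fin 0))
    exact linearIndependent_empty_type
  | cons b B ih =>
    simp only [ech, Bool.and_eq_true, decide_eq_true_eq, List.all_eq_true] at he
    obtain ⟨⟨h0, h1⟩, h2⟩ := he
    have ih' := ih h2 fun c hc => hlog c (by simp [hc])
    have e : (fun i : Fin (b :: B).length => vecB D F ((b :: B).get i)) =
        Fin.cons (vecB D F b) (fun i : Fin B.length => vecB D F (B.get i)) := by
      funext i
      refine Fin.cases ?_ (fun j => ?_) i
      · rfl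
      · rfl
    rw [e]
    refine linearIndependent_finCons.mpr ⟨ih', ?_⟩
    -- the coordinate at the leading bit
    have hlt := hlog b (by simp)
    subst hN
    set i₀ : D.Idx := decode D (Nat.log2 b) hlt with hi₀
    have hc : code D i₀ = Nat.log2 b := code_decode D _ hlt
    intro hm
    have hle : Submodule.span F (Set.range fun i : Fin B.length => vecB D F (B.get i)) ≤
        LinearMap.ker (LinearMap.proj (R := F) (φ := fun _ : D.Idx => F) i₀) := by
      rw [Submodule.span_le]
      rintro _ ⟨j, rfl⟩
      simp only [SetLike.mem_coe, LinearMap.mem_ker, LinearMap.proj_apply, vecB]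
      have hj := h1 (B.get j) (List.get_mem _ _)
      have hlt2 : B.get j < 2 ^ Nat.log2 b := by
        have := Nat.lt_log2_self (n := B.get j)
        calc B.get j < 2 ^ (Nat.log2 (B.get j) + 1) := this
          _ ≤ 2 ^ Nat.log2 b := Nat.pow_le_pow_right (by omega) hj
      rw [hc, Nat.testBit_lt_two_pow hlt2]
      simp
    have h3 := hle hm
    simp only [LinearMap.mem_ker, LinearMap.proj_apply, vecB] at h3
    rw [hc, Nat.testBit_log2 h0] at h3
    simp at h3

/-- The rank from an elimination. -/
theorem finrank_spn (N : ℕ) (hN : N = D.nroots + D.rank) {cols B : List ℕ} (hg : gauss cols = B)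
    (he : ech B = true) (hlog : ∀ b ∈ B, Nat.log2 b < N) (hr : ∀ m ∈ cols, red B m = 0) :
    Module.finrank F (spn D F cols) = B.length := by
  have h1 : spn D F cols ≤ spn D F B := by
    rw [spn, Submodule.span_le]
    rintro _ ⟨m, hm, rfl⟩
    have := mem_of_red (D := D) (F := F) (B := B) (v := m)
    rw [hr m hm, vecB_zero, sub_zero] at this
    exact this
  have h2 : spn D F B ≤ spn D F cols := by
    rw [spn, Submodule.span_le]
    rintro _ ⟨m, hm, rfl⟩
    rw [← hg] at hm
    exact gauss_mem (fun c hc => vecB_mem_spn hc) m hm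
  have h3 : spn D F cols = spn D F B := le_antisymm h1 h2
  rw [h3]
  have hi := ech_indep (F := F) (D := D) N hN he hlog
  have h4 := finrank_span_eq_card hi
  simp only [Fintype.card_fin] at h4
  have e5 : (vecB D F '' {m | m ∈ B}) = Set.range (fun i : Fin B.length => vecB D F (B.get i)) := by
    ext x
    constructor
    · rintro ⟨m, hm, rfl⟩
      obtain ⟨i, rfl⟩ := List.mem_iff_get.mp hm
      exact ⟨i, rfl⟩
    · rintro ⟨i, rfl⟩
      exact ⟨_, List.get_mem _ _, rfl⟩
  rw [spn, e5]
  exact h4

/-! ### Action of the root elements on masks -/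

/-- The vector with entries one along a list (with multiplicities). -/
def vecL (D : ChevalleyDatum) (F : Type*) [Field F] (L : List ℕ) : D.Idx → F := vecOf D (L.map fun c => (c, (1 : F)))

/-- The terms with odd coefficient in a column. -/
def oddT (D : ChevalleyDatum) (r c : ℕ) : List ℕ :=
  ((colTerms D r c).filter fun e => e.2.2 % 2 == 1).map fun e => e.1

omit [CharP F 2] in
lemma vecL_nil : vecL D F [] = 0 := by
  funext i; simp [vecL]

omit [CharP F 2] in
lemma vecL_append (L L' : List ℕ) : vecL D F (L ++ L') = vecL D F L + vecL D F L' := by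
  funext i
  simp [vecL, vecOf_append]

omit [CharP F 2] in
lemma vecL_cons (c : ℕ) (L : List ℕ) (i : D.Idx) :
    vecL D F (c :: L) i = (if c = code D i then 1 else 0) + vecL D F L i := by
  simp [vecL, vecOf_cons]

lemma int_cast_two (z : ℤ) : (z : F) = if z % 2 = 1 then 1 else 0 := by
  have h := Int.emod_add_mul_ediv z 2
  have h2 : (2 : F) = 0 := CharTwo.two_eq_zero
  have h3 := congrArg (fun w : ℤ => (w : F)) h
  simp only [Int.cast_add, Int.cast_mul, Int.cast_ofNat, h2, zero_mul, add_zero] at h3
  rw [← h3]
  rcases Int.emod_two_eq z with h4 | h4 <;> simp [h4]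

lemma vecOf_evalTerms (T : List (ℕ × ℕ × ℤ)) :
    vecOf D (evalTerms (1 : F) T) = vecL D F ((T.filter fun e => e.2.2 % 2 == 1).map fun e => e.1) := by
  funext i
  induction T with
  | nil => simp [evalTerms, vecL]
  | cons e T ih =>
    have e1 : evalTerms (1 : F) (e :: T) = (e.1, (e.2.2 : F) * 1 ^ e.2.1) :: evalTerms (1 : F) T := rfl
    rw [e1, vecOf_cons, ih]
    by_cases h : e.2.2 % 2 = 1
    · simp only [List.filter_cons, h, beq_self_eq_true, if_true, List.map_cons, vecL_cons]
      rw [int_cast_two, if_pos h]
      simp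
    · have h' : (e.2.2 % 2 == 1) = false := by simpa using h
      simp only [List.filter_cons, h', if_false, Bool.false_eq_true]
      rw [int_cast_two, if_neg h]
      simp

lemma x_mulVec_vecL {r : ℕ} (hr : r < D.nroots) (L : List ℕ) :
    D.x F r 1 *ᵥ vecL D F L = vecL D F (L.flatMap (oddT D r)) := by
  rw [vecL, x_mulVec_vecOf D r hr]
  induction L with
  | nil => rfl
  | cons c L ih =>
    simp only [List.map_cons, applyCols, List.flatMap_cons]
    funext i
    rw [vecOf_append, vecL_append, Pi.add_apply]
    congr 1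
    · rw [vecOf_map_mul, mul_one, vecOf_evalTerms]
      rfl
    · have := congrFun ih i
      simpa only [applyCols] using this

/-- The action of a word on a list. -/
def actL (D : ChevalleyDatum) (l L : List ℕ) : List ℕ := l.foldr (fun r L' => L'.flatMap (oddT D r)) L

/-- The mask of a list. -/
def maskL (L : List ℕ) : ℕ := L.foldr (fun c acc => 2 ^ c ^^^ acc) 0

lemma vecB_maskL (L : List ℕ) : vecB D F (maskL L) = vecL D F L := by
  induction L with
  | nil => rw [vecL_nil]; exact vecB_zero
  | cons c L ih =>
    have e : maskL (c :: L) = 2 ^ c ^^^ maskL L := rfl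
    funext i
    rw [e, vecB_xor, Pi.add_apply, ih, vecL_cons]
    congr 1
    simp only [vecB, Nat.testBit_two_pow]
    by_cases h : c = code D i <;> simp [h]

variable (ax : Ax D F)

lemma wX_mulVec {l : List ℕ} (hl : ∀ r ∈ l, r < D.nroots) (L : List ℕ) :
    ((wX ax l : GL D.Idx F) : Matrix D.Idx D.Idx F) *ᵥ vecL D F L = vecL D F (actL D l L) := by
  induction l with
  | nil =>
    simp [actL, wX]
  | cons r l ih =>
    rw [wX_cons, Units.val_mul, ← Matrix.mulVec_mulVec, ih fun s hs => hl s (by simp [hs]), xG_val,
      x_mulVec_vecL (hl r (by simp))]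
    rfl

/-- The columns of `y - 1`. -/
def colsOf (D : ChevalleyDatum) (l : List ℕ) (N : ℕ) : List ℕ :=
  (List.range N).map fun c => maskL (actL D l [c]) ^^^ 2 ^ c

/-- A column of `y - 1`. -/
lemma col_eq {l : List ℕ} (hl : ∀ r ∈ l, r < D.nroots) (c : D.Idx) :
    (((wX ax l : GL D.Idx F) : Matrix D.Idx D.Idx F) - 1).col c =
      vecB D F (maskL (actL D l [code D c]) ^^^ 2 ^ code D c) := by
  have h1 : vecL D F [code D c] = Pi.single c 1 := by
    have := vecOf_single D (F := F) c
    simpa [vecL] using this
  have h2 := wX_mulVec ax hl [code D c]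
  rw [h1, Matrix.mulVec_single, MulOpposite.op_one, one_smul] at h2
  rw [vecB_xor, vecB_maskL, ← h2]
  funext i
  simp only [Matrix.col_apply, Matrix.sub_apply, Pi.add_apply]
  have h3 : vecB D F (2 ^ code D c) i = (1 : Matrix D.Idx D.Idx F) i c := by
    simp only [vecB, Nat.testBit_two_pow, Matrix.one_apply]
    by_cases h : c = i
    · subst h; simp
    · have : code D c ≠ code D i := fun e => h (code_inj D e)
      have h' : i ≠ c := Ne.symm h
      simp [h', this]
  rw [h3, sub_eq_add_neg, neg_two]

/-- The rank of `y - 1` from the certificate. -/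
theorem rank_wX {l : List ℕ} (hl : ∀ r ∈ l, r < D.nroots) {N : ℕ} (hN : N = D.nroots + D.rank) {cols B : List ℕ}
    (hc : colsOf D l N = cols) (hg : gauss cols = B) (he : ech B = true) (hlog : ∀ b ∈ B, Nat.log2 b < N)
    (hr : ∀ m ∈ cols, red B m = 0) :
    (((wX ax l : GL D.Idx F) : Matrix D.Idx D.Idx F) - 1).rank = B.length := by
  have e5 : Set.range (((wX ax l : GL D.Idx F) : Matrix D.Idx D.Idx F) - 1).col = vecB D F '' {m | m ∈ cols} := by
    ext x
    constructor
    · rintro ⟨c, rfl⟩
      refine ⟨_, ?_, (col_eq ax hl c).symm⟩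
      show _ ∈ cols
      rw [← hc]
      refine List.mem_map.mpr ⟨code D c, List.mem_range.mpr ?_, rfl⟩
      rw [hN]
      exact code_lt D c
    · rintro ⟨m, hm, rfl⟩
      have hm' : m ∈ colsOf D l N := by rw [hc]; exact hm
      obtain ⟨c, hc', rfl⟩ := List.mem_map.mp hm'
      have hlt : c < D.nroots + D.rank := hN ▸ List.mem_range.mp hc'
      refine ⟨decode D c hlt, ?_⟩
      rw [col_eq ax hl, code_decode]
  rw [Matrix.rank_eq_finrank_span_cols, e5]
  exact finrank_spn (F := F) (D := D) N hN hg he hlog hr

/-- Conjugate elements have the same rank of `y - 1`. -/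
theorem rank_conj {y₁ y₂ g : GL D.Idx F} (e : g * y₁ * g⁻¹ = y₂) :
    ((y₂ : Matrix D.Idx D.Idx F) - 1).rank = ((y₁ : Matrix D.Idx D.Idx F) - 1).rank := by
  have e1 : (y₂ : Matrix D.Idx D.Idx F) - 1 =
      (g : Matrix D.Idx D.Idx F) * ((y₁ : Matrix D.Idx D.Idx F) - 1) * ((g⁻¹ : GL D.Idx F) : Matrix D.Idx D.Idx F) := by
    rw [← e]
    simp only [Units.val_mul, mul_sub, sub_mul, mul_one]
    rw [Units.mul_inv]
  rw [e1, Matrix.rank_mul_eq_left_of_isUnit_det _ _ (Matrix.isUnits_det_units _),
    Matrix.rank_mul_eq_right_of_isUnit_det _ _ (Matrix.isUnits_det_units _)]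

/-- The certificate. -/
def rankChk (D : ChevalleyDatum) (l : List ℕ) (N : ℕ) (cols B : List ℕ) : Bool :=
  l.all (fun r => decide (r < D.nroots)) && decide (N = D.nroots + D.rank) && (colsOf D l N == cols) &&
    (gauss cols == B) && ech B && B.all (fun b => decide (Nat.log2 b < N)) && cols.all fun m => red B m == 0

theorem rank_of_chk {l : List ℕ} {N : ℕ} {cols B : List ℕ} (h : rankChk D l N cols B = true) :
    (((wX ax l : GL D.Idx F) : Matrix D.Idx D.Idx F) - 1).rank = B.length := by
  simp only [rankChk, Bool.and_eq_true, List.all_eq_true, decide_eq_true_eq, beq_iff_eq] at h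
  obtain ⟨⟨⟨⟨⟨⟨h1, h2⟩, h3⟩, h4⟩, h5⟩, h6⟩, h7⟩ := h
  exact rank_wX ax h1 h2 h3 h4 h5 h6 h7

end vec

end Cfsg.Agent.Lib.Steinberg.InvRank
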