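import Cfsg.Agent.Lib.Steinberg.AutPres

/-!
The factorization `U = U₋ U₊` over an arbitrary field, and consequences: elements commuting with the root elements.
-/

set_option autoImplicit false
set_option linter.unusedSectionVars false
set_option linter.unusedVariables false

namespace Cfsg.Agent.Lib.Steinberg.UFactor

open scoped MatrixGroups Matrix
open Cfsg _root_.Cfsg.Lie ChevalleyDatum
open Cfsg.Agent.Lib.Chev
open Tables Tables2 Tables3 Raise Basic AxBasic Torus Products Products2 Mono1 Mono2 Mono3 Order1 Parab Bn Unipotent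
open _root_.Cfsg.Agent.Lib.Steinberg.AutNorm _root_.Cfsg.Agent.Lib.Steinberg.AutRoot
open _root_.Cfsg.Agent.Lib.Steinberg.AutPres
open Cfsg.Agent.Lib.Lie.Facts (IsData)

universe u

variable {D : ChevalleyDatum} {F : Type u} [Field F]

section filt

variable (h : Tab D) (ax : Ax D F)

/-- The root groups of index at least `m`. -/
def T (ax : Ax D F) (m : ℕ) : Subgroup (GL D.Idx F) := rootClosure ax (fun r => D.IsPosRoot r ∧ m ≤ r)

include h in
/-- Conjugation of a root element by a root element, both positive. -/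
lemma conj_xG_T {s q m : ℕ} (hs : D.IsPosRoot s) (hq : D.IsPosRoot q) (hm : m ≤ q) (a b : F) :
    (xG ax s a)⁻¹ * xG ax q b * xG ax s a ∈ T ax m := by
  by_cases e : q = s
  · subst e
    rw [show (xG ax q a)⁻¹ * xG ax q b * xG ax q a = xG ax q b by
      rw [mul_assoc, xG_add, add_comm, ← xG_add]
      group]
    exact xG_mem_rootClosure ax ⟨hq, hm⟩ _
  · have hneg : q ≠ D.neg s := by
      intro e2
      have h1 := not_isNeg_of_isPos h hq
      apply h1
      rw [e2]
      exact (isPosRoot_neg h (h.neg_lt _ hs.1)).mp (by rw [h.neg_neg _ hs.1]; exact hs)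
    have e1 := xG_comm ax hs.1 hq.1 e hneg a b
    have e2 : (xG ax s a)⁻¹ * xG ax q b * xG ax s a = xG ax q b * wordG ax (D.commWord F s q a b) := by
      rw [mul_assoc, e1]
      group
    rw [e2]
    refine Subgroup.mul_mem _ (xG_mem_rootClosure ax ⟨hq, hm⟩ _) ?_
    apply wordG_mem_rootClosure
    intro p hp
    have hlt := commWord_letter_gt h hs hq hp
    obtain ⟨hlt', i, j, hi, hj, hv⟩ := commWord_spec h hs.1 hq.1 hp
    refine ⟨?_, by omega⟩
    rw [isPosRoot_iff h hlt']
    intro k hk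
    rw [hv k hk]
    have h1 := (isPosRoot_iff h hs.1).mp hs k hk
    have h2 := (isPosRoot_iff h hq.1).mp hq k hk
    positivity

include h in
lemma conj_T {s m : ℕ} (hs : D.IsPosRoot s) (a : F) {v : GL D.Idx F} (hv : v ∈ T ax m) :
    (xG ax s a)⁻¹ * v * xG ax s a ∈ T ax m := by
  have := conj_mem_of_gen ax (P := fun r => D.IsPosRoot r ∧ m ≤ r) (K := T ax m) (g := (xG ax s a)⁻¹) (fun r t hr => by
    rw [inv_inv]
    exact conj_xG_T h ax hs hr.1 hr.2 a t) hv
  simpa using this

include h in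
lemma conj_U_T {m : ℕ} {b : GL D.Idx F} (hb : b ∈ D.posUnipotent F) {v : GL D.Idx F} (hv : v ∈ T ax m) :
    b⁻¹ * v * b ∈ T ax m := by
  rw [posUnipotent_eq ax] at hb
  refine rootClosure_induction ax (Q := fun b => ∀ v ∈ T ax m, b⁻¹ * v * b ∈ T ax m) ?_ ?_ ?_ hb v hv
  · intro v hv
    simpa using hv
  · intro r t hr v hv
    exact conj_T h ax hr t hv
  · intro c d hc hd v hv
    have e : (c * d)⁻¹ * v * (c * d) = d⁻¹ * (c⁻¹ * v * c) * d := by group
    rw [e]
    exact hd _ (hc _ hv)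

include h in
lemma comm_T {m : ℕ} (hm : D.IsPosRoot m) (t : F) {b : GL D.Idx F} (hb : b ∈ D.posUnipotent F) :
    b⁻¹ * xG ax m t * b * (xG ax m t)⁻¹ ∈ T ax (m + 1) := by
  rw [posUnipotent_eq ax] at hb
  refine (rootClosure_induction ax (Q := fun b => b ∈ D.posUnipotent F ∧ b⁻¹ * xG ax m t * b * (xG ax m t)⁻¹ ∈ T ax (m + 1))
    ?_ ?_ ?_ hb).2
  · exact ⟨Subgroup.one_mem _, by simp [Subgroup.one_mem]⟩
  · intro r a hr
    refine ⟨by rw [posUnipotent_eq ax]; exact xG_mem_rootClosure ax hr _, ?_⟩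
    by_cases e : m = r
    · subst e
      rw [show (xG ax m a)⁻¹ * xG ax m t * xG ax m a * (xG ax m t)⁻¹ = 1 by
        rw [mul_assoc (xG ax m a)⁻¹, xG_add, add_comm, ← xG_add]
        group]
      exact Subgroup.one_mem _
    · have hneg : m ≠ D.neg r := by
        intro e2
        have h1 := not_isNeg_of_isPos h hm
        apply h1
        rw [e2]
        exact (isPosRoot_neg h (h.neg_lt _ hr.1)).mp (by rw [h.neg_neg _ hr.1]; exact hr)
      have e1 := xG_comm ax hr.1 hm.1 e hneg a t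
      have e2 : (xG ax r a)⁻¹ * xG ax m t * xG ax r a * (xG ax m t)⁻¹ =
          xG ax m t * wordG ax (D.commWord F r m a t) * (xG ax m t)⁻¹ := by
        rw [mul_assoc (xG ax r a)⁻¹, e1]
        group
      rw [e2]
      have hw : wordG ax (D.commWord F r m a t) ∈ T ax (m + 1) := by
        apply wordG_mem_rootClosure
        intro p hp
        have hlt := commWord_letter_gt h hr hm hp
        obtain ⟨hlt', i, j, hi, hj, hv⟩ := commWord_spec h hr.1 hm.1 hp
        refine ⟨?_, by omega⟩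
        rw [isPosRoot_iff h hlt']
        intro k hk
        rw [hv k hk]
        have h1 := (isPosRoot_iff h hr.1).mp hr k hk
        have h2 := (isPosRoot_iff h hm.1).mp hm k hk
        positivity
      have := conj_T h ax hm (-t) hw
      have e3 : (xG ax m (-t))⁻¹ = xG ax m t := by rw [xG_inv, neg_neg]
      have e4 : xG ax m (-t) = (xG ax m t)⁻¹ := (xG_inv ax m t).symm
      rw [e3, e4] at this
      exact this
  · rintro c d ⟨hcU, ihc⟩ ⟨hdU, ihd⟩
    refine ⟨Subgroup.mul_mem _ hcU hdU, ?_⟩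
    have e : (c * d)⁻¹ * xG ax m t * (c * d) * (xG ax m t)⁻¹ =
        (d⁻¹ * (c⁻¹ * xG ax m t * c * (xG ax m t)⁻¹) * d) * (d⁻¹ * xG ax m t * d * (xG ax m t)⁻¹) := by group
    rw [e]
    exact Subgroup.mul_mem _ (conj_U_T h ax hdU ihc) ihd

include h in
lemma T_split {m : ℕ} (hm : D.IsPosRoot m) {c : GL D.Idx F} (hc : c ∈ T ax m) :
    ∃ t, ∃ c' ∈ T ax (m + 1), c = xG ax m t * c' := by
  refine rootClosure_induction ax (Q := fun c => ∃ t, ∃ c' ∈ T ax (m + 1), c = xG ax m t * c') ?_ ?_ ?_ hc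
  · exact ⟨0, 1, Subgroup.one_mem _, by simp [xG_zero]⟩
  · intro r a hr
    by_cases e : r = m
    · subst e
      exact ⟨a, 1, Subgroup.one_mem _, by simp⟩
    · refine ⟨0, xG ax r a, xG_mem_rootClosure ax ⟨hr.1, by have := hr.2; omega⟩ _, by simp [xG_zero]⟩
  · rintro _ _ ⟨t, c₁, hc₁, rfl⟩ ⟨t', c₂, hc₂, rfl⟩
    refine ⟨t + t', (xG ax m t')⁻¹ * c₁ * xG ax m t' * c₂, Subgroup.mul_mem _ (conj_T h ax hm t' hc₁) hc₂, ?_⟩
    rw [← xG_add]
    group

variable (h2 : Tab2 D)

include h in
/-- `U = U₋ U₊` over an arbitrary field. -/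
theorem U_factor_gen {l : List ℕ} (hl : ∀ i ∈ l, i < D.rank) {u : GL D.Idx F} (hu : u ∈ D.posUnipotent F) :
    ∃ a ∈ rootClosure ax (Pm D l), ∃ b ∈ rootClosure ax (Pp D l), u = a * b := by
  have key : ∀ m, ∃ a ∈ rootClosure ax (Pm D l), ∃ b ∈ rootClosure ax (Pp D l), ∃ c ∈ T ax m, u = a * b * c := by
    intro m
    induction m with
    | zero =>
      refine ⟨1, Subgroup.one_mem _, 1, Subgroup.one_mem _, u, ?_, by simp⟩
      rw [posUnipotent_eq ax] at hu
      exact rootClosure_mono ax (fun r hr => ⟨hr, Nat.zero_le _⟩) hu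
    | succ m ih =>
      obtain ⟨a, ha, b, hb, c, hc, rfl⟩ := ih
      by_cases hm : D.IsPosRoot m
      · obtain ⟨t, c', hc', rfl⟩ := T_split h ax hm hc
        have hlt := wWord_lt h hl hm.1
        by_cases hpm : D.IsPosRoot (wWord D l m)
        · refine ⟨a, ha, b * xG ax m t, Subgroup.mul_mem _ hb (xG_mem_rootClosure ax ⟨hm, hpm⟩ _), c', hc', ?_⟩
          group
        · have hnm := (not_isPos_iff h hlt).mp hpm
          have hbU : b ∈ D.posUnipotent F := by
            rw [posUnipotent_eq ax]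
            exact rootClosure_mono ax (fun r hr => hr.1) hb
          have hcm := comm_T h ax hm t hbU
          refine ⟨a * xG ax m t, Subgroup.mul_mem _ ha (xG_mem_rootClosure ax ⟨hm, hnm⟩ _), b, hb,
            (b⁻¹ * (xG ax m t)⁻¹ * b * xG ax m t) * c', Subgroup.mul_mem _ ?_ hc', ?_⟩
          · have hcm' := comm_T h ax hm (-t) hbU
            have e3 : (xG ax m (-t))⁻¹ = xG ax m t := by rw [xG_inv, neg_neg]
            have e4 : xG ax m (-t) = (xG ax m t)⁻¹ := (xG_inv ax m t).symm
            rw [e3, e4] at hcm'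
            exact hcm'
          · group
      · refine ⟨a, ha, b, hb, c, ?_, rfl⟩
        refine rootClosure_mono ax (fun r hr => ⟨hr.1, ?_⟩) hc
        have h1 := hr.2
        have h2 : r ≠ m := fun e => hm (e ▸ hr.1)
        omega
  obtain ⟨a, ha, b, hb, c, hc, e⟩ := key D.nroots
  have hc1 : c = 1 := by
    have hbot : T ax D.nroots = ⊥ := by
      rw [eq_bot_iff]
      apply rootClosure_le
      intro r t hr
      have h1 := hr.1.1
      have h2 := hr.2
      omega
    rw [hbot] at hc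
    exact hc
  refine ⟨a, ha, b, hb, ?_⟩
  rw [e, hc1, mul_one]

end filt

end Cfsg.Agent.Lib.Steinberg.UFactor
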